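import Cfsg.Agent.H94.BR.SpCases_mg_m3
import Cfsg.Agent.H50.RG.Fin_m3
import Cfsg.Agent.H212.BR.Gen_m3
import Cfsg.Agent.H16.BR.Idx
import Cfsg.Agent.LieClassical.OrthForms
import Cfsg.Agent.H862.Spr.Rows
import Cfsg.Agent.H666.TraceZero
import Cfsg.Agent.FastGrp
import Cfsg.Agent.Prune
set_option linter.all false

section
prune_inst 0x7f00000000000000000000000000000000000000000000000000000000000000000000000000000000000000000000000000000000000000000000000000000000000000000000000000000000000000003fffffffffffffffffffffffffff9effbdffffffff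

-- part: H94/BR/SpFin_mg
section
prune_inst 0x20000000000000
set_option linter.all false
open scoped Cfsg.Agent.FastGrp

-- part: H94/BR/SpCore
section
/-!
# HUB BR, `Sp_{2m}(2^f)`: from `H` to the three cases
-/

set_option autoImplicit false

namespace Cfsg.Agent.H94.BR

open Cfsg.Agent.H883.BR

universe u v w

/-- `F` lies in the field generated by the eigenvalues of `N(U)` -/
theorem le_closure {p : ℕ} [Fact p.Prime] {K : Type u} [Field K] [CharP K p] [IsAlgClosed K]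
    (lf : ∀ S : Set K, S.Finite → ∃ E : Subfield K, Finite E ∧ S ⊆ E) {F : Subfield K} {G : Type w}
    [Group G] [Finite G]
    {W : Type v} [AddCommGroup W] [Module K W] [FiniteDimensional K W] (σ : G →* Module.End K W)
    {H M : Subgroup G} (hMH : M ≤ H) (hn : ∀ h ∈ H, ∀ m ∈ M, h * m * h⁻¹ ∈ M) {U : Subgroup M}
    (hc : CRG.{u, v, w} p U) (hirr : Irr σ M) (hz : ∀ z : M, z ∈ Subgroup.center M → σ z = 1) {w : W} (hw : w ≠ 0)
    (hu : ∀ u ∈ U, σ (u : G) w = w) (hdet : ∀ h ∈ H, LinearMap.det (σ h) = 1)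
    {y : G} (hy : y ∈ H) (htr : TrGen F σ y) (hyF : (LinearMap.trace K W (σ y)) ^ Module.finrank K W ∈ F) :
    F ≤ Subfield.closure {c | ∃ b : M, (∀ u ∈ U, b * u * b⁻¹ ∈ U) ∧ σ (b : G) w = c • w} := by
  classical
  let C : Set K := {c | ∃ b : M, (∀ u ∈ U, b * u * b⁻¹ ∈ U) ∧ σ (b : G) w = c • w}
  have hCfin : C.Finite := by
    have h1 : C ⊆ ⋃ b : M, {c | σ (b : G) w = c • w} := by
      rintro c ⟨b, -, hb⟩
      exact Set.mem_iUnion.2 ⟨b, hb⟩
    refine (Set.finite_iUnion fun b => ?_).subset h1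
    apply Set.Subsingleton.finite
    intro c hc c' hc'
    have : (c : K) • w = c' • w := Eq.trans (Eq.symm hc) hc'
    exact smul_left_injective K hw this
  obtain ⟨E, hE, hCE⟩ := lf C hCfin
  have hle : Subfield.closure C ≤ E := Subfield.closure_le.2 hCE
  have hfin : Finite (Subfield.closure C) := Finite.of_injective (Subfield.inclusion hle) (RingHom.injective _)
  have h1 := Cfsg.Agent.H601.BR.fld σ hMH hn hc hirr hz hw hu (Subfield.closure C)
    (fun b c hbu hbw => Subfield.subset_closure ⟨b, hbu, hbw⟩) hdet y hy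
  by_contra hcon
  refine htr (F ⊓ Subfield.closure C) (lt_of_le_of_ne inf_le_left fun h => hcon ?_) ⟨hyF, h1⟩
  rw [← h]
  exact inf_le_right

/-- a perfect group acts with determinant one -/
theorem det_one {K V G : Type} [Field K] [AddCommGroup V] [Module K V] [Group G] (hG : commutator G = ⊤)
    (ρ : G →* Module.End K V) (g : G) : LinearMap.det (ρ g) = 1 := by
  have h1 : Units.map (LinearMap.det : Module.End K V →* K) (ρ.toHomUnits g) = 1 := by
    have h2 : commutator G ≤ ((Units.map (LinearMap.det : Module.End K V →* K)).comp ρ.toHomUnits).ker :=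
      Abelianization.commutator_subset_ker _
    have h3 : g ∈ commutator G := by rw [hG]; trivial
    exact h2 h3
  have h2 := congrArg Units.val h1
  simpa only [_root_.Units.coe_map, _root_.MonoidHom.coe_toHomUnits, _root_.Units.val_one] using h2

/-- the statement of `ext_V` -/
def ExtV : Prop := ∀ (m q : ℕ) (K : Type) [Field K] (F : Subfield K) (V : Type) [AddCommGroup V] [Module K V]
    (B : LinearMap.BilinForm K V) (G : Type) [Group G] (ρ : G →* Module.End K V)
    (b : Module.Basis (Fin m ⊕ Fin m) K V) (W : Type) [AddCommGroup W] [Module K W] (σ : G →* Module.End K W)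
    (π : Lam0 B →ₗ[K] W), SpD m q F B ρ b → WD B ρ σ π → ∀ U : Subgroup G, IsPGroup 2 U → U ≠ ⊥ → ∀ v : V, v ≠ 0 →
    (∀ x : V, (∀ u ∈ U, ρ u x = x) ↔ ∃ c : K, x = c • v) → ∀ w : W, w ≠ 0 →
    (∀ x : W, (∀ u ∈ U, σ u x = x) ↔ ∃ c : K, x = c • w) →
    ∃ v0 v1 : V, (∀ i, b.repr v0 i ∈ F) ∧ (∀ i, b.repr v1 i ∈ F) ∧ v0 ≠ 0 ∧ B v0 v1 = 0 ∧ (¬ ∃ c : K, v1 = c • v0) ∧
      (∀ u ∈ U, ρ u v0 = v0) ∧ (∃ Y : Lam0 B, (Y : Module.End K V) = wd B v0 v1 ∧ ∃ c : K, c ≠ 0 ∧ w = c • π Y) ∧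
      ∃ z ∈ U, ∃ α ∈ F, ∃ β ∈ F, (α ≠ 0 ∨ β ≠ 0) ∧ ρ z = 1 + α • sq B v0 + β • wd B v0 v1

section

variable {m q : ℕ} {K : Type} [Field K] {F : Subfield K} {V : Type} [AddCommGroup V] [Module K V]
  {B : LinearMap.BilinForm K V} {G : Type} [Group G] {ρ : G →* Module.End K V}
  {b : Module.Basis (Fin m ⊕ Fin m) K V} {W : Type} [AddCommGroup W] [Module K W] {σ : G →* Module.End K W}
  {π : Lam0 B →ₗ[K] W}

/-- scalars in `G` are trivial -/
theorem scalar_eq_one (D : SpD m q F B ρ b) {g : G} {c : K} (h : ρ g = c • 1) : g = 1 := by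
  have := D.char
  have hm : 0 < m := by have := D.two_le; omega
  have h1 := D.iso g (b (Sum.inl ⟨0, hm⟩)) (b (Sum.inr ⟨0, hm⟩))
  rw [h, LinearMap.smul_apply, LinearMap.smul_apply, Module.End.one_apply, Module.End.one_apply, map_smul, map_smul,
    LinearMap.smul_apply, D.lr, if_pos rfl, smul_eq_mul, smul_eq_mul, mul_one] at h1
  have hc : c = 1 := by
    have h2 : (c - 1) ^ 2 = 0 := by
      have h3 := add_self_K D c
      have h4 : (c - 1) ^ 2 = c * c - (c + c) + 1 := by ring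
      rw [h4, h1, h3, sub_zero]
      exact add_self_K D 1
    exact sub_eq_zero.1 (pow_eq_zero_iff two_ne_zero |>.1 h2)
  apply D.inj
  rw [h, hc, one_smul, map_one]

/-- **the three cases for `M`** -/
theorem core (hext : ExtV) (D : SpD m q F B ρ b) (hW : WD B ρ σ π)
    (hd : 2 * m ^ 2 - m - 1 ≤ Module.finrank K (Lam0 B))
    (hlam : ∀ S : Submodule K (Module.End K V), _root_.Cfsg.Agent.H883.BR.Inv (ad ρ) ⊤ S → ∀ X ∈ S, X ∈ Lam B → (¬ ∃ c : K, X = c • 1) →
      Lam0 B ≤ S)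
    {H M : Subgroup G} (hMH : M ≤ H) (hn : ∀ h ∈ H, ∀ m ∈ M, h * m * h⁻¹ ∈ M) (hMd : Dns (ad ρ) M) (hMi : Irr ρ M)
    (hzc : ∀ z : M, z ∈ Subgroup.center M → z = 1) {U : Subgroup M} (hU : CRG.{0, 0, 0} 2 U)
    {y : G} (hy : y ∈ H) (ht : TrGen F ρ y) (ht' : TrGen F σ y) :
    Irr σ M ∧ (CaseI B ρ F M ∨ CaseII B ρ F M ∨ ∃ (v0 : V) (w : W), v0 ≠ 0 ∧ w ≠ 0 ∧
      (∀ u ∈ U, ρ (u : G) v0 = v0) ∧ (∀ u ∈ U, σ (u : G) w = w) ∧
      (∀ g : M, (∃ c : K, ρ (g : G) v0 = c • v0) ↔ ∃ c : K, σ (g : G) w = c • w) ∧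
        ∃ j : ℕ, ∀ (g : M) (c : K), (∀ u ∈ U, g * u * g⁻¹ ∈ U) → ρ (g : G) v0 = c • v0 →
          σ (g : G) w = c ^ 2 ^ j • w) := by
  classical
  have := D.finF
  have := D.char
  have := D.closed
  have := D.finG
  have : Fact (Nat.Prime 2) := ⟨Nat.prime_two⟩
  have hfV : FiniteDimensional K V := Cfsg.Agent.H601.BR.V_fd b
  have hfW : FiniteDimensional K W := Cfsg.Agent.H601.BR.W_fd D hW
  have hWi : Irr σ M := Cfsg.Agent.H601.BR.W_irr D hW hd hlam hMd
  refine ⟨hWi, ?_⟩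
  have hzV : ∀ z : M, z ∈ Subgroup.center M → ρ z = 1 := fun z hz => by
    rw [hzc z hz, Subgroup.coe_one, map_one]
  have hzW : ∀ z : M, z ∈ Subgroup.center M → σ z = 1 := fun z hz => by
    rw [hzc z hz, Subgroup.coe_one, map_one]
  obtain ⟨v, hv0, hv⟩ := hU.one K V (ρ.comp M.subtype) (Cfsg.Agent.H601.BR.irr_comp hMi) hzV
  obtain ⟨w, hw0, hw⟩ := hU.one K W (σ.comp M.subtype) (Cfsg.Agent.H601.BR.irr_comp hWi) hzW
  -- `U` as a subgroup of `G`
  have hmem : ∀ u : G, u ∈ U.map M.subtype ↔ ∃ u' ∈ U, (u' : G) = u := fun u => Subgroup.mem_map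
  have hUp : IsPGroup 2 (U.map M.subtype) := hU.isP.map _
  have hUne : U.map M.subtype ≠ ⊥ := by
    intro h
    exact hU.ne ((Subgroup.map_eq_bot_iff_of_injective _ M.subtype_injective).1 h)
  obtain ⟨v0, v1, r0, r1, h0, h88⟩ :=
    hext m q K F V B G ρ b W σ π D hW (U.map M.subtype) hUp hUne v hv0 (fun x => by
      rw [← hv x]
      constructor
      · intro h u hu; exact h _ ((hmem _).2 ⟨u, hu, rfl⟩)
      · intro h u hu
        obtain ⟨u', hu', rfl⟩ := (hmem _).1 hu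
        exact h u' hu') w hw0 (fun x => by
      rw [← hw x]
      constructor
      · intro h u hu; exact h _ ((hmem _).2 ⟨u, hu, rfl⟩)
      · intro h u hu
        obtain ⟨u', hu', rfl⟩ := (hmem _).1 hu
        exact h u' hu')
  revert h88; rintro ⟨h01, hv1, hfix, h88⟩
  revert h88; rintro ⟨⟨Y0, hY0, c0, hc0, hwc⟩, h88⟩
  revert h88; rintro ⟨z, hzU, α, -, β, h88⟩
  revert h88; rintro ⟨-, hαβ, hz⟩
  have hfix' : ∀ u ∈ U, ρ (u : G) v0 = v0 := fun u hu => hfix _ ((hmem _).2 ⟨u, hu, rfl⟩)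
  obtain ⟨d0, hd0⟩ := (hv v0).1 hfix'
  have hd00 : d0 ≠ 0 := by rintro rfl; rw [zero_smul] at hd0; exact h0 hd0
  have hv' : ∀ x : V, (∀ u ∈ U, ρ (u : G) x = x) ↔ ∃ c : K, x = c • v0 := by
    intro x
    refine Iff.trans (hv x) ⟨?_, ?_⟩
    · rintro ⟨c, rfl⟩
      exact ⟨c * d0⁻¹, by rw [hd0, smul_smul, mul_assoc, inv_mul_cancel₀ hd00, mul_one]⟩
    · rintro ⟨c, rfl⟩
      exact ⟨c * d0, by rw [hd0, smul_smul]⟩
  have hw' : ∀ x : W, (∀ u ∈ U, σ (u : G) x = x) ↔ ∃ c : K, x = c • π Y0 := by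
    intro x
    refine Iff.trans (hw x) ⟨?_, ?_⟩
    · rintro ⟨c, rfl⟩
      exact ⟨c * c0, by rw [hwc, smul_smul]⟩
    · rintro ⟨c, rfl⟩
      exact ⟨c * c0⁻¹, by rw [hwc, smul_smul, mul_assoc, inv_mul_cancel₀ hc0, mul_one]⟩
  have hπ0 : π Y0 ≠ 0 := by
    intro h; rw [h, smul_zero] at hwc; exact hw0 hwc
  have hfixW : ∀ u ∈ U, σ (u : G) (π Y0) = π Y0 := (hw' _).2 ⟨1, by rw [one_smul]⟩
  have hdV : ∀ h ∈ H, LinearMap.det (ρ h) = 1 := fun h _ => det_one D.qs.perf ρ h
  have hdW : ∀ h ∈ H, LinearMap.det (σ h) = 1 := fun h _ => det_one D.qs.perf σ h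
  have hF0 := le_closure D.locfin ρ hMH hn hU hMi hzV h0 hfix' hdV hy ht
    (F.pow_mem (Cfsg.Agent.H601.BR.V_trF D y) _)
  have hF1 := le_closure D.locfin σ hMH hn hU hWi hzW hπ0 hfixW hdW hy ht'
    (F.pow_mem (Cfsg.Agent.H601.BR.W_trF D hW y) _)
  have hz' : ∃ z ∈ M, ρ z = 1 + α • sq B v0 + β • wd B v0 v1 := by
    obtain ⟨z', hz', rfl⟩ := (hmem _).1 hzU
    exact ⟨z', z'.2, hz⟩
  rcases cases_core D hW r0 r1 h0 h01 hv1 hv' hY0 hw' hαβ hz' hF0 hF1 with h | h | ⟨h1, h2⟩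
  · exact Or.inl h
  · exact Or.inr (Or.inl h)
  · exact Or.inr (Or.inr ⟨v0, π Y0, h0, hπ0, hfix', hfixW, h1, h2⟩)

end

end Cfsg.Agent.H94.BR
end

-- part: H94/BR/SpRow
section
/-!
# HUB BR, `Sp_{2m}(2^f)`: assembly

`R = ad (ad ρ) ⊕ ad ρ̂`.
-/

set_option autoImplicit false

namespace Cfsg.Agent.H94.BR

open Cfsg.Agent.H883.BR

section prod

variable {K : Type} [Field K] {G : Type} [Group G] {V₁ V₂ : Type} [AddCommGroup V₁] [Module K V₁]
  [AddCommGroup V₂] [Module K V₂]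

/-- direct sum of two representations -/
def prodR (ρ₁ : G →* Module.End K V₁) (ρ₂ : G →* Module.End K V₂) : G →* Module.End K (V₁ × V₂) where
  toFun g := LinearMap.prodMap (ρ₁ g) (ρ₂ g)
  map_one' := by rw [map_one, map_one]; rfl
  map_mul' g h := by rw [map_mul, map_mul]; rfl

theorem prodR_apply (ρ₁ : G →* Module.End K V₁) (ρ₂ : G →* Module.End K V₂) (g : G) :
    prodR ρ₁ ρ₂ g = LinearMap.prodMap (ρ₁ g) (ρ₂ g) := rfl

theorem dns_left {ρ₁ : G →* Module.End K V₁} {ρ₂ : G →* Module.End K V₂} {H : Subgroup G}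
    (h : Dns (prodR ρ₁ ρ₂) H) : Dns ρ₁ H := by
  intro U hU g hg v hv
  have h1 := h (U.prod ⊥) (by
    rintro g hg ⟨x, y⟩ ⟨hx, hy⟩
    refine ⟨hU g hg x hx, ?_⟩
    rw [SetLike.mem_coe, Submodule.mem_bot] at hy
    change ρ₂ g y = 0
    rw [show y = 0 from hy, map_zero])
  exact (h1 g hg (v, 0) ⟨hv, (Submodule.mem_bot K).2 rfl⟩).1

theorem dns_right {ρ₁ : G →* Module.End K V₁} {ρ₂ : G →* Module.End K V₂} {H : Subgroup G}
    (h : Dns (prodR ρ₁ ρ₂) H) : Dns ρ₂ H := by
  intro U hU g hg v hv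
  have h1 := h ((⊥ : Submodule K V₁).prod U) (by
    rintro g hg ⟨x, y⟩ ⟨hx, hy⟩
    refine ⟨?_, hU g hg y hy⟩
    rw [SetLike.mem_coe, Submodule.mem_bot] at hx
    change ρ₁ g x = 0
    rw [show x = 0 from hx, map_zero])
  exact (h1 g hg (0, v) ⟨(Submodule.mem_bot K).2 rfl, hv⟩).2

theorem polyDeg_mono {F : Subfield K} {ι : Type} {x : ι → F → G} {ρ : G →* Module.End K V₁} {e e' : ℕ}
    (h : PolyDeg ρ F x e) (hee : e ≤ e') : PolyDeg ρ F x e' := by
  intro i
  obtain ⟨c, hc⟩ := h i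
  refine ⟨fun j => if j ≤ e then c j else 0, fun t => ?_⟩
  rw [hc t]
  have h1 : Finset.range (e + 1) ⊆ Finset.range (e' + 1) := by
    intro j hj
    rw [Finset.mem_range] at hj ⊢
    omega
  rw [← Finset.sum_subset h1]
  · refine Finset.sum_congr rfl fun j hj => ?_
    rw [Finset.mem_range] at hj
    show _ = _ • (if j ≤ e then c j else 0)
    rw [if_pos (by omega)]
  · intro j _ hj
    rw [Finset.mem_range] at hj
    show _ • (if j ≤ e then c j else 0) = 0
    rw [if_neg (by omega), smul_zero]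

theorem polyDeg_prod {F : Subfield K} {ι : Type} {x : ι → F → G} {ρ₁ : G →* Module.End K V₁}
    {ρ₂ : G →* Module.End K V₂} {e : ℕ} (h₁ : PolyDeg ρ₁ F x e) (h₂ : PolyDeg ρ₂ F x e) :
    PolyDeg (prodR ρ₁ ρ₂) F x e := by
  intro i
  obtain ⟨c, hc⟩ := h₁ i
  obtain ⟨d, hd⟩ := h₂ i
  refine ⟨fun j => LinearMap.prodMap (c j) (d j), fun t => ?_⟩
  rw [prodR_apply, hc t, hd t]
  refine LinearMap.ext fun v => Prod.ext ?_ ?_
  · simp only [LinearMap.sum_apply, Prod.fst_sum, _root_.LinearMap.prodMap_apply, _root_.LinearMap.smul_apply, _root_.Prod.smul_mk]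
  · simp only [LinearMap.sum_apply, Prod.snd_sum, _root_.LinearMap.prodMap_apply, _root_.LinearMap.smul_apply, _root_.Prod.smul_mk]

end prod

/-- the statement of `str` (structure of `H`), characteristic two -/
def StrSt (n : ℕ) : Prop := ∃ B : ℕ, ∀ (K : Type) [Field K] [CharP K 2] [IsAlgClosed K]
    (_ : ∀ S : Set K, S.Finite → ∃ E : Subfield K, Finite E ∧ S ⊆ E)
    (G : Type) [Group G] [Finite G] (V : Type) [AddCommGroup V] [Module K V] [FiniteDimensional K V]
    (ρ : G →* Module.End K V), Module.finrank K V = n → 2 ≤ n → Function.Injective ρ → QS G → Irr ρ ⊤ → TPrim ρ →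
    ∀ H : Subgroup G, Dns (ad (ad ρ)) H → ∀ y ∈ H, (∀ k, 0 < k → k ≤ B → ¬ ∃ c : K, ρ (y ^ k) = c • 1) →
    ∃ M : Subgroup G, M ≤ H ∧ (∀ h ∈ H, ∀ m ∈ M, h * m * h⁻¹ ∈ M) ∧ Dns (ad ρ) M ∧ Irr ρ M ∧ commutator M = ⊤ ∧
      IsSimpleGroup (M ⧸ Subgroup.center M) ∧ ¬ IsMulCommutative (M ⧸ Subgroup.center M) ∧
      Cfsg.IsLieTypeChar 2 (M ⧸ Subgroup.center M) ∧ ∀ z : M, z ∈ Subgroup.center M ↔ ∃ c : K, ρ z = c • 1

/-- the statement of Curtis and Richen, characteristic two -/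
def CrgSt : Prop := ∀ (M : Type) [Group M] [Finite M], commutator M = ⊤ → IsSimpleGroup (M ⧸ Subgroup.center M) →
  Cfsg.IsLieTypeChar 2 (M ⧸ Subgroup.center M) → Nat.card (Subgroup.center M) = 1 →
  ∃ U : Subgroup M, CRG.{0, 0, 0} 2 U

/-- the statement of `twi_of_crg` -/
def TwiSt : Prop := ∀ (K : Type) [Field K] [CharP K 2] [IsAlgClosed K] (V W : Type) [AddCommGroup V] [Module K V]
    [FiniteDimensional K V] [AddCommGroup W] [Module K W] [FiniteDimensional K W] (G : Type) [Group G] [Finite G]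
    (ρ : G →* Module.End K V) (σ : G →* Module.End K W) (M : Subgroup G) (U : Subgroup M), CRG.{0, 0, 0} 2 U →
    Irr ρ M → Irr σ M → (∀ z : M, z ∈ Subgroup.center M → ρ z = 1 ∧ σ z = 1) → ∀ (v0 : V) (w : W), v0 ≠ 0 → w ≠ 0 →
    (∀ u ∈ U, ρ (u : G) v0 = v0) → (∀ u ∈ U, σ (u : G) w = w) → ∀ j : ℕ,
    (∀ (b : M) (c : K), (∀ u ∈ U, b * u * b⁻¹ ∈ U) → ρ (b : G) v0 = c • v0 → σ (b : G) w = c ^ 2 ^ j • w) →
    (∀ g : M, (∃ c : K, ρ (g : G) v0 = c • v0) ↔ ∃ c : K, σ (g : G) w = c • w) → ∃ φ : V → W, Twi ρ σ M j φ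

/-- isomorphic modules have the same dimension -/
def TwiDim : Prop := ∀ (K : Type) [Field K] [CharP K 2] [IsAlgClosed K] (V W : Type) [AddCommGroup V] [Module K V]
    [FiniteDimensional K V] [AddCommGroup W] [Module K W] [FiniteDimensional K W] (G : Type) [Group G]
    (ρ : G →* Module.End K V) (σ : G →* Module.End K W) (M : Subgroup G) (j : ℕ) (φ : V → W), Twi ρ σ M j φ →
    Module.finrank K V = Module.finrank K W

/-- the traces of the normaliser -/
def TwiTr : Prop := ∀ (K : Type) [Field K] [CharP K 2] [IsAlgClosed K] (V W : Type) [AddCommGroup V] [Module K V]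
    [FiniteDimensional K V] [AddCommGroup W] [Module K W] [FiniteDimensional K W] (G : Type) [Group G] [Finite G]
    (ρ : G →* Module.End K V) (σ : G →* Module.End K W) (H M : Subgroup G) (j : ℕ) (φ : V → W), Twi ρ σ M j φ →
    M ≤ H → (∀ h ∈ H, ∀ m ∈ M, h * m * h⁻¹ ∈ M) → Irr ρ M → (∀ h ∈ H, LinearMap.det (ρ h) = 1) →
    (∀ h ∈ H, LinearMap.det (σ h) = 1) → ∀ s : ℕ, Module.finrank K V = 2 ^ s → ∀ h ∈ H,
    LinearMap.trace K W (σ h) = (LinearMap.trace K V (ρ h)) ^ 2 ^ j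

/-- the module facts -/
structure ModF {m : ℕ} {K : Type} [Field K] {V : Type} [AddCommGroup V] [Module K V] (B : LinearMap.BilinForm K V)
    {G : Type} [Group G] (ρ : G →* Module.End K V) : Prop where
  irr : Irr ρ ⊤
  tprim : TPrim ρ
  dim : 2 * m ^ 2 - m - 1 ≤ Module.finrank K (Lam0 B)
  lam : ∀ S : Submodule K (Module.End K V), _root_.Cfsg.Agent.H883.BR.Inv (ad ρ) ⊤ S → ∀ X ∈ S, X ∈ Lam B → (¬ ∃ c : K, X = c • 1) →
      Lam0 B ≤ S

/-- the end of the proof (helper215) -/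
def EndSt {K : Type} [Field K] (F : Subfield K) {V Vh : Type} [AddCommGroup V] [Module K V] [AddCommGroup Vh]
    [Module K Vh] (B : LinearMap.BilinForm K V) {G : Type} [Group G] (ρ : G →* Module.End K V)
    (ρh : G →* Module.End K Vh) : Prop :=
  ∀ H M : Subgroup G, M ≤ H → (∀ h ∈ H, ∀ m ∈ M, h * m * h⁻¹ ∈ M) → Dns (ad ρ) H → Dns (ad ρh) H →
    CaseI B ρ F M ∨ CaseII B ρ F M → M = ⊤

section

variable {m q : ℕ} {K : Type} [Field K] {F : Subfield K} {V : Type} [AddCommGroup V] [Module K V]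
  {B : LinearMap.BilinForm K V} {G : Type} [Group G] {ρ : G →* Module.End K V}
  {b : Module.Basis (Fin m ⊕ Fin m) K V} {W : Type} [AddCommGroup W] [Module K W] {σ : G →* Module.End K W}
  {π : Lam0 B →ₗ[K] W} {Vh : Type} [AddCommGroup Vh] [Module K Vh] {ρh : G →* Module.End K Vh}

/-- **typical `H` is everything** -/
theorem top_or (m : ℕ) (hstr : StrSt (2 * m)) (hcrg : CrgSt) (htwi : TwiSt) (hdim : TwiDim) (htr : TwiTr)
    (hext : ExtV) : ∃ C : ℕ, ∀ (q : ℕ) (K : Type) [Field K] (F : Subfield K) (V : Type) [AddCommGroup V] [Module K V]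
    (B : LinearMap.BilinForm K V) (G : Type) [Group G] (ρ : G →* Module.End K V)
    (b : Module.Basis (Fin m ⊕ Fin m) K V) (W : Type) [AddCommGroup W] [Module K W] (σ : G →* Module.End K W)
    (π : Lam0 B →ₗ[K] W) (Vh : Type) [AddCommGroup Vh] [Module K Vh] (ρh : G →* Module.End K Vh),
    SpD m q F B ρ b → WD B ρ σ π → ModF (m := m) B ρ → EndSt F B ρ ρh →
    ∀ H : Subgroup G, Dns (ad (ad ρ)) H → Dns (ad ρh) H → ∀ y ∈ H, (∀ k, 0 < k → k ≤ C → y ^ k ≠ 1) →
    TrGen F ρ y → TrGen F σ y →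
    H = ⊤ ∨ (m = 2 ∧ ∃ j : ℕ, LinearMap.trace K W (σ y) = (LinearMap.trace K V (ρ y)) ^ 2 ^ j) := by
  obtain ⟨C, hC⟩ := hstr
  refine ⟨C, ?_⟩
  intro q K _ F V _ _ B G _ ρ b W _ _ σ π Vh _ _ ρh D hW hmod hEnd H hH hHh y hy hk ht ht'
  have := D.char
  have := D.closed
  have := D.finG
  have hfV : FiniteDimensional K V := Cfsg.Agent.H601.BR.V_fd b
  have hfW : FiniteDimensional K W := Cfsg.Agent.H601.BR.W_fd D hW
  have hm := D.two_le
  obtain ⟨M, hMH, hn, hMd, hMi, h88⟩ := hC K D.locfin G V ρ (Cfsg.Agent.H601.BR.V_dim b)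
    (by omega) D.inj D.qs hmod.irr hmod.tprim H hH y hy (fun k hk0 hkC ⟨c, hc⟩ => hk k hk0 hkC (scalar_eq_one D hc))
  revert h88; rintro ⟨hMp, hMs, -, hMl, hMz⟩
  have hzc : ∀ z : M, z ∈ Subgroup.center M → z = 1 := fun z hz => by
    obtain ⟨c, hc⟩ := (hMz z).1 hz
    exact Subtype.ext (scalar_eq_one D hc)
  have hcard : Nat.card (Subgroup.center M) = 1 := by
    have : Subgroup.center M = ⊥ := by
      rw [eq_bot_iff]
      intro z hz
      exact Subgroup.mem_bot.2 (hzc z hz)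
    rw [this, Subgroup.card_bot]
  obtain ⟨U, hU⟩ := hcrg M hMp hMs hMl hcard
  obtain ⟨hWi, h⟩ := core hext D hW hmod.dim hmod.lam hMH hn hMd hMi hzc hU hy ht ht'
  have htop : CaseI B ρ F M ∨ CaseII B ρ F M → H = ⊤ := by
    intro h1
    have h2 := hEnd H M hMH hn (Cfsg.Agent.H545.BR.dns_of_ad hH) hHh h1
    rw [eq_top_iff, ← h2]
    exact hMH
  rcases h with h | h | ⟨v0, w, hv0, hw0, hvU, hwU, hst, j, hj⟩
  · exact Or.inl (htop (Or.inl h))
  · exact Or.inl (htop (Or.inr h))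
  · right
    obtain ⟨φ, hφ⟩ := htwi K V W G ρ σ M U hU hMi hWi (fun z hz => by
      rw [hzc z hz, Subgroup.coe_one, map_one, map_one]; exact ⟨rfl, rfl⟩) v0 w hv0 hw0 hvU hwU j hj hst
    have h1 := hdim K V W G ρ σ M j φ hφ
    have h2 := Cfsg.Agent.H601.BR.le_W D hW hmod.dim
    rw [← h1, Cfsg.Agent.H601.BR.V_dim b] at h2
    have h3 : m = 2 := by
      by_contra hm2
      have h4 : 3 ≤ m := by omega
      have h5 : 3 * m ≤ m ^ 2 := by rw [pow_two]; exact Nat.mul_le_mul_right m h4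
      omega
    refine ⟨h3, j, ?_⟩
    exact htr K V W G ρ σ H M j φ hφ hMH hn hMi (fun h _ => det_one D.qs.perf ρ h) (fun h _ => det_one D.qs.perf σ h)
      2 (by rw [Cfsg.Agent.H601.BR.V_dim b, h3]; norm_num) y hy

end

end Cfsg.Agent.H94.BR
end

-- part: H887/BR/Twi
section
/-!
# HUB BR, `Sp_{2m}(2^f)`, case C: the twist from Curtis–Richen (helper887, T5c)

* `twi_of_crg` : if `w` has the `2^j`-th power of the character of `v0` and the same stabiliser, then `W` is the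
  `2^j`-th Frobenius twist of `V`;
* `Twi.finrank_eq`, `Twi.trace_eq`.
-/

set_option autoImplicit false
set_option linter.unusedVariables false

namespace Cfsg.Agent.H887.BR

open Cfsg.Agent.H883.BR Cfsg.Agent.H94.BR Cfsg.Agent.H601.BR

section

variable {K : Type} [Field K] [CharP K 2] [IsAlgClosed K]

/-- the `2^j`-th Frobenius automorphism -/
noncomputable def fro (K : Type) [Field K] [CharP K 2] [IsAlgClosed K] (j : ℕ) : K ≃+* K := iterateFrobeniusEquiv K 2 j

theorem fro_apply (j : ℕ) (c : K) : fro K j c = c ^ 2 ^ j := by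
  rw [fro, iterateFrobeniusEquiv_apply, iterateFrobenius_def]

variable {V W : Type} [AddCommGroup V] [Module K V] [AddCommGroup W] [Module K W]

theorem twi_of_crg [FiniteDimensional K V] [FiniteDimensional K W] {G : Type} [Group G] [Finite G]
    {ρ : G →* Module.End K V} {σ : G →* Module.End K W} {M : Subgroup G} {U : Subgroup M} (hc : CRG.{0, 0, 0} 2 U)
    (hV : Irr ρ M) (hW : Irr σ M) (hz : ∀ z : M, z ∈ Subgroup.center M → ρ z = 1 ∧ σ z = 1) {v0 : V} {w : W}
    (hv0 : v0 ≠ 0) (hw : w ≠ 0) (hv : ∀ u ∈ U, ρ (u : G) v0 = v0) (hwu : ∀ u ∈ U, σ (u : G) w = w) (j : ℕ)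
    (hb : ∀ (b : M) (c : K), (∀ u ∈ U, b * u * b⁻¹ ∈ U) → ρ (b : G) v0 = c • v0 → σ (b : G) w = c ^ 2 ^ j • w)
    (hst : ∀ g : M, (∃ c : K, ρ (g : G) v0 = c • v0) ↔ ∃ c : K, σ (g : G) w = c • w) :
    ∃ φ : V → W, Twi ρ σ M j φ := by
  have hv' : (⟨v0⟩ : Tw (fro K j) V) ≠ 0 := fun h => hv0 (congrArg Tw.val h)
  have hfs : ∀ c : K, ((fro K j).symm c) ^ 2 ^ j = c := fun c => by
    rw [← fro_apply, RingEquiv.apply_symm_apply]
  obtain ⟨e, he⟩ := hc.iso K (Tw (fro K j) V) W ((twR (fro K j) ρ).comp M.subtype) (σ.comp M.subtype)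
    (irr_comp (irr_twR (fro K j) hV)) (irr_comp hW) (fun z hzz => by
      refine LinearMap.ext fun v => Tw.ext ?_
      show ρ z v.val = v.val
      rw [(hz z hzz).1]; rfl) (fun z hzz => (hz z hzz).2) ⟨v0⟩ w hv' hw (fun u hu => Tw.ext (hv u hu)) hwu
    (fun b c hbu => by
      constructor
      · intro h
        have h1 : ρ b v0 = (fro K j).symm c • v0 := congrArg Tw.val h
        have h2 := hb b _ hbu h1
        rw [hfs] at h2
        exact h2
      · intro h
        have h0 : σ (b : G) w = c • w := h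
        obtain ⟨c', hc'⟩ := (hst b).2 ⟨c, h⟩
        have h1 := hb b c' hbu hc'
        have h2 : c = c' ^ 2 ^ j := by
          apply smul_left_injective K hw
          show c • w = c' ^ 2 ^ j • w
          rw [← h0, h1]
        refine Tw.ext ?_
        show ρ b v0 = (fro K j).symm c • v0
        have h3 : (fro K j).symm c = c' := by
          rw [RingEquiv.symm_apply_eq, fro_apply, h2]
        rw [h3, hc'])
    (fun g => by
      show (∃ c : K, twR (fro K j) ρ (g : G) ⟨v0⟩ = c • (⟨v0⟩ : Tw (fro K j) V)) ↔ _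
      refine Iff.trans ⟨?_, ?_⟩ (hst g)
      · rintro ⟨c, h⟩
        exact ⟨(fro K j).symm c, congrArg Tw.val h⟩
      · rintro ⟨c, h⟩
        refine ⟨fro K j c, Tw.ext ?_⟩
        show ρ g v0 = (fro K j).symm (fro K j c) • v0
        rw [RingEquiv.symm_apply_apply, h])
  refine ⟨fun x => e ⟨x⟩, ?_, ?_, ?_, ?_⟩
  · exact e.bijective.comp (eqv (fro K j) (W := V)).symm.bijective
  · intro x y
    rw [← map_add]
    rfl
  · intro c x
    have h1 : (⟨c • x⟩ : Tw (fro K j) V) = fro K j c • (⟨x⟩ : Tw (fro K j) V) := Tw.ext (by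
      rw [val_smul, RingEquiv.symm_apply_apply])
    show e ⟨c • x⟩ = c ^ 2 ^ j • e ⟨x⟩
    rw [h1, map_smul, fro_apply]
  · intro g hg x
    exact he ⟨g, hg⟩ ⟨x⟩

variable {G : Type} [Group G] {ρ : G →* Module.End K V} {σ : G →* Module.End K W} {M : Subgroup G} {j : ℕ} {φ : V → W}

/-- the linear equivalence of a twist -/
theorem exists_equiv (h : Twi ρ σ M j φ) : ∃ e : Tw (fro K j) V ≃ₗ[K] W, ∀ x : V, e ⟨x⟩ = φ x := by
  let f : Tw (fro K j) V →ₗ[K] W :=
    { toFun := fun x => φ x.val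
      map_add' := fun x y => h.add _ _
      map_smul' := fun c x => by
        show φ ((fro K j).symm c • x.val) = c • φ x.val
        rw [h.smul, ← fro_apply, RingEquiv.apply_symm_apply] }
  exact ⟨LinearEquiv.ofBijective f (h.bij.comp (eqv (fro K j) (W := V)).bijective), fun _ => rfl⟩

theorem finrank_eq_of_twi [FiniteDimensional K V] (h : Twi ρ σ M j φ) : Module.finrank K V = Module.finrank K W := by
  obtain ⟨e, -⟩ := exists_equiv h
  rw [← e.finrank_eq, finrank_tw]

/-- **the traces** -/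
theorem trace_eq_of_twi [FiniteDimensional K V] (ht : Twi ρ σ M j φ) {H : Subgroup G} (hMH : M ≤ H)
    (hn : ∀ h ∈ H, ∀ m ∈ M, h * m * h⁻¹ ∈ M) (hV : Irr ρ M) (hdρ : ∀ h ∈ H, LinearMap.det (ρ h) = 1)
    (hdσ : ∀ h ∈ H, LinearMap.det (σ h) = 1) {s : ℕ} (hs : Module.finrank K V = 2 ^ s) :
    ∀ h ∈ H, LinearMap.trace K W (σ h) = (LinearMap.trace K V (ρ h)) ^ 2 ^ j := by
  intro h hh
  obtain ⟨e, he⟩ := exists_equiv ht
  have he' : ∀ m ∈ M, ∀ x : Tw (fro K j) V, e (twR (fro K j) ρ m x) = σ m (e x) := by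
    intro m hm x
    have h1 := ht.eqv m hm x.val
    rw [← he, ← he] at h1
    exact h1
  obtain ⟨c, hc⟩ := schur (irr_twR (fro K j) hV)
    (X := twR (fro K j) ρ h⁻¹ ∘ₗ (e.symm : W →ₗ[K] Tw (fro K j) V) ∘ₗ σ h ∘ₗ (e : Tw (fro K j) V →ₗ[K] W))
    (fun m hm => by
      refine LinearMap.ext fun v => ?_
      show twR (fro K j) ρ h⁻¹ (e.symm (σ h (e (twR (fro K j) ρ m v)))) =
        twR (fro K j) ρ m (twR (fro K j) ρ h⁻¹ (e.symm (σ h (e v))))
      have h1 : ∀ x, σ h (σ m x) = σ (h * m * h⁻¹) (σ h x) := fun x => by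
        rw [← Module.End.mul_apply, ← Module.End.mul_apply, ← map_mul, ← map_mul]
        congr 2; group
      have h2 : ∀ x, twR (fro K j) ρ m (twR (fro K j) ρ h⁻¹ x) = twR (fro K j) ρ h⁻¹ (twR (fro K j) ρ (h * m * h⁻¹) x) :=
        fun x => by
          rw [← Module.End.mul_apply, ← Module.End.mul_apply, ← map_mul, ← map_mul]
          congr 2; group
      rw [he' m hm, h1, h2]
      congr 1
      rw [LinearEquiv.symm_apply_eq, he' _ (hn h hh m hm), LinearEquiv.apply_symm_apply])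
  have key : ∀ x, σ h (e x) = c • e (twR (fro K j) ρ h x) := by
    intro x
    have h1 : twR (fro K j) ρ h⁻¹ (e.symm (σ h (e x))) = c • x :=
      congrArg (fun T : Module.End K (Tw (fro K j) V) => T x) hc
    have h2 := congrArg (twR (fro K j) ρ h) h1
    rw [← Module.End.mul_apply, ← map_mul, mul_inv_cancel, map_one, map_smul] at h2
    have h3 : e.symm (σ h (e x)) = c • twR (fro K j) ρ h x := h2
    rw [LinearEquiv.symm_apply_eq, map_smul] at h3
    exact h3
  have hconj : (e : Tw (fro K j) V →ₗ[K] W) ∘ₗ (c • twE (fro K j) (ρ h)) ∘ₗ (e.symm : W →ₗ[K] Tw (fro K j) V) = σ h := by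
    refine LinearMap.ext fun x => ?_
    show e (c • twR (fro K j) ρ h (e.symm x)) = σ h x
    rw [map_smul, ← key, LinearEquiv.apply_symm_apply]
  have hdt : c ^ 2 ^ s = 1 := by
    have h1 := LinearMap.det_conj (c • twE (fro K j) (ρ h)) e
    rw [hconj, LinearMap.det_smul, det_twE, hdρ h hh, map_one, mul_one, finrank_tw, hs, hdσ h hh] at h1
    exact h1.symm
  have hc1 : c = 1 := by
    have h1 : (c - 1) ^ 2 ^ s = 0 := by
      rw [sub_pow_char_pow, hdt, one_pow, sub_self]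
    exact sub_eq_zero.1 (pow_eq_zero_iff (by positivity) |>.1 h1)
  have h1 := LinearMap.trace_conj' (c • twE (fro K j) (ρ h)) e
  rw [LinearEquiv.conj_apply, LinearMap.comp_assoc, hconj, hc1, one_smul, trace_twE, fro_apply] at h1
  exact h1

end

end Cfsg.Agent.H887.BR
end

-- part: H94/BR/SpRowA
section
/-!
# HUB BR, `Sp_{2m}(2^f)`: the row
-/

set_option autoImplicit false

namespace Cfsg.Agent.H94.BR

open Cfsg.Agent.H883.BR

theorem twiSt : TwiSt := by
  intro K _ _ _ V W _ _ _ _ _ _ G _ _ ρ σ M U hc hV hW hz v0 w hv0 hw hv hwu j hb hst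
  exact Cfsg.Agent.H887.BR.twi_of_crg hc hV hW hz hv0 hw hv hwu j hb hst

theorem twiDim : TwiDim := by
  intro K _ _ _ V W _ _ _ _ _ _ G _ ρ σ M j φ h
  exact Cfsg.Agent.H887.BR.finrank_eq_of_twi h

theorem twiTr : TwiTr := by
  intro K _ _ _ V W _ _ _ _ _ _ G _ _ ρ σ H M j φ h hMH hn hV hd hd' s hs
  exact Cfsg.Agent.H887.BR.trace_eq_of_twi h hMH hn hV hd hd' hs

section

variable {m q : ℕ} {K : Type} [Field K] {F : Subfield K} {V : Type} [AddCommGroup V] [Module K V]
  {B : LinearMap.BilinForm K V} {G : Type} [Group G] {ρ : G →* Module.End K V}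
  {b : Module.Basis (Fin m ⊕ Fin m) K V}

/-- `ad (ad ρ)` is faithful -/
theorem eq_one_of_adad (D : SpD m q F B ρ b) (hirr : Irr ρ ⊤) {h : G} (hh : ad (ad ρ) h = 1) : h = 1 := by
  have := D.closed
  have : FiniteDimensional K V := Cfsg.Agent.H601.BR.V_fd b
  have h1 : ∀ X : Module.End K V, ad ρ h X = X := by
    intro X
    have h2 : ad (ad ρ) h (LinearMap.mulLeft K X) = LinearMap.mulLeft K X := by rw [hh]; rfl
    rw [ad_apply] at h2
    have h3 := congrArg (fun T : Module.End K (Module.End K V) => T 1) h2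
    simp only [Module.End.mul_apply, LinearMap.mulLeft_apply, mul_one, ad_one] at h3
    exact h3
  have h2 : ρ h ∈ cent ρ ⊤ := by
    intro g _
    have h3 := h1 (ρ g)
    rw [ad_apply] at h3
    have h4 : ρ h⁻¹ * ρ h = 1 := by rw [← map_mul, inv_mul_cancel, map_one]
    calc ρ h * ρ g = ρ h * ρ g * (ρ h⁻¹ * ρ h) := by rw [h4, mul_one]
      _ = ρ h * ρ g * ρ h⁻¹ * ρ h := by rw [← mul_assoc]
      _ = ρ g * ρ h := by rw [h3]
  obtain ⟨c, hc⟩ := Cfsg.Agent.H545.BR.cent_scalar hirr h2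
  exact scalar_eq_one D hc

theorem dns_top {K V G : Type} [Field K] [AddCommGroup V] [Module K V] [Group G] {ρ : G →* Module.End K V} :
    Dns ρ ⊤ := fun _ hU => hU

/-- `W` is not trivial -/
theorem W_ne_one (D : SpD m q F B ρ b) {W : Type} [AddCommGroup W] [Module K W] {σ : G →* Module.End K W}
    {π : Lam0 B →ₗ[K] W} (hW : WD B ρ σ π) (hd : 2 * m ^ 2 - m - 1 ≤ Module.finrank K (Lam0 B)) (hirr : Irr σ ⊤) :
    ∃ g, σ g ≠ 1 := by
  have := Cfsg.Agent.H601.BR.W_fd D hW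
  by_contra hcon
  push Not at hcon
  have hn := hirr.1
  obtain ⟨w, hw⟩ := exists_ne (0 : W)
  have h1 := hirr.2 (Submodule.span K {w}) (fun g _ v hv => by rw [hcon g]; exact hv)
  have h2 := Cfsg.Agent.H601.BR.le_W D hW hd
  have h3 : 4 ≤ Module.finrank K W := by
    have hm := D.two_le
    have h5 : 2 * m ≤ m ^ 2 := by rw [pow_two]; exact Nat.mul_le_mul_right m hm
    have h6 : 4 ≤ 2 * m ^ 2 - m - 2 := by
      have : 2 * 2 ≤ 2 * m := by omega
      omega
    omega
  rcases h1 with h1 | h1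
  · rw [Submodule.span_singleton_eq_bot] at h1
    exact hw h1
  · have h4 : Module.finrank K (Submodule.span K {w}) = 1 := finrank_span_singleton hw
    rw [h1, finrank_top] at h4
    omega

end

/-- the full package at dimension `2m`: everything except the last step -/
theorem row_pack (m : ℕ) (hstr : StrSt (2 * m)) (hcrg : CrgSt) (hext : ExtV) :
    ∃ C q₀ : ℕ, ∀ (q : ℕ) (K : Type) [Field K] (F : Subfield K) (V : Type) [AddCommGroup V] [Module K V]
    (B : LinearMap.BilinForm K V) (G : Type) [Group G] (ρ : G →* Module.End K V)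
    (b : Module.Basis (Fin m ⊕ Fin m) K V) (Vh : Type) [AddCommGroup Vh] [Module K Vh] (ρh : G →* Module.End K Vh)
    (ι : Type) (x : ι → F → G), q₀ ≤ q → SpD m q F B ρ b → ModF (m := m) B ρ → EndSt F B ρ ρh →
    FiniteDimensional K Vh → Module.finrank K Vh = 2 * m + 1 → OneP F x → PolyDeg ρ F x 2 → PolyDeg ρh F x 2 →
    (∀ k, 0 < k → k + 1 < q → ∃ g : G, g ^ k ≠ 1) →
    ∃ (W : Type) (_ : AddCommGroup W) (_ : Module K W) (σ : G →* Module.End K W) (π : Lam0 B →ₗ[K] W),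
      WD B ρ σ π ∧
    FiniteDimensional K (Module.End K (Module.End K V) × Module.End K Vh) ∧ FiniteDimensional K V ∧
    FiniteDimensional K W ∧
    Module.finrank K (Module.End K (Module.End K V) × Module.End K Vh) ≤ C ∧ Module.finrank K V ≤ C ∧
    Module.finrank K W ≤ C ∧
    PolyDeg ((prodR (ad (ad ρ)) (ad ρh) :)) F x C ∧ PolyDeg ρ F x C ∧ PolyDeg σ F x C ∧
    (∃ g h : G, (LinearMap.trace K V (ρ g)) ^ Module.finrank K V ≠ (LinearMap.trace K V (ρ h)) ^ Module.finrank K V) ∧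
    (∃ g h : G, (LinearMap.trace K W (σ g)) ^ Module.finrank K W ≠
      (LinearMap.trace K W (σ h)) ^ Module.finrank K W) ∧
    (∀ k, 0 < k → k ≤ C → ∃ g : G, prodR (ad (ad ρ)) (ad ρh) (g ^ k) ≠ 1) ∧
    ∀ H : Subgroup G, Dns ((prodR (ad (ad ρ)) (ad ρh) :)) H → ∀ y ∈ H,
      (∀ k, 0 < k → k ≤ C → prodR (ad (ad ρ)) (ad ρh) (y ^ k) ≠ 1) → TrGen F ρ y → TrGen F σ y →
      H = ⊤ ∨ (m = 2 ∧ ∃ j : ℕ, LinearMap.trace K W (σ y) = (LinearMap.trace K V (ρ y)) ^ 2 ^ j) := by
  obtain ⟨C₀, hC₀⟩ := top_or m hstr hcrg twiSt twiDim twiTr hext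
  refine ⟨max (max C₀ 8) ((2 * m) ^ 4 + (2 * m + 1) ^ 2), max (max C₀ 8) ((2 * m) ^ 4 + (2 * m + 1) ^ 2) +
    4 * (2 * m) ^ 2 + 2, ?_⟩
  intro q K _ F V _ _ B G _ ρ b Vh _ _ ρh ι x hq D hmod hEnd hfh hdh hx hρ hρh hpw
  have := D.closed
  have := D.finF
  have := D.char
  have hm := D.two_le
  have hfV : FiniteDimensional K V := Cfsg.Agent.H601.BR.V_fd b
  have hdV : Module.finrank K V = 2 * m := Cfsg.Agent.H601.BR.V_dim b
  set C := max (max C₀ 8) ((2 * m) ^ 4 + (2 * m + 1) ^ 2) with hCdef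
  have hC1 : C₀ ≤ C := (le_max_left _ _).trans (le_max_left _ _)
  have hC2 : 8 ≤ C := (le_max_right _ _).trans (le_max_left _ _)
  have hC3 : (2 * m) ^ 4 + (2 * m + 1) ^ 2 ≤ C := le_max_right _ _
  have hC4 : (2 * m) ^ 2 ≤ (2 * m) ^ 4 := Nat.pow_le_pow_right (by omega) (by norm_num)
  have hC5 : 2 * m ≤ (2 * m) ^ 2 := by
    rw [pow_two]; exact Nat.le_mul_of_pos_left _ (by omega)
  obtain ⟨W, _, _, σ, π, hW⟩ := Cfsg.Agent.H601.BR.exists_W D
  have hfW : FiniteDimensional K W := Cfsg.Agent.H601.BR.W_fd D hW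
  have hWle := Cfsg.Agent.H601.BR.W_le D hW
  have hWi : Irr σ ⊤ := Cfsg.Agent.H601.BR.W_irr D hW hmod.dim hmod.lam dns_top
  have hσ : PolyDeg σ F x 4 := Cfsg.Agent.H601.BR.W_deg D hW hx hρ
  have hcF : Nat.card F = q := D.cardF
  refine ⟨W, inferInstance, inferInstance, σ, π, hW, inferInstance, hfV, hfW, ?_, ?_, ?_, ?_, ?_, ?_, ?_, ?_, ?_, ?_⟩
  · rw [Module.finrank_prod, Module.finrank_linearMap, Module.finrank_linearMap, Module.finrank_linearMap, hdV, hdh]
    refine le_trans (le_of_eq ?_) hC3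
    ring
  · rw [hdV]; omega
  · omega
  · refine polyDeg_prod (polyDeg_mono (Cfsg.Agent.H886.BR.polyDeg_ad hx (Cfsg.Agent.H886.BR.polyDeg_ad hx hρ)) ?_)
      (polyDeg_mono (Cfsg.Agent.H886.BR.polyDeg_ad hx hρh) ?_) <;> omega
  · exact polyDeg_mono hρ (by omega)
  · exact polyDeg_mono hσ (by omega)
  · refine Cfsg.Agent.H583.BR.Trn.trn_of_irr hmod.irr hx hρ ?_ ?_
    · rw [hdV, hcF]; omega
    · by_contra hcon
      push Not at hcon
      have hnt := D.qs.nt
      obtain ⟨g, hg⟩ := exists_ne (1 : G)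
      exact hg (D.inj (by rw [hcon g, map_one]))
  · refine Cfsg.Agent.H583.BR.Trn.trn_of_irr hWi hx hσ ?_ (W_ne_one D hW hmod.dim hWi)
    rw [hcF]; omega
  · intro k hk hkC
    obtain ⟨g, hg⟩ := hpw k hk (by omega)
    refine ⟨g, fun h => hg ?_⟩
    refine eq_one_of_adad D hmod.irr ?_
    refine LinearMap.ext fun X => ?_
    have h1 := congrArg (fun T : Module.End K (Module.End K (Module.End K V) × Module.End K Vh) => (T (X, 0)).1) h
    exact h1
  · intro H hH y hy hk ht ht'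
    exact hC₀ q K F V B G ρ b W σ π Vh ρh D hW hmod hEnd H (dns_left hH)
      (dns_right hH) y hy (fun k hk0 hkC h1 => hk k hk0 (by omega) (by rw [h1, map_one])) ht ht'

end Cfsg.Agent.H94.BR
end

-- part: H124/BR/Cnt4
section
/-!
# HUB BR, `Sp_4(2^f)`: the elements with `tr_W(y) = tr_V(y)^(2^j)` (helper124)
-/

set_option autoImplicit false
set_option maxHeartbeats 1600000

namespace Cfsg.Agent.H124.BR

open Cfsg.Agent.H883.BR Cfsg.Agent.H94.BR

section Cnt

variable {q : ℕ} {K : Type} [Field K] {F : Subfield K} {V : Type} [AddCommGroup V] [Module K V]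
  {B : LinearMap.BilinForm K V} {G : Type} [Group G] {ρ : G →* Module.End K V}
  {b : Module.Basis (Fin 2 ⊕ Fin 2) K V} {W : Type} [AddCommGroup W] [Module K W]
  {σ : G →* Module.End K W} {π : Lam0 B →ₗ[K] W}

local notation "e₁" => (Sum.inl (0 : Fin 2) : Fin 2 ⊕ Fin 2)
local notation "e₂" => (Sum.inl (1 : Fin 2) : Fin 2 ⊕ Fin 2)
local notation "f₁" => (Sum.inr (0 : Fin 2) : Fin 2 ⊕ Fin 2)
local notation "f₂" => (Sum.inr (1 : Fin 2) : Fin 2 ⊕ Fin 2)

/-- matrix coefficient -/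
noncomputable def mc (ρ : G →* Module.End K V) (b : Module.Basis (Fin 2 ⊕ Fin 2) K V) (g : G) (i j : Fin 2 ⊕ Fin 2) : K :=
  b.repr (ρ g (b j)) i

theorem two_eq_zero (h : SpD 2 q F B ρ b) : (2 : K) = 0 := by
  have := h.char
  exact CharTwo.two_eq_zero

theorem add_self (h : SpD 2 q F B ρ b) (x : K) : x + x = 0 := by
  rw [← two_mul, two_eq_zero h, zero_mul]

theorem B_symm (h : SpD 2 q F B ρ b) (x y : V) : B x y = B y x := by
  have h1 := h.alt (x + y)
  simp only [map_add, LinearMap.add_apply, h.alt, zero_add, add_zero] at h1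
  have h2 := add_self h (B y x)
  linear_combination h1 - h2

theorem B_rl (h : SpD 2 q F B ρ b) (i j : Fin 2) : B (b (Sum.inr i)) (b (Sum.inl j)) = if i = j then 1 else 0 := by
  rw [B_symm h, h.lr]
  simp only [eq_comm]

theorem repr_sum (x : V) : x = b.repr x e₁ • b e₁ + b.repr x e₂ • b e₂ + b.repr x f₁ • b f₁ + b.repr x f₂ • b f₂ := by
  conv_lhs => rw [← b.sum_repr x]
  rw [Fintype.sum_sum_type, Fin.sum_univ_two, Fin.sum_univ_two]
  abel

/-- values of `B` on the basis -/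
theorem B_tab (h : SpD 2 q F B ρ b) :
    B (b e₁) (b e₁) = 0 ∧ B (b e₁) (b e₂) = 0 ∧ B (b e₁) (b f₁) = 1 ∧ B (b e₁) (b f₂) = 0 ∧
    B (b e₂) (b e₁) = 0 ∧ B (b e₂) (b e₂) = 0 ∧ B (b e₂) (b f₁) = 0 ∧ B (b e₂) (b f₂) = 1 ∧
    B (b f₁) (b e₁) = 1 ∧ B (b f₁) (b e₂) = 0 ∧ B (b f₁) (b f₁) = 0 ∧ B (b f₁) (b f₂) = 0 ∧
    B (b f₂) (b e₁) = 0 ∧ B (b f₂) (b e₂) = 1 ∧ B (b f₂) (b f₁) = 0 ∧ B (b f₂) (b f₂) = 0 := by
  refine ⟨h.ll _ _, h.ll _ _, ?_, ?_, h.ll _ _, h.ll _ _, ?_, ?_, ?_, ?_, h.rr _ _, h.rr _ _, ?_, ?_, h.rr _ _, h.rr _ _⟩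
  all_goals first | rw [h.lr] | rw [B_rl h]
  all_goals simp

theorem B_form (h : SpD 2 q F B ρ b) (x y : V) : B x y = b.repr x e₁ * b.repr y f₁ + b.repr x f₁ * b.repr y e₁ +
    b.repr x e₂ * b.repr y f₂ + b.repr x f₂ * b.repr y e₂ := by
  obtain ⟨t1, t2, t3, t4, t5, t6, t7, t8, t9, t10, t11, t12, t13, t14, t15, t16⟩ := B_tab h
  conv_lhs => rw [repr_sum (b := b) x, repr_sum (b := b) y]
  simp only [map_add, map_smul, LinearMap.add_apply, LinearMap.smul_apply, smul_eq_mul, t1, t2, t3, t4, t5, t6, t7, t8,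
    t9, t10, t11, t12, t13, t14, t15, t16]
  ring

/-- the four pairs -/
def px : Fin 4 → Fin 2 ⊕ Fin 2 := ![e₁, e₁, e₂, f₁]

/-- the four pairs -/
def py : Fin 4 → Fin 2 ⊕ Fin 2 := ![e₂, f₂, f₁, f₂]

/-- the minors -/
noncomputable def mn (b : Module.Basis (Fin 2 ⊕ Fin 2) K V) (v w : V) (k : Fin 4) : K :=
  b.repr v (px k) * b.repr w (py k) + b.repr v (py k) * b.repr w (px k)

theorem B_px_py (h : SpD 2 q F B ρ b) (k : Fin 4) : B (b (px k)) (b (py k)) = 0 := by
  obtain ⟨t1, t2, t3, t4, t5, t6, t7, t8, t9, t10, t11, t12, t13, t14, t15, t16⟩ := B_tab h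
  fin_cases k
  · exact t2
  · exact t4
  · exact t7
  · exact t12

theorem wd_mem {v w : V} (hvw : B v w = 0) : wd B v w ∈ Lam0 B := Submodule.subset_span ⟨v, w, hvw, rfl⟩

/-- `wd v w` in terms of the minors -/
theorem wd_expand (h : SpD 2 q F B ρ b) (v w : V) (hvw : B v w = 0) :
    wd B v w = ∑ k, mn b v w k • wd B (b (px k)) (b (py k)) +
      (b.repr v e₁ * b.repr w f₁ + b.repr v f₁ * b.repr w e₁) • (1 : Module.End K V) := by
  obtain ⟨t1, t2, t3, t4, t5, t6, t7, t8, t9, t10, t11, t12, t13, t14, t15, t16⟩ := B_tab h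
  have h2 := two_eq_zero h
  have hB := B_form h v w
  rw [hvw] at hB
  refine b.ext fun i => ?_
  refine b.repr.injective ?_
  refine Finsupp.ext fun j => ?_
  rw [Fin.sum_univ_four]
  simp only [LinearMap.add_apply, LinearMap.smul_apply, Module.End.one_apply, wd_apply, mn, px, py, map_add, map_smul,
    Finsupp.add_apply, Finsupp.smul_apply, smul_eq_mul]
  have c1 : ∀ x : V, B x (b e₁) = b.repr x f₁ := fun x => by rw [B_form h]; simp
  have c2 : ∀ x : V, B x (b e₂) = b.repr x f₂ := fun x => by rw [B_form h]; simp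
  have c3 : ∀ x : V, B x (b f₁) = b.repr x e₁ := fun x => by rw [B_form h]; simp
  have c4 : ∀ x : V, B x (b f₂) = b.repr x e₂ := fun x => by rw [B_form h]; simp
  have hB' : b.repr v e₁ * b.repr w f₁ + b.repr v f₁ * b.repr w e₁ =
      b.repr v e₂ * b.repr w f₂ + b.repr v f₂ * b.repr w e₂ := by
    linear_combination -hB + (-(b.repr v e₂ * b.repr w f₂ + b.repr v f₂ * b.repr w e₂)) * h2
  clear t1 t2 t3 t4 t5 t6 t7 t8 t9 t10 t11 t12 t13 t14 t15 t16 hB hvw
  rcases i with i | i <;> rcases j with j | j <;> (revert i j; simp only [c1, c2, c3, c4, _root_.Fin.forall_fin_succ, Fin.isValue, _root_.Matrix.cons_val_zero, _root_.Module.Basis.repr_self, _root_.Matrix.cons_val_one, _root_.ne_eq, reduceCtorEq, _root_.not_false_eq_true, _root_.Finsupp.single_eq_of_ne, _root_.MulZeroClass.mul_zero, _root_.add_zero, _root_.Matrix.cons_val, _root_.Finsupp.single_eq_same, _root_.mul_one, _root_.Sum.inl.injEq, _root_.zero_ne_one, _root_.Fin.succ_ne_zero, _root_.zero_add,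 _root_.Fin.succ_zero_eq_one, _root_.IsEmpty.forall_iff, _root_.and_true, _root_.Sum.inr.injEq, _root_.add_left_inj, _root_.one_ne_zero, _root_.Finsupp.single_eq_of_ne']) <;> (repeat' with_reducible apply And.intro) <;> first | ring1 | linear_combination hB' | linear_combination -hB' | (ring_nf; rw [h2, mul_zero])

/-- the basis vectors of `W` -/
noncomputable def om (h : SpD 2 q F B ρ b) (π : Lam0 B →ₗ[K] W) (k : Fin 4) : W :=
  π ⟨wd B (b (px k)) (b (py k)), wd_mem (B_px_py h k)⟩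

theorem pi_wd (h : SpD 2 q F B ρ b) (hW : WD B ρ σ π) (v w : V) (hvw : B v w = 0) :
    π ⟨wd B v w, wd_mem hvw⟩ = ∑ k, mn b v w k • om h π k := by
  have h1 : π (⟨wd B v w, wd_mem hvw⟩ -
      ∑ k, mn b v w k • (⟨wd B (b (px k)) (b (py k)), wd_mem (B_px_py h k)⟩ : Lam0 B)) = 0 := by
    refine (hW.ker _).2 ⟨b.repr v e₁ * b.repr w f₁ + b.repr v f₁ * b.repr w e₁, ?_⟩
    rw [Submodule.coe_sub, Submodule.coe_sum]
    simp only [Submodule.coe_smul]
    rw [wd_expand h v w hvw, add_sub_cancel_left]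
  rw [map_sub, sub_eq_zero, map_sum] at h1
  rw [h1]
  refine Finset.sum_congr rfl fun k _ => ?_
  rw [map_smul]
  rfl

theorem om_indep (h : SpD 2 q F B ρ b) (hW : WD B ρ σ π) : LinearIndependent K (om h π) := by
  obtain ⟨t1, t2, t3, t4, t5, t6, t7, t8, t9, t10, t11, t12, t13, t14, t15, t16⟩ := B_tab h
  rw [Fintype.linearIndependent_iff]
  intro c hc
  have h1 : π (∑ k, c k • (⟨wd B (b (px k)) (b (py k)), wd_mem (B_px_py h k)⟩ : Lam0 B)) = 0 := by
    rw [map_sum, ← hc]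
    refine Finset.sum_congr rfl fun k _ => ?_
    rw [map_smul]
    rfl
  obtain ⟨a, ha⟩ := (hW.ker _).1 h1
  rw [Submodule.coe_sum, Fin.sum_univ_four] at ha
  simp only [Submodule.coe_smul] at ha
  have h2 := fun x => congrArg (fun f : Module.End K V => f x) ha
  simp only [LinearMap.add_apply, LinearMap.smul_apply, Module.End.one_apply, wd_apply, px, py] at h2
  have k0 : c 0 = 0 := by
    have h3 := congrArg (fun x => b.repr x e₂) (h2 (b f₁))
    simpa [t1, t2, t3, t4, t5, t6, t7, t8, t9, t10, t11, t12, t13, t14, t15, t16] using h3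
  have k1 : c 1 = 0 := by
    have h3 := congrArg (fun x => b.repr x f₂) (h2 (b f₁))
    simpa [t1, t2, t3, t4, t5, t6, t7, t8, t9, t10, t11, t12, t13, t14, t15, t16] using h3
  have k2 : c 2 = 0 := by
    have h3 := congrArg (fun x => b.repr x e₂) (h2 (b e₁))
    simpa [t1, t2, t3, t4, t5, t6, t7, t8, t9, t10, t11, t12, t13, t14, t15, t16] using h3
  have k3 : c 3 = 0 := by
    have h3 := congrArg (fun x => b.repr x f₂) (h2 (b e₁))
    simpa [t1, t2, t3, t4, t5, t6, t7, t8, t9, t10, t11, t12, t13, t14, t15, t16] using h3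
  intro i
  fin_cases i
  · exact k0
  · exact k1
  · exact k2
  · exact k3

theorem om_span (h : SpD 2 q F B ρ b) (hW : WD B ρ σ π) : ⊤ ≤ Submodule.span K (Set.range (om h π)) := by
  have key : ∀ (X : Module.End K V) (hX : X ∈ Lam0 B), π ⟨X, hX⟩ ∈ Submodule.span K (Set.range (om h π)) := by
    intro X hX
    induction hX using Submodule.span_induction with
    | mem x hx =>
      obtain ⟨v, w, hvw, rfl⟩ := hx
      rw [pi_wd h hW v w hvw]
      exact Submodule.sum_mem _ fun k _ => Submodule.smul_mem _ _ (Submodule.subset_span ⟨k, rfl⟩)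
    | zero =>
      have : π ⟨0, Submodule.zero_mem _⟩ = 0 := map_zero π
      rw [this]
      exact Submodule.zero_mem _
    | add x y hx hy h1 h2 =>
      have : π ⟨x + y, Submodule.add_mem _ hx hy⟩ = π ⟨x, hx⟩ + π ⟨y, hy⟩ := by
        rw [← map_add]
        rfl
      rw [this]
      exact Submodule.add_mem _ h1 h2
    | smul c x hx h1 =>
      have : π ⟨c • x, Submodule.smul_mem _ _ hx⟩ = c • π ⟨x, hx⟩ := by
        rw [← map_smul]
        rfl
      rw [this]
      exact Submodule.smul_mem _ _ h1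
  rintro w -
  obtain ⟨⟨X, hX⟩, rfl⟩ := hW.surj w
  exact key X hX

theorem ad_wd (h : SpD 2 q F B ρ b) (g : G) (x y : V) : ad ρ g (wd B x y) = wd B (ρ g x) (ρ g y) := by
  refine LinearMap.ext fun z => ?_
  rw [ad_apply, Module.End.mul_apply, Module.End.mul_apply, wd_apply, wd_apply, map_add, map_smul, map_smul]
  have h1 : ∀ u, B u (ρ g⁻¹ z) = B (ρ g u) z := by
    intro u
    rw [← h.iso g u (ρ g⁻¹ z), ← Module.End.mul_apply, ← map_mul, mul_inv_cancel, map_one, Module.End.one_apply]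
  rw [h1, h1]

/-- **the trace on `W`** -/
theorem trace_W (h : SpD 2 q F B ρ b) (hW : WD B ρ σ π) (g : G) :
    LinearMap.trace K W (σ g) = ∑ k, mn b (ρ g (b (px k))) (ρ g (b (py k))) k := by
  classical
  let bw : Module.Basis (Fin 4) K W := Module.Basis.mk (om_indep h hW) (om_span h hW)
  rw [LinearMap.trace_eq_matrix_trace K bw, Matrix.trace]
  refine Finset.sum_congr rfl fun k _ => ?_
  rw [Matrix.diag_apply, LinearMap.toMatrix_apply]
  have hb : ∀ k, bw k = om h π k := fun k => Module.Basis.mk_apply _ _ _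
  have h0 : B (ρ g (b (px k))) (ρ g (b (py k))) = 0 := by rw [h.iso, B_px_py h]
  have h1 : σ g (bw k) = ∑ l, mn b (ρ g (b (px k))) (ρ g (b (py k))) l • bw l := by
    simp only [hb]
    rw [← pi_wd h hW _ _ h0, om, ← hW.eqv g _ ⟨wd B (ρ g (b (px k))) (ρ g (b (py k))), wd_mem h0⟩ (by exact (ad_wd h g _ _).symm)]
  rw [h1, map_sum, Finsupp.finsetSum_apply, Finset.sum_eq_single k]
  · rw [map_smul, Finsupp.smul_apply, Module.Basis.repr_self, Finsupp.single_eq_same, smul_eq_mul, mul_one]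
  · intro l _ hl
    rw [map_smul, Finsupp.smul_apply, Module.Basis.repr_self, Finsupp.single_eq_of_ne (Ne.symm hl), smul_zero]
  · intro hk
    exact absurd (Finset.mem_univ k) hk

theorem trace_V (g : G) : LinearMap.trace K V (ρ g) = mc ρ b g e₁ e₁ + mc ρ b g e₂ e₂ + mc ρ b g f₁ f₁ + mc ρ b g f₂ f₂ := by
  classical
  rw [LinearMap.trace_eq_matrix_trace K b, Matrix.trace, Fintype.sum_sum_type, Fin.sum_univ_two, Fin.sum_univ_two]
  simp only [Matrix.diag_apply, LinearMap.toMatrix_apply, mc]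
  ring

theorem mc_mul_of {g k : G} {j l : Fin 2 ⊕ Fin 2} {s : K} (hk : ρ k (b j) = b j + s • b l) (i : Fin 2 ⊕ Fin 2) :
    mc ρ b (g * k) i j = mc ρ b g i j + s * mc ρ b g i l := by
  rw [mc, map_mul, Module.End.mul_apply, hk, map_add, map_add, map_smul, map_smul, Finsupp.add_apply,
    Finsupp.smul_apply, smul_eq_mul]
  rfl

theorem mc_mul_fix {g k : G} {j : Fin 2 ⊕ Fin 2} (hk : ρ k (b j) = b j) (i : Fin 2 ⊕ Fin 2) :
    mc ρ b (g * k) i j = mc ρ b g i j := by
  rw [mc, map_mul, Module.End.mul_apply, hk]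
  rfl

theorem exists_tv (h : SpD 2 q F B ρ b) (v : V) (hv : ∀ i, b.repr v i ∈ F) (s : F) :
    ∃ g : G, ρ g = 1 + (s : K) • _root_.Cfsg.Agent.H94.BR.sq B v := by
  have := h.finF
  have := h.char
  have h2 : CharP F 2 := F.subtype.charP F.subtype.injective 2
  obtain ⟨r, hr⟩ := FiniteField.isSquare_of_char_two (ringChar.eq F 2) s
  obtain ⟨g, hg⟩ := h.tv ((r : K) • v) fun i => by
    rw [map_smul, Finsupp.smul_apply, smul_eq_mul]
    exact F.mul_mem r.2 (hv i)
  refine ⟨g, ?_⟩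
  rw [hg]
  congr 1
  refine LinearMap.ext fun x => ?_
  rw [LinearMap.smul_apply, sq_apply, sq_apply, map_smul, LinearMap.smul_apply, smul_smul, smul_smul, hr, smul_eq_mul]
  congr 1
  push_cast
  ring

theorem exists_u (h : SpD 2 q F B ρ b) (s t : F) : ∃ u : G, ρ u (b e₁) = b e₁ ∧ ρ u (b e₂) = b e₂ ∧
    ρ u (b f₁) = b f₁ + (s : K) • b e₁ ∧ ρ u (b f₂) = b f₂ + (t : K) • b e₂ := by
  obtain ⟨t1, t2, t3, t4, t5, t6, t7, t8, t9, t10, t11, t12, t13, t14, t15, t16⟩ := B_tab h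
  have hbr : ∀ i j, b.repr (b i) j ∈ F := by
    intro i j
    rw [b.repr_self, Finsupp.single_apply]
    split_ifs
    · exact F.one_mem
    · exact F.zero_mem
  obtain ⟨g1, h1⟩ := exists_tv h (b e₁) (hbr _) s
  obtain ⟨g2, h2⟩ := exists_tv h (b e₂) (hbr _) t
  refine ⟨g1 * g2, ?_, ?_, ?_, ?_⟩ <;>
    simp only [map_mul, Module.End.mul_apply, h1, h2, sq_apply, t1, t2, t3, t4, t5, t6, t7, t8, _root_.Fin.isValue, _root_.LinearMap.add_apply, _root_.Module.End.one_apply, _root_.LinearMap.smul_apply, _root_.zero_smul, _root_.smul_zero, _root_.add_zero, _root_.one_smul, _root_.map_add, _root_.map_smul, _root_.smul_eq_mul, _root_.MulZeroClass.mul_zero]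

end Cnt

section Sz

variable {q : ℕ} {K : Type} [Field K] {F : Subfield K} {V : Type} [AddCommGroup V] [Module K V]
  {B : LinearMap.BilinForm K V} {G : Type} [Group G] {ρ : G →* Module.End K V}
  {b : Module.Basis (Fin 2 ⊕ Fin 2) K V}

/-- products of two matrix coefficients -/
noncomputable def mc2 (ρ : G →* Module.End K V) (b : Module.Basis (Fin 2 ⊕ Fin 2) K V)
    (w : ((Fin 2 ⊕ Fin 2) × (Fin 2 ⊕ Fin 2)) × ((Fin 2 ⊕ Fin 2) × (Fin 2 ⊕ Fin 2))) (g : G) : K :=
  mc ρ b g w.1.1 w.1.2 * mc ρ b g w.2.1 w.2.2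

theorem mc_mul (g k : G) (i j : Fin 2 ⊕ Fin 2) : mc ρ b (g * k) i j = ∑ l, mc ρ b g i l * mc ρ b k l j := by
  rw [mc, map_mul, Module.End.mul_apply]
  conv_lhs => rw [← b.sum_repr (ρ k (b j))]
  rw [map_sum, map_sum, Finsupp.finsetSum_apply]
  refine Finset.sum_congr rfl fun l _ => ?_
  rw [map_smul, map_smul, Finsupp.smul_apply, smul_eq_mul, mul_comm]
  rfl

/-- **Schwartz-Zippel** for forms of degree two in the matrix coefficients -/
theorem sz2 (h : SpD 2 q F B ρ b) {f : G → K} (hf : f ∈ Submodule.span K (Set.range (mc2 ρ b)))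
    (hf0 : ∃ g, f g ≠ 0) : q * Nat.card {g : G // f g = 0} ≤ 512 * Nat.card G := by
  classical
  have := h.finF
  have := h.finG
  have hex : ∀ (v : {v : V // ∀ i, b.repr v i ∈ F}) (s : F), ∃ g : G, ρ g = 1 + (s : K) • _root_.Cfsg.Agent.H94.BR.sq B v.1 :=
    fun v s => exists_tv h v.1 v.2 s
  choose x hx using hex
  have hsq : ∀ v : V, _root_.Cfsg.Agent.H94.BR.sq B v * _root_.Cfsg.Agent.H94.BR.sq B v = 0 := by
    intro v
    refine LinearMap.ext fun y => ?_
    rw [Module.End.mul_apply, sq_apply, sq_apply, map_smul, h.alt]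
    simp
  have hadd : ∀ v s t, x v (s + t) = x v s * x v t := by
    intro v s t
    apply h.inj
    rw [map_mul, hx, hx, hx, mul_add, add_mul, add_mul, smul_mul_smul_comm, hsq, smul_zero, add_zero, one_mul, mul_one,
      one_mul]
    push_cast
    rw [add_smul]
    abel
  have hgen : Subgroup.closure {g | ∃ v s, g = x v s} = ⊤ := by
    rw [eq_top_iff, ← h.gen]
    refine Subgroup.closure_mono ?_
    rintro g ⟨v, hv, hg⟩
    refine ⟨⟨v, hv⟩, 1, h.inj ?_⟩
    rw [hx, hg]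
    simp only [_root_.OneMemClass.coe_one, _root_.one_smul]
  set P : Submodule K (G → K) := Submodule.span K (Set.range (mc2 ρ b)) with hP
  have hfr : Module.finrank K P ≤ 256 := by
    refine (finrank_range_le_card _).trans ?_
    simp only [_root_.Fintype.card_prod, _root_.Fintype.card_sum, _root_.Fintype.card_fin, _root_.Nat.reduceAdd, _root_.Nat.reduceMul, _root_.Std.le_refl]
  have hinv : ∀ f ∈ P, ∀ v s, (fun g => f (g * x v s)) ∈ P := by
    intro f hf v s
    induction hf using Submodule.span_induction with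
    | mem y hy =>
      obtain ⟨w, rfl⟩ := hy
      have e : (fun g => mc2 ρ b w (g * x v s)) = ∑ l, ∑ l', (mc ρ b (x v s) l w.1.2 * mc ρ b (x v s) l' w.2.2) •
          mc2 ρ b ((w.1.1, l), (w.2.1, l')) := by
        funext g
        rw [Finset.sum_apply]
        simp only [Finset.sum_apply, Pi.smul_apply, smul_eq_mul, mc2]
        rw [mc_mul, mc_mul, Finset.sum_mul_sum]
        refine Finset.sum_congr rfl fun l _ => Finset.sum_congr rfl fun l' _ => ?_
        ring
      rw [e]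
      exact Submodule.sum_mem _ fun l _ => Submodule.sum_mem _ fun l' _ => Submodule.smul_mem _ _
        (Submodule.subset_span ⟨_, rfl⟩)
    | zero => exact Submodule.zero_mem _
    | add y z _ _ h1 h2 => exact Submodule.add_mem _ h1 h2
    | smul c y _ h1 => exact Submodule.smul_mem _ c h1
  have hpoly : ∀ f ∈ P, ∀ g v, ∃ p : Polynomial K, p.natDegree ≤ 2 ∧ ∀ t : F, f (g * x v t) = p.eval (t : K) := by
    intro f hf g v
    induction hf using Submodule.span_induction with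
    | mem y hy =>
      obtain ⟨w, rfl⟩ := hy
      have hm : ∀ i j (t : F), mc ρ b (g * x v t) i j = mc ρ b g i j + t * b.repr ((ρ g * _root_.Cfsg.Agent.H94.BR.sq B v.1) (b j)) i := by
        intro i j t
        rw [mc, map_mul, hx, mul_add, mul_one, mul_smul_comm, LinearMap.add_apply, LinearMap.smul_apply, map_add,
          map_smul, Finsupp.add_apply, Finsupp.smul_apply, smul_eq_mul]
        rfl
      refine ⟨Polynomial.C (b.repr ((ρ g * _root_.Cfsg.Agent.H94.BR.sq B v.1) (b w.1.2)) w.1.1 * b.repr ((ρ g * _root_.Cfsg.Agent.H94.BR.sq B v.1) (b w.2.2)) w.2.1) *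
        Polynomial.X ^ 2 + Polynomial.C (mc ρ b g w.1.1 w.1.2 * b.repr ((ρ g * sq B v.1) (b w.2.2)) w.2.1 +
          mc ρ b g w.2.1 w.2.2 * b.repr ((ρ g * sq B v.1) (b w.1.2)) w.1.1) * Polynomial.X +
        Polynomial.C (mc ρ b g w.1.1 w.1.2 * mc ρ b g w.2.1 w.2.2), Polynomial.natDegree_quadratic_le, fun t => ?_⟩
      rw [mc2, hm, hm]
      simp only [Polynomial.eval_add, Polynomial.eval_mul, Polynomial.eval_C, Polynomial.eval_pow, Polynomial.eval_X]
      ring
    | zero => exact ⟨0, by simp, fun t => by simp⟩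
    | add y z _ _ h1 h2 =>
      obtain ⟨p1, d1, e1⟩ := h1
      obtain ⟨p2, d2, e2⟩ := h2
      exact ⟨p1 + p2, (Polynomial.natDegree_add_le _ _).trans (max_le d1 d2), fun t => by
        rw [Pi.add_apply, e1, e2, Polynomial.eval_add]⟩
    | smul c y _ h1 =>
      obtain ⟨p1, d1, e1⟩ := h1
      exact ⟨Polynomial.C c * p1, (Polynomial.natDegree_C_mul_le _ _).trans d1, fun t => by
        rw [Pi.smul_apply, e1, Polynomial.eval_mul, Polynomial.eval_C, smul_eq_mul]⟩
  have h1 := Cfsg.Agent.H110.BR.sz F hadd hgen hinv hpoly hf hf0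
  rw [h.cardF] at h1
  refine h1.trans (Nat.mul_le_mul_right _ ?_)
  omega

end Sz

section Count

variable {K : Type} [Field K]

theorem two_sols {F : Subfield K} [Finite F] {τ α δ c0 c1 c2 c3 : K} (hα : α ≠ 0) (hδ : δ ≠ 0) (h3 : c3 ≠ 0) (a c : K) :
    {z : F × F | τ + α * z.1 + δ * z.2 = a ∧ c0 + c1 * z.1 + c2 * z.2 + c3 * (z.1 * z.2) = c}.ncard ≤ 2 := by
  set! p : Polynomial K := Polynomial.C (-(c3 * δ)) * Polynomial.X ^ 2 +
    Polynomial.C (-(c1 * δ) + α * c2 + c3 * (a - τ)) * Polynomial.X +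
    Polynomial.C (α * c0 + c1 * (a - τ) - α * c) with hp
  have hp0 : p ≠ 0 := by
    intro h0
    have h1 : p.coeff 2 = -(c3 * δ) := by
      rw [hp, Polynomial.coeff_add, Polynomial.coeff_add, Polynomial.coeff_C_mul_X_pow, Polynomial.coeff_C_mul_X,
        Polynomial.coeff_C]
      simp
    rw [h0, Polynomial.coeff_zero] at h1
    exact mul_ne_zero h3 hδ (neg_eq_zero.1 h1.symm)
  have hdeg : p.natDegree ≤ 2 := Polynomial.natDegree_quadratic_le
  refine le_trans ?_ (Cfsg.Agent.H110.BR.card_roots_le F hp0 hdeg)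
  refine Set.ncard_le_ncard_of_injOn (fun z => z.2) ?_ ?_ (Set.toFinite _)
  · rintro ⟨s, t⟩ ⟨h1, h2⟩
    change p.eval (t : K) = 0
    rw [hp]
    simp only [Polynomial.eval_add, Polynomial.eval_mul, Polynomial.eval_C, Polynomial.eval_pow, Polynomial.eval_X]
    simp only at h1 h2
    linear_combination (-(c1 + c3 * (t : K))) * h1 + α * h2
  · rintro ⟨s, t⟩ ⟨h1, h2⟩ ⟨s', t'⟩ ⟨h1', h2'⟩ e
    simp only at e h1 h1'
    subst e
    rw [Prod.mk.injEq]
    refine ⟨Subtype.ext (mul_left_cancel₀ hα ?_), rfl⟩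
    linear_combination h1 - h1'

theorem bad_pairs {F : Subfield K} [Finite F] {f : ℕ} (hf : 0 < f) (hq : Nat.card F = 2 ^ f)
    {τ α δ c0 c1 c2 c3 : K} (hτF : τ ∈ F) (hαF : α ∈ F) (hδF : δ ∈ F)
    (hα : α ≠ 0) (hδ : δ ≠ 0) (h3 : c3 ≠ 0) :
    {z : F × F | ∃ j : ℕ, c0 + c1 * z.1 + c2 * z.2 + c3 * (z.1 * z.2) = (τ + α * z.1 + δ * z.2) ^ 2 ^ j}.ncard ≤
      2 * (f * 2 ^ f) := by
  classical
  have := Fintype.ofFinite F
  have hpow : ∀ (a : F) (j : ℕ), a ^ 2 ^ j = a ^ 2 ^ (j % f) := by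
    intro a j
    have h1 : ∀ m : ℕ, a ^ 2 ^ (f * m) = a := by
      intro m
      induction m with
      | zero => simp
      | succ m ih =>
        rw [mul_add, mul_one, pow_add, pow_mul, ih, ← hq, Nat.card_eq_fintype_card, FiniteField.pow_card]
    conv_lhs => rw [← Nat.div_add_mod j f, pow_add, pow_mul, h1]
  let S : F × Fin f → Set (F × F) := fun x =>
    {z : F × F | τ + α * z.1 + δ * z.2 = (x.1 : K) ∧ c0 + c1 * z.1 + c2 * z.2 + c3 * (z.1 * z.2) = (x.1 : K) ^ 2 ^ (x.2 : ℕ)}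
  have hsub : {z : F × F | ∃ j : ℕ, c0 + c1 * z.1 + c2 * z.2 + c3 * (z.1 * z.2) = (τ + α * z.1 + δ * z.2) ^ 2 ^ j} ⊆
      ⋃ x, S x := by
    rintro z ⟨j, hj⟩
    have hm : τ + α * z.1 + δ * z.2 ∈ F := F.add_mem (F.add_mem hτF (F.mul_mem hαF z.1.2)) (F.mul_mem hδF z.2.2)
    rw [Set.mem_iUnion]
    refine ⟨(⟨_, hm⟩, ⟨j % f, Nat.mod_lt _ hf⟩), rfl, ?_⟩
    rw [hj]
    have h4 := hpow ⟨_, hm⟩ j
    exact congrArg Subtype.val h4
  refine (Set.ncard_le_ncard hsub (Set.toFinite _)).trans ((Set.ncard_iUnion_le_of_fintype _).trans ?_)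
  refine (Finset.sum_le_card_nsmul _ _ 2 fun x _ => two_sols hα hδ h3 _ _).trans ?_
  rw [Finset.card_univ, Fintype.card_prod, Fintype.card_fin, ← Nat.card_eq_fintype_card (α := F), hq, smul_eq_mul]
  exact le_of_eq (by ring)

end Count

section Final

variable {q : ℕ} {K : Type} [Field K] {F : Subfield K} {V : Type} [AddCommGroup V] [Module K V]
  {B : LinearMap.BilinForm K V} {G : Type} [Group G] {ρ : G →* Module.End K V}
  {b : Module.Basis (Fin 2 ⊕ Fin 2) K V} {W : Type} [AddCommGroup W] [Module K W]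
  {σ : G →* Module.End K W} {π : Lam0 B →ₗ[K] W}

local notation "e₁" => (Sum.inl (0 : Fin 2) : Fin 2 ⊕ Fin 2)
local notation "e₂" => (Sum.inl (1 : Fin 2) : Fin 2 ⊕ Fin 2)
local notation "f₁" => (Sum.inr (0 : Fin 2) : Fin 2 ⊕ Fin 2)
local notation "f₂" => (Sum.inr (1 : Fin 2) : Fin 2 ⊕ Fin 2)

/-- degenerate elements -/
def Dg (ρ : G →* Module.End K V) (b : Module.Basis (Fin 2 ⊕ Fin 2) K V) (g : G) : Prop :=
  mc ρ b g f₁ e₁ = 0 ∨ mc ρ b g f₂ e₂ = 0 ∨
    mc ρ b g f₁ e₁ * mc ρ b g f₂ e₂ + mc ρ b g f₁ e₂ * mc ρ b g f₂ e₁ = 0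

theorem exists_nondeg (h : SpD 2 q F B ρ b) : ∃ g, mc ρ b g f₁ e₁ = 1 ∧ mc ρ b g f₂ e₂ = 1 ∧ mc ρ b g f₁ e₂ = 0 := by
  obtain ⟨t1, t2, t3, t4, t5, t6, t7, t8, t9, t10, t11, t12, t13, t14, t15, t16⟩ := B_tab h
  have hbr : ∀ i j, b.repr (b i) j ∈ F := by
    intro i j
    rw [b.repr_self, Finsupp.single_apply]
    split_ifs
    · exact F.one_mem
    · exact F.zero_mem
  obtain ⟨g1, h1⟩ := h.tv (b e₁ + b f₁) fun i => by
    rw [map_add, Finsupp.add_apply]; exact F.add_mem (hbr _ _) (hbr _ _)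
  obtain ⟨g2, h2⟩ := h.tv (b e₂ + b f₂) fun i => by
    rw [map_add, Finsupp.add_apply]; exact F.add_mem (hbr _ _) (hbr _ _)
  refine ⟨g1 * g2, ?_, ?_, ?_⟩ <;>
    simp only [mc, map_mul, Module.End.mul_apply, h1, h2, sq_apply, t1, t2, t4, t5, t6, t9, t10, t12, t13, t14, _root_.Fin.isValue, _root_.LinearMap.add_apply, _root_.Module.End.one_apply, _root_.map_add, _root_.add_zero, _root_.smul_add, _root_.zero_smul, _root_.zero_add, _root_.one_smul, _root_.Module.Basis.repr_self, _root_.Finsupp.coe_add, _root_.Pi.add_apply, _root_.ne_eq, _root_.reduceCtorEq, _root_.not_false_eq_true, _root_.Finsupp.single_eq_of_ne, _root_.Finsupp.single_eq_same, _root_.Sum.inr.injEq, _root_.zero_ne_one]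

theorem card_or' {X : Type} [Finite X] (P Q : X → Prop) :
    Nat.card {x // P x ∨ Q x} ≤ Nat.card {x // P x} + Nat.card {x // Q x} := Set.ncard_union_le {x | P x} {x | Q x}

theorem card_mono' {X : Type} [Finite X] {P Q : X → Prop} (h : ∀ x, P x → Q x) :
    Nat.card {x // P x} ≤ Nat.card {x // Q x} :=
  Set.ncard_le_ncard (s := {x | P x}) (t := {x | Q x}) h (Set.toFinite _)

theorem card_Dg (h : SpD 2 q F B ρ b) : q * Nat.card {g : G // Dg ρ b g} ≤ 1536 * Nat.card G := by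
  have := h.finG
  obtain ⟨g0, hg1, hg2, hg3⟩ := exists_nondeg h
  have h1 := sz2 h (f := mc2 ρ b ((f₁, e₁), (f₁, e₁))) (Submodule.subset_span ⟨_, rfl⟩)
    ⟨g0, by rw [mc2, hg1]; simp⟩
  have h2 := sz2 h (f := mc2 ρ b ((f₂, e₂), (f₂, e₂))) (Submodule.subset_span ⟨_, rfl⟩)
    ⟨g0, by rw [mc2, hg2]; simp⟩
  have h3 := sz2 h (f := mc2 ρ b ((f₁, e₁), (f₂, e₂)) + mc2 ρ b ((f₁, e₂), (f₂, e₁)))
    (Submodule.add_mem _ (Submodule.subset_span ⟨_, rfl⟩) (Submodule.subset_span ⟨_, rfl⟩))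
    ⟨g0, by rw [Pi.add_apply, mc2, mc2]; simp only; rw [hg1, hg2, hg3]; simp⟩
  have h4 : Nat.card {g : G // Dg ρ b g} ≤ Nat.card {g : G // mc2 ρ b ((f₁, e₁), (f₁, e₁)) g = 0} +
      (Nat.card {g : G // mc2 ρ b ((f₂, e₂), (f₂, e₂)) g = 0} +
        Nat.card {g : G // (mc2 ρ b ((f₁, e₁), (f₂, e₂)) + mc2 ρ b ((f₁, e₂), (f₂, e₁))) g = 0}) := by
    refine le_trans (card_mono' ?_) ((card_or' _ _).trans (Nat.add_le_add_left (card_or' _ _) _))
    rintro g (hg | hg | hg)
    · left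
      rw [mc2, hg, zero_mul]
    · right; left
      rw [mc2, hg, zero_mul]
    · right; right
      exact hg
  calc q * Nat.card {g : G // Dg ρ b g} ≤ q * _ := Nat.mul_le_mul_left _ h4
    _ = q * Nat.card {g : G // mc2 ρ b ((f₁, e₁), (f₁, e₁)) g = 0} +
      (q * Nat.card {g : G // mc2 ρ b ((f₂, e₂), (f₂, e₂)) g = 0} +
        q * Nat.card {g : G // (mc2 ρ b ((f₁, e₁), (f₂, e₂)) + mc2 ρ b ((f₁, e₂), (f₂, e₁))) g = 0}) := by ring
    _ ≤ 512 * Nat.card G + (512 * Nat.card G + 512 * Nat.card G) := Nat.add_le_add h1 (Nat.add_le_add h2 h3)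
    _ = _ := by ring

/-- the bad elements -/
def Bd (ρ : G →* Module.End K V) (σ : G →* Module.End K W) (y : G) : Prop :=
  ∃ j : ℕ, LinearMap.trace K W (σ y) = (LinearMap.trace K V (ρ y)) ^ 2 ^ j

theorem mc_mem (h : SpD 2 q F B ρ b) (g : G) (i j : Fin 2 ⊕ Fin 2) : mc ρ b g i j ∈ F := h.rat g i j

/-- the bad elements in `y u(s,t)`, `y` not degenerate -/
theorem bad_u (h : SpD 2 q F B ρ b) (hW : WD B ρ σ π) {f : ℕ} (hf : 0 < f) (hq : q = 2 ^ f) {u : F → F → G}
    (hu : ∀ s t, ρ (u s t) (b e₁) = b e₁ ∧ ρ (u s t) (b e₂) = b e₂ ∧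
      ρ (u s t) (b f₁) = b f₁ + (s : K) • b e₁ ∧ ρ (u s t) (b f₂) = b f₂ + (t : K) • b e₂)
    (y : G) (hy : ¬ Dg ρ b y) : {z : F × F | Bd ρ σ (y * u z.1 z.2)}.ncard ≤ 2 * (f * 2 ^ f) := by
  have := h.finF
  rw [Dg, not_or, not_or] at hy
  obtain ⟨hy1, hy2, hy3⟩ := hy
  have hh := bad_pairs (F := F) hf (h.cardF.trans hq) (τ := LinearMap.trace K V (ρ y))
    (α := mc ρ b y f₁ e₁) (δ := mc ρ b y f₂ e₂) (c0 := LinearMap.trace K W (σ y))
    (c1 := mc ρ b y e₂ e₂ * mc ρ b y f₁ e₁ + mc ρ b y f₁ e₂ * mc ρ b y e₂ e₁ +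
      mc ρ b y f₁ e₁ * mc ρ b y f₂ f₂ + mc ρ b y f₂ e₁ * mc ρ b y f₁ f₂)
    (c2 := mc ρ b y e₁ e₁ * mc ρ b y f₂ e₂ + mc ρ b y f₂ e₁ * mc ρ b y e₁ e₂ +
      mc ρ b y f₁ f₁ * mc ρ b y f₂ e₂ + mc ρ b y f₂ f₁ * mc ρ b y f₁ e₂)
    (by
      rw [trace_V (b := b)]
      exact F.add_mem (F.add_mem (F.add_mem (mc_mem h _ _ _) (mc_mem h _ _ _)) (mc_mem h _ _ _)) (mc_mem h _ _ _))
    (mc_mem h _ _ _) (mc_mem h _ _ _) hy1 hy2 hy3
  refine le_trans (Set.ncard_le_ncard ?_ (Set.toFinite _)) hh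
  rintro ⟨s, t⟩ ⟨j, hj⟩
  refine ⟨j, ?_⟩
  obtain ⟨u1, u2, u3, u4⟩ := hu s t
  have m1 : ∀ i, mc ρ b (y * u s t) i e₁ = mc ρ b y i e₁ := fun i => mc_mul_fix u1 i
  have m2 : ∀ i, mc ρ b (y * u s t) i e₂ = mc ρ b y i e₂ := fun i => mc_mul_fix u2 i
  have m3 : ∀ i, mc ρ b (y * u s t) i f₁ = mc ρ b y i f₁ + s * mc ρ b y i e₁ := fun i => mc_mul_of u3 i
  have m4 : ∀ i, mc ρ b (y * u s t) i f₂ = mc ρ b y i f₂ + t * mc ρ b y i e₂ := fun i => mc_mul_of u4 i
  have hV : LinearMap.trace K V (ρ (y * u s t)) =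
      LinearMap.trace K V (ρ y) + mc ρ b y f₁ e₁ * s + mc ρ b y f₂ e₂ * t := by
    rw [trace_V (b := b), trace_V (b := b), m1, m2, m3, m4]
    ring
  have hWt : ∀ g, LinearMap.trace K W (σ g) =
      (mc ρ b g e₁ e₁ * mc ρ b g e₂ e₂ + mc ρ b g e₂ e₁ * mc ρ b g e₁ e₂) +
      (mc ρ b g e₁ e₁ * mc ρ b g f₂ f₂ + mc ρ b g f₂ e₁ * mc ρ b g e₁ f₂) +
      (mc ρ b g e₂ e₂ * mc ρ b g f₁ f₁ + mc ρ b g f₁ e₂ * mc ρ b g e₂ f₁) +
      (mc ρ b g f₁ f₁ * mc ρ b g f₂ f₂ + mc ρ b g f₂ f₁ * mc ρ b g f₁ f₂) := by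
    intro g
    rw [trace_W h hW, Fin.sum_univ_four]
    rfl
  rw [hV, hWt, m1, m1, m1, m2, m2, m2, m3, m3, m3, m4, m4, m4] at hj
  rw [← hj, hWt]
  ring

theorem card_sigma_le {X Z : Type} [Finite X] [Finite Z] (P : X → Z → Prop) (n : ℕ)
    (hP : ∀ x, {z | P x z}.ncard ≤ n) : Nat.card {w : X × Z // P w.1 w.2} ≤ Nat.card X * n := by
  classical
  have := Fintype.ofFinite X
  rw [Nat.card_congr (Equiv.subtypeProdEquivSigmaSubtype P), Nat.card_sigma]
  refine (Finset.sum_le_card_nsmul _ _ n fun x _ => hP x).trans ?_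
  rw [Finset.card_univ, ← Nat.card_eq_fintype_card, smul_eq_mul]

theorem card_bad_le (h : SpD 2 q F B ρ b) (hW : WD B ρ σ π) {f : ℕ} (hf : 0 < f) (hq : q = 2 ^ f) :
    q * Nat.card {y : G // Bd ρ σ y} ≤ (1536 + 2 * f) * Nat.card G := by
  have := h.finF
  have := h.finG
  choose u hu using fun s t => exists_u h s t
  have hZ : Nat.card (F × F) = q * q := by rw [Nat.card_prod, h.cardF]
  have h1 : Nat.card {w : G × (F × F) // Bd ρ σ (w.1 * u w.2.1 w.2.2)} = Nat.card {y : G // Bd ρ σ y} * (q * q) := by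
    rw [← hZ, ← Nat.card_prod]
    exact Nat.card_congr
      { toFun := fun w => (⟨w.1.1 * u w.1.2.1 w.1.2.2, w.2⟩, w.1.2)
        invFun := fun w => ⟨(w.1.1 * (u w.2.1 w.2.2)⁻¹, w.2), by simpa using w.1.2⟩
        left_inv := fun w => by
          apply Subtype.ext
          simp
        right_inv := fun w => by
          apply Prod.ext
          · apply Subtype.ext
            simp
          · rfl }
  have h2 : Nat.card {w : G × (F × F) // Bd ρ σ (w.1 * u w.2.1 w.2.2)} ≤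
      Nat.card {w : G × (F × F) // Dg ρ b w.1} +
      Nat.card {w : G × (F × F) // ¬ Dg ρ b w.1 ∧ Bd ρ σ (w.1 * u w.2.1 w.2.2)} := by
    refine le_trans (card_mono' ?_) (card_or' _ _)
    intro w hw
    by_cases hd : Dg ρ b w.1
    · exact Or.inl hd
    · exact Or.inr ⟨hd, hw⟩
  have h3 : Nat.card {w : G × (F × F) // Dg ρ b w.1} = Nat.card {y : G // Dg ρ b y} * (q * q) := by
    rw [← hZ, ← Nat.card_prod]
    exact Nat.card_congr
      { toFun := fun w => (⟨w.1.1, w.2⟩, w.1.2)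
        invFun := fun w => ⟨(w.1.1, w.2), w.1.2⟩
        left_inv := fun w => rfl
        right_inv := fun w => rfl }
  have h4 : Nat.card {w : G × (F × F) // ¬ Dg ρ b w.1 ∧ Bd ρ σ (w.1 * u w.2.1 w.2.2)} ≤
      Nat.card G * (2 * (f * q)) := by
    refine card_sigma_le (fun (y : G) (z : F × F) => ¬ Dg ρ b y ∧ Bd ρ σ (y * u z.1 z.2)) _ fun y => ?_
    by_cases hd : Dg ρ b y
    · have : {z : F × F | ¬ Dg ρ b y ∧ Bd ρ σ (y * u z.1 z.2)} = ∅ := by
        ext z
        simp [hd]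
      rw [this, Set.ncard_empty]
      exact Nat.zero_le _
    · refine (Set.ncard_le_ncard (t := {z : F × F | Bd ρ σ (y * u z.1 z.2)}) (fun z hz => hz.2) (Set.toFinite _)).trans ?_
      have := bad_u h hW hf hq hu y hd
      rwa [← hq] at this
  have h5 := card_Dg h
  rw [h1, h3] at h2
  have hq0 : 0 < q := by rw [hq]; positivity
  have h6 : q * (q * Nat.card {y : G // Bd ρ σ y}) ≤ q * ((1536 + 2 * f) * Nat.card G) := by
    calc q * (q * Nat.card {y : G // Bd ρ σ y}) = Nat.card {y : G // Bd ρ σ y} * (q * q) := by ring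
      _ ≤ Nat.card {y : G // Dg ρ b y} * (q * q) + Nat.card G * (2 * (f * q)) := h2.trans (Nat.add_le_add_left h4 _)
      _ = q * (q * Nat.card {y : G // Dg ρ b y}) + q * ((2 * f) * Nat.card G) := by ring
      _ ≤ q * (1536 * Nat.card G) + q * ((2 * f) * Nat.card G) := Nat.add_le_add_right (Nat.mul_le_mul_left _ h5) _
      _ = _ := by ring
  exact Nat.le_of_mul_le_mul_left h6 hq0

theorem two_pow_sqrt (f : ℕ) : f ≤ 2 * Nat.sqrt (2 ^ f) := by
  have h1 : 2 ^ (f / 2) ≤ Nat.sqrt (2 ^ f) := by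
    rw [Nat.le_sqrt', ← pow_mul]
    exact Nat.pow_le_pow_right (by norm_num) (by omega)
  have h2 : f / 2 < 2 ^ (f / 2) := Nat.lt_two_pow_self
  omega

/-- **the count for `Sp_4(2^f)`** -/
theorem cnt4 : ∃ C : ℕ, ∀ (q : ℕ) (K : Type) [Field K] (F : Subfield K) (V : Type) [AddCommGroup V] [Module K V]
    (B : LinearMap.BilinForm K V) (G : Type) [Group G] (ρ : G →* Module.End K V)
    (b : Module.Basis (Fin 2 ⊕ Fin 2) K V) (W : Type) [AddCommGroup W] [Module K W] (σ : G →* Module.End K W)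
    (π : Lam0 B →ₗ[K] W), SpD 2 q F B ρ b → WD B ρ σ π →
    Nat.sqrt q * Nat.card {y : G // ∃ j : ℕ, LinearMap.trace K W (σ y) = (LinearMap.trace K V (ρ y)) ^ 2 ^ j} ≤
      C * Nat.card G := by
  refine ⟨1536 + 4, fun q K _ F V _ _ B G _ ρ b W _ _ σ π h hW => ?_⟩
  have := h.finF
  have := h.char
  have := Fintype.ofFinite F
  have h2 : CharP F 2 := F.subtype.charP F.subtype.injective 2
  obtain ⟨n, -, hn⟩ := FiniteField.card F 2
  have hq : q = 2 ^ (n : ℕ) := by rw [← h.cardF, Nat.card_eq_fintype_card, hn]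
  have h3 := card_bad_le h hW n.pos hq
  set f := (n : ℕ) with hf
  set N := Nat.card {y : G // ∃ j : ℕ, LinearMap.trace K W (σ y) = (LinearMap.trace K V (ρ y)) ^ 2 ^ j} with hN
  have h3' : q * N ≤ (1536 + 2 * f) * Nat.card G := h3
  have hq0 : 0 < q := by rw [hq]; positivity
  have hs1 : Nat.sqrt q ≤ q := Nat.sqrt_le_self _
  have hs2 : Nat.sqrt q * Nat.sqrt q ≤ q := Nat.sqrt_le q
  have hs3 : f ≤ 2 * Nat.sqrt q := by rw [hq]; exact two_pow_sqrt f
  have h4 : Nat.sqrt q * (1536 + 2 * f) ≤ (1536 + 4) * q := by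
    calc Nat.sqrt q * (1536 + 2 * f) ≤ Nat.sqrt q * (1536 + 2 * (2 * Nat.sqrt q)) :=
          Nat.mul_le_mul_left _ (by omega)
      _ = 1536 * Nat.sqrt q + 4 * (Nat.sqrt q * Nat.sqrt q) := by ring
      _ ≤ 1536 * q + 4 * q := Nat.add_le_add (Nat.mul_le_mul_left _ hs1) (Nat.mul_le_mul_left _ hs2)
      _ = _ := by ring
  refine (Nat.mul_le_mul_left_iff hq0).1 ?_
  calc q * (Nat.sqrt q * N) = Nat.sqrt q * (q * N) := by ring
    _ ≤ Nat.sqrt q * ((1536 + 2 * f) * Nat.card G) := Nat.mul_le_mul_left _ h3'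
    _ = (Nat.sqrt q * (1536 + 2 * f)) * Nat.card G := by ring
    _ ≤ ((1536 + 4) * q) * Nat.card G := Nat.mul_le_mul_right _ h4
    _ = q * ((1536 + 4) * Nat.card G) := by ring

end Final

end Cfsg.Agent.H124.BR
end

-- part: H94/BR/SpRowB
section
/-!
# HUB BR, `Sp_{2m}(2^f)`: `Row` (`m ≥ 3`) and `Row2` (`m = 2`) for the abstract data
-/

set_option autoImplicit false

namespace Cfsg.Agent.H94.BR

open Cfsg.Agent.H883.BR

theorem row_abs (m : ℕ) (hm : 3 ≤ m) (hstr : StrSt (2 * m)) (hcrg : CrgSt) (hext : ExtV) :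
    ∃ C q₀ : ℕ, ∀ (q : ℕ) (K : Type) [Field K] (F : Subfield K) (V : Type) [AddCommGroup V] [Module K V]
    (B : LinearMap.BilinForm K V) (G : Type) [Group G] (ρ : G →* Module.End K V)
    (b : Module.Basis (Fin m ⊕ Fin m) K V) (Vh : Type) [AddCommGroup Vh] [Module K Vh] (ρh : G →* Module.End K Vh)
    (ι : Type) (x : ι → F → G), q₀ ≤ q → SpD m q F B ρ b → ModF (m := m) B ρ → EndSt F B ρ ρh →
    FiniteDimensional K Vh → Module.finrank K Vh = 2 * m + 1 → OneP F x → PolyDeg ρ F x 2 → PolyDeg ρh F x 2 →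
    (∀ k, 0 < k → k + 1 < q → ∃ g : G, g ^ k ≠ 1) → Row.{0, 0} C q G := by
  obtain ⟨C, q₀, h⟩ := row_pack m hstr hcrg hext
  refine ⟨C, q₀, ?_⟩
  intro q K _ F V _ _ B G _ ρ b Vh _ _ ρh ι x hq D hmod hEnd hfh hdh hx hρ hρh hpw
  obtain ⟨W, iW1, iW2, σ, π, h88⟩ :=
    h q K F V B G ρ b Vh ρh ι x hq D hmod hEnd hfh hdh hx hρ hρh hpw
  revert h88; rintro ⟨hW, f1, f2, f3, d1, h88⟩
  revert h88; rintro ⟨d2, d3, p1, p2, p3, h88⟩
  revert h88; rintro ⟨t1, t2, hk, hend⟩
  refine ⟨K, inferInstance, F, ι, x, Module.End K (Module.End K V) × Module.End K Vh, V, W, inferInstance,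
    inferInstance, inferInstance, inferInstance, iW1, iW2, prodR (ad (ad ρ)) (ad ρh), ρ, σ, D.finF, D.cardF, hx, f1, f2,
    f3, d1, d2, d3, p1, p2, p3, t1, t2, hk, ?_⟩
  intro H hH y hy hky ht ht'
  rcases hend H hH y hy hky ht ht' with h1 | ⟨h1, -⟩
  · exact h1
  · omega

theorem row2_abs (hstr : StrSt (2 * 2)) (hcrg : CrgSt) (hext : ExtV) :
    ∃ C q₀ : ℕ, ∀ (q : ℕ) (K : Type) [Field K] (F : Subfield K) (V : Type) [AddCommGroup V] [Module K V]
    (B : LinearMap.BilinForm K V) (G : Type) [Group G] (ρ : G →* Module.End K V)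
    (b : Module.Basis (Fin 2 ⊕ Fin 2) K V) (Vh : Type) [AddCommGroup Vh] [Module K Vh] (ρh : G →* Module.End K Vh)
    (ι : Type) (x : ι → F → G), q₀ ≤ q → SpD 2 q F B ρ b → ModF (m := 2) B ρ → EndSt F B ρ ρh →
    FiniteDimensional K Vh → Module.finrank K Vh = 2 * 2 + 1 → OneP F x → PolyDeg ρ F x 2 → PolyDeg ρh F x 2 →
    (∀ k, 0 < k → k + 1 < q → ∃ g : G, g ^ k ≠ 1) → Cfsg.Agent.H815.BR.Row2.{0, 0} C q G := by
  obtain ⟨C, q₀, h⟩ := row_pack 2 hstr hcrg hext
  obtain ⟨C₄, hC₄⟩ := Cfsg.Agent.H124.BR.cnt4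
  refine ⟨max C C₄, max q₀ (C₄ + 2), ?_⟩
  intro q K _ F V _ _ B G _ ρ b Vh _ _ ρh ι x hq D hmod hEnd hfh hdh hx hρ hρh hpw
  have := D.closed
  have := D.finF
  have := D.char
  have hq1 : q₀ ≤ q := (le_max_left _ _).trans hq
  have hq2 : C₄ + 2 ≤ q := (le_max_right _ _).trans hq
  obtain ⟨W, iW1, iW2, σ, π, h88⟩ :=
    h q K F V B G ρ b Vh ρh ι x hq1 D hmod hEnd hfh hdh hx hρ hρh hpw
  revert h88; rintro ⟨hW, f1, f2, f3, d1, h88⟩
  revert h88; rintro ⟨d2, d3, p1, p2, p3, h88⟩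
  revert h88; rintro ⟨t1, t2, hk, hend⟩
  have hC : C ≤ max C C₄ := le_max_left _ _
  have hC' : C₄ ≤ max C C₄ := le_max_right _ _
  refine ⟨K, inferInstance, F, ι, x, Module.End K (Module.End K V) × Module.End K Vh, V, W, inferInstance,
    inferInstance, inferInstance, inferInstance, iW1, iW2, prodR (ad (ad ρ)) (ad ρh), ρ, σ,
    {y : G | ∃ j : ℕ, LinearMap.trace K W (σ y) = (LinearMap.trace K V (ρ y)) ^ 2 ^ j}, D.finF, D.cardF, hx, f1, f2,
    f3, d1.trans hC, d2.trans hC, d3.trans hC, polyDeg_mono p1 hC, polyDeg_mono p2 hC, polyDeg_mono p3 hC, t1, t2, ?_,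
    ?_, ?_⟩
  · intro k hk0 hkC
    rcases le_or_gt k C with h1 | h1
    · exact hk k hk0 h1
    · have h2 : k ≤ C₄ := by
        rcases le_max_iff.1 hkC with h3 | h3
        · omega
        · exact h3
      obtain ⟨g, hg⟩ := hpw k hk0 (by omega)
      refine ⟨g, fun h => hg ?_⟩
      refine eq_one_of_adad D hmod.irr ?_
      refine LinearMap.ext fun X => ?_
      have h1 := congrArg (fun T : Module.End K (Module.End K (Module.End K V) × Module.End K Vh) => (T (X, 0)).1) h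
      exact h1
  · exact (hC₄ q K F V B G ρ b W σ π D hW).trans (Nat.mul_le_mul_right _ hC')
  · intro H hH y hy hyE hky ht ht'
    rcases hend H hH y hy (fun k hk0 hkC => hky k hk0 (hkC.trans hC)) ht ht' with h1 | ⟨-, h1⟩
    · exact h1
    · exact absurd h1 hyE

end Cfsg.Agent.H94.BR
end

-- part: H886/BR/SpModel
section
/-!
# HUB BR (S5715, S5716), family `Sp_{2m}(2^f)`: the concrete model (helper886)

* `spd` : `H94.BR.SpD` for `Sp_{2m}(F)` acting on `K^{2m}`, `K` the algebraic closure of `F`;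
* `qs_sp` : `Sp_{2m}(F)` is quasisimple in the form `QS`;
* `exists_pow_ne` : some `g ^ k ≠ 1` for `0 < k < |F| - 1` (a torus element);
* `sq_eq`, `wd_eq`, `finrank_Vh`, `finrank_Vn` : comparison of the two sets of definitions.
-/

set_option autoImplicit false

namespace Cfsg.Agent.H886.BR

open Cfsg Matrix
open Cfsg.Agent.H883.BR
open Cfsg.Agent.ClassicalGeometry.SympBasic
open Cfsg.Agent.H107.SpTr Cfsg.Agent.H107.SpConj
open Cfsg.Agent.H215.BR (Vn rho fr emb emb_apply emb_injective wedge rho_transv rho_injective rho_form)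

section eqs

variable {m : ℕ} {K : Type} [Field K]

theorem finrank_Vn (m : ℕ) (K : Type) [Field K] : Module.finrank K (Vn m K) = 2 * m := by
  rw [Module.finrank_pi, Fintype.card_sum, Fintype.card_fin]
  ring

theorem finrank_Vh (m : ℕ) (K : Type) [Field K] : Module.finrank K (Vn m K × K) = 2 * m + 1 := by
  rw [Module.finrank_prod, finrank_Vn, Module.finrank_self]

theorem form_ll (i j : Fin m) : sympForm m K (Pi.single (Sum.inl i) 1) (Pi.single (Sum.inl j) 1) = 0 := by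
  rw [sympForm_eq_sum]
  refine Finset.sum_eq_zero fun k _ => ?_
  simp

theorem form_rr (i j : Fin m) : sympForm m K (Pi.single (Sum.inr i) 1) (Pi.single (Sum.inr j) 1) = 0 := by
  rw [sympForm_eq_sum]
  refine Finset.sum_eq_zero fun k _ => ?_
  simp

theorem form_lr (i j : Fin m) :
    sympForm m K (Pi.single (Sum.inl i) 1) (Pi.single (Sum.inr j) 1) = -if i = j then 1 else 0 := by
  rw [sympForm_eq_sum, Finset.sum_eq_single i]
  · by_cases h : i = j
    · subst h
      simp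
    · simp [h]
  · intro k _ hk
    simp [Pi.single_apply, hk]
  · intro h
    exact absurd (Finset.mem_univ i) h

end eqs

/-! ### a torus element -/

section torus

variable {m : ℕ} {F : Type*} [Field F]

/-- `diag(t, …, t, t⁻¹, …, t⁻¹)` -/
def dg (m : ℕ) (t : Fˣ) : Matrix.symplecticGroup (Fin m) F :=
  ⟨Matrix.diagonal (Sum.elim (fun _ => (t : F)) (fun _ => ((t⁻¹ : Fˣ) : F))), by
    rw [SymplecticGroup.mem_iff, Matrix.diagonal_transpose]
    ext i j
    rw [Matrix.mul_diagonal, Matrix.diagonal_mul]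
    rcases i with i | i <;> rcases j with j | j <;>
      simp [Matrix.J, Matrix.one_apply, mul_comm]⟩

theorem coe_dg (t : Fˣ) : ((dg m t : Matrix.symplecticGroup (Fin m) F) : Matrix (Fin m ⊕ Fin m) (Fin m ⊕ Fin m) F) =
    Matrix.diagonal (Sum.elim (fun _ => (t : F)) (fun _ => ((t⁻¹ : Fˣ) : F))) := rfl

theorem exists_pow_ne [Fintype F] (hm : 0 < m) {k : ℕ} (hk : 0 < k) (hkF : k + 1 < Fintype.card F) :
    ∃ g : Matrix.symplecticGroup (Fin m) F, g ^ k ≠ 1 := by
  classical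
  obtain ⟨t, ht⟩ := IsCyclic.exists_generator (α := Fˣ)
  refine ⟨dg m t, fun h => ?_⟩
  have h1 := congrArg (fun g : Matrix.symplecticGroup (Fin m) F =>
    (g : Matrix (Fin m ⊕ Fin m) (Fin m ⊕ Fin m) F) (Sum.inl ⟨0, hm⟩) (Sum.inl ⟨0, hm⟩)) h
  simp only [SubmonoidClass.coe_pow, coe_dg, Matrix.diagonal_pow, OneMemClass.coe_one, Matrix.diagonal_apply_eq,
    Matrix.one_apply_eq, Pi.pow_apply, Sum.elim_inl] at h1
  have h2 : t ^ k = 1 := Units.ext (by rw [Units.val_pow_eq_pow_val, h1, Units.val_one])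
  have h3 : orderOf t ≤ k := Nat.le_of_dvd hk (orderOf_dvd_of_pow_eq_one h2)
  have h4 : orderOf t = Nat.card Fˣ := orderOf_eq_card_of_forall_mem_zpowers ht
  rw [h4, Nat.card_eq_fintype_card, Fintype.card_units] at h3
  omega

end torus

/-- `Sp_{2m}(F)` -/
theorem qs_sp {m : ℕ} (hm : 2 ≤ m) {F : Type*} [Field F] [Fintype F] (h3 : 3 ≤ Fintype.card F) :
    QS (Matrix.symplecticGroup (Fin m) F) :=
  Cfsg.Agent.H16.BR.qs_of (Cfsg.Agent.H16.BR.quasi_sp hm h3)

/-! ### the model -/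

section model

variable (m : ℕ) (F : Type) [Field F]

theorem repr_basisFun {K : Type} [Field K] (v : Vn m K) (i : Fin m ⊕ Fin m) :
    (Pi.basisFun K (Fin m ⊕ Fin m)).repr v i = v i := Pi.basisFun_repr K _ v i

variable {m F} in
/-- rational vectors -/
theorem exists_emb {K : Type} [Field K] [Algebra F K] {v : Vn m K}
    (hv : ∀ i, (Pi.basisFun K (Fin m ⊕ Fin m)).repr v i ∈ fr F K) : ∃ u : Fin m ⊕ Fin m → F, emb K u = v := by
  have h : ∀ i, ∃ a : F, algebraMap F K a = v i := fun i => by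
    have := hv i
    rw [repr_basisFun] at this
    exact this
  choose u hu using h
  exact ⟨u, funext hu⟩

theorem spd [Fintype F] (hF : Even (Fintype.card F)) (h4 : 4 ≤ Fintype.card F) (hm : 2 ≤ m) :
    Cfsg.Agent.H94.BR.SpD m (Fintype.card F) (fr F (AlgebraicClosure F)) (sympBilin m (AlgebraicClosure F))
      (rho (m := m) (F := F) (AlgebraicClosure F)) (Pi.basisFun (AlgebraicClosure F) (Fin m ⊕ Fin m)) := by
  classical
  have hc : CharP F 2 := by
    obtain ⟨p, hp⟩ := CharP.exists F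
    have hpp : p.Prime := CharP.char_is_prime F p
    obtain ⟨n, _, hn⟩ := FiniteField.card F p
    have h2 : 2 ∣ p := Nat.Prime.dvd_of_dvd_pow Nat.prime_two (hn ▸ hF.two_dvd)
    have h3 : p = 2 := ((Nat.prime_dvd_prime_iff_eq Nat.prime_two hpp).1 h2).symm
    rwa [h3] at hp
  have hcK : CharP (AlgebraicClosure F) 2 := Cfsg.Agent.H212.BR.charP_closure F 2
  have : PerfectRing F 2 := inferInstance
  have hsq : ∀ u : Fin m ⊕ Fin m → F, rho (AlgebraicClosure F) (transv u 1) =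
      1 + Cfsg.Agent.H94.BR.sq (sympBilin m (AlgebraicClosure F)) (emb (AlgebraicClosure F) u) := by
    intro u
    rw [rho_transv, map_one, one_smul]
    rfl
  have hrat : ∀ u : Fin m ⊕ Fin m → F, ∀ i, (Pi.basisFun (AlgebraicClosure F) (Fin m ⊕ Fin m)).repr
      (emb (AlgebraicClosure F) u) i ∈ fr F (AlgebraicClosure F) := by
    intro u i
    rw [repr_basisFun]
    exact ⟨u i, rfl⟩
  exact
    { two_le := hm
      four_le := h4
      char := hcK
      closed := inferInstance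
      locfin := Cfsg.Agent.H212.BR.locfin F
      finF := Cfsg.Agent.H212.BR.finite_base F
      cardF := by
        have := Cfsg.Agent.H212.BR.card_base F
        rwa [Nat.card_eq_fintype_card (α := F)] at this
      finG := inferInstance
      qs := qs_sp hm (by omega)
      alt := fun x => sympForm_self x
      ll := fun i j => by
        rw [Pi.basisFun_apply, Pi.basisFun_apply]
        exact form_ll i j
      rr := fun i j => by
        rw [Pi.basisFun_apply, Pi.basisFun_apply]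
        exact form_rr i j
      lr := fun i j => by
        rw [Pi.basisFun_apply, Pi.basisFun_apply]
        exact (form_lr i j).trans (CharTwo.neg_eq _)
      inj := rho_injective _
      iso := fun g x y => rho_form _ g x y
      rat := fun g i j => by
        rw [repr_basisFun, Pi.basisFun_apply, ← Cfsg.Agent.H215.BR.emb_single (F := F),
          Cfsg.Agent.H215.BR.rho_emb, emb_apply]
        exact ⟨_, rfl⟩
      tv := fun v hv => by
        obtain ⟨u, rfl⟩ := exists_emb hv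
        exact ⟨transv u 1, hsq u⟩
      gen := by
        refine eq_top_of_transv fun v c _ => Subgroup.subset_closure ?_
        obtain ⟨d, hd⟩ : ∃ d : F, d ^ 2 = c := ⟨Cfsg.Agent.H215.BR.rt F c, Cfsg.Agent.H215.BR.rt_sq c⟩
        refine ⟨emb (AlgebraicClosure F) (d • v), hrat _, ?_⟩
        rw [← hsq, transv_smul, hd, mul_one] }

end model

end Cfsg.Agent.H886.BR
end

-- part: H94/BR/SpFin
section
/-!
# HUB BR, `Sp_{2m}(2^f)`: the concrete groups
-/

set_option autoImplicit false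

namespace Cfsg.Agent.H94.BR

open Cfsg Cfsg.Agent.H883.BR Cfsg.Agent.H215.BR
open Cfsg.Agent.ClassicalGeometry.SympBasic Cfsg.Agent.H107.SpTr Cfsg.Agent.H107.SpConj

/-- the end of the proof for the concrete groups -/
def EndHyp (m : ℕ) : Prop := ∃ q₀ : ℕ, ∀ (F : Type) [Field F] [Fintype F], q₀ ≤ Fintype.card F →
  Even (Fintype.card F) → ∀ [CharP (AlgebraicClosure F) 2] [PerfectRing (AlgebraicClosure F) 2],
    EndSt (fr F (AlgebraicClosure F)) (sympBilin m (AlgebraicClosure F)) (rho (m := m) (F := F) (AlgebraicClosure F))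
      (rhoh (m := m) (F := F) (AlgebraicClosure F))

/-- the module facts -/
def ModHyp : Prop := ∀ (m q : ℕ) (K : Type) [Field K] (F : Subfield K) (V : Type) [AddCommGroup V] [Module K V]
    (B : LinearMap.BilinForm K V) (G : Type) [Group G] (ρ : G →* Module.End K V)
    (b : Module.Basis (Fin m ⊕ Fin m) K V), SpD m q F B ρ b → ModF (m := m) B ρ

theorem strSt (h : StStr.{0, 0, 0}) (n : ℕ) : StrSt n := by
  obtain ⟨C, hC⟩ := h n
  refine ⟨C, ?_⟩
  intro K _ _ _ lf G _ _ V _ _ _ ρ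
  exact hC 2 Nat.prime_two K lf G V ρ

theorem crgSt (h : StCRG.{0, 0, 0}) : CrgSt := by
  intro M _ _ hp hs hl hc
  have : Fact (Nat.Prime 2) := ⟨Nat.prime_two⟩
  exact h 2 M hp hs hl (by rw [hc]; norm_num)

theorem charP_two {F : Type} [Field F] [Fintype F] (hF : Even (Fintype.card F)) : CharP F 2 := by
  obtain ⟨p, hp⟩ := CharP.exists F
  have hpp : p.Prime := CharP.char_is_prime F p
  obtain ⟨n, _, hn⟩ := FiniteField.card F p
  have h2 : 2 ∣ p := Nat.Prime.dvd_of_dvd_pow Nat.prime_two (hn ▸ hF.two_dvd)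
  have h3 : p = 2 := ((Nat.prime_dvd_prime_iff_eq Nat.prime_two hpp).1 h2).symm
  rwa [h3] at hp

/-- **`Sp_{2m}(2^f)`, `m ≥ 3`** -/
theorem row_sp_even_of (hstr : StStr.{0, 0, 0}) (hcrg : StCRG.{0, 0, 0}) (hext : ExtV) (hmod : ModHyp) (m : ℕ)
    (hend : EndHyp m) (hm : 3 ≤ m) : ∃ C q₀ : ℕ, ∀ (F : Type) [Field F] [Fintype F], q₀ ≤ Fintype.card F →
    Even (Fintype.card F) → Row.{0, 0} C (Fintype.card F) (Matrix.symplecticGroup (Fin m) F) := by
  obtain ⟨C, q₁, h⟩ := row_abs m hm (strSt hstr _) (crgSt hcrg) hext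
  obtain ⟨q₂, h2⟩ := hend
  refine ⟨C, max (max q₁ q₂) 4, ?_⟩
  intro F _ _ hq hF
  have hq1 : q₁ ≤ Fintype.card F := ((le_max_left _ _).trans (le_max_left _ _)).trans hq
  have hq2 : q₂ ≤ Fintype.card F := ((le_max_right _ _).trans (le_max_left _ _)).trans hq
  have hq4 : 4 ≤ Fintype.card F := (le_max_right _ _).trans hq
  have hc : CharP F 2 := charP_two hF
  have hcK : CharP (AlgebraicClosure F) 2 := Cfsg.Agent.H212.BR.charP_closure F 2
  have hpF : PerfectRing F 2 := inferInstance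
  have hpK : PerfectRing (AlgebraicClosure F) 2 := inferInstance
  have D := Cfsg.Agent.H886.BR.spd m F hF hq4 (by omega)
  exact h _ _ _ _ _ _ _ _ (Vn m (AlgebraicClosure F) × AlgebraicClosure F) (rhoh (AlgebraicClosure F)) _
    (xs (AlgebraicClosure F)) hq1 D (hmod _ _ _ _ _ _ _ _ _ D) (h2 F hq2 hF) inferInstance
    (Cfsg.Agent.H886.BR.finrank_Vh m _) oneP polyDeg_rho polyDeg_rhoh
    (fun k hk hkq => Cfsg.Agent.H886.BR.exists_pow_ne (by omega) hk hkq)

/-- **`Sp_4(2^f)`** -/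
theorem row2_sp4_of (hstr : StStr.{0, 0, 0}) (hcrg : StCRG.{0, 0, 0}) (hext : ExtV) (hmod : ModHyp)
    (hend : EndHyp 2) : ∃ C q₀ : ℕ, ∀ (F : Type) [Field F] [Fintype F], q₀ ≤ Fintype.card F →
    Even (Fintype.card F) → Cfsg.Agent.H815.BR.Row2.{0, 0} C (Fintype.card F) (Matrix.symplecticGroup (Fin 2) F) := by
  obtain ⟨C, q₁, h⟩ := row2_abs (strSt hstr _) (crgSt hcrg) hext
  obtain ⟨q₂, h2⟩ := hend
  refine ⟨C, max (max q₁ q₂) 4, ?_⟩
  intro F _ _ hq hF
  have hq1 : q₁ ≤ Fintype.card F := ((le_max_left _ _).trans (le_max_left _ _)).trans hq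
  have hq2 : q₂ ≤ Fintype.card F := ((le_max_right _ _).trans (le_max_left _ _)).trans hq
  have hq4 : 4 ≤ Fintype.card F := (le_max_right _ _).trans hq
  have hc : CharP F 2 := charP_two hF
  have hcK : CharP (AlgebraicClosure F) 2 := Cfsg.Agent.H212.BR.charP_closure F 2
  have hpF : PerfectRing F 2 := inferInstance
  have hpK : PerfectRing (AlgebraicClosure F) 2 := inferInstance
  have D := Cfsg.Agent.H886.BR.spd 2 F hF hq4 (by omega)
  exact h _ _ _ _ _ _ _ _ (Vn 2 (AlgebraicClosure F) × AlgebraicClosure F) (rhoh (AlgebraicClosure F)) _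
    (xs (AlgebraicClosure F)) hq1 D (hmod _ _ _ _ _ _ _ _ _ D) (h2 F hq2 hF) inferInstance
    (Cfsg.Agent.H886.BR.finrank_Vh 2 _) oneP polyDeg_rho polyDeg_rhoh
    (fun k hk hkq => Cfsg.Agent.H886.BR.exists_pow_ne (by omega) hk hkq)

end Cfsg.Agent.H94.BR
end

-- part: H487/BR/TPrim
section
/-!
# BR-G3: `TPrim` for rank one root elements (helper487)

* `exists_regular` : the centraliser of a semisimple subgroup is a von Neumann regular ring;
* `root_mem` : `a X - X a` and `a X a` lie in an invariant centraliser;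
* `comm_of_zero` : if `a C a = 0` then `a` commutes with `C`;
* `tprim_of_rank_one`.
-/

set_option autoImplicit false

open Cfsg.Agent.H883.BR

namespace Cfsg.Agent.H487.BR

universe u v w

section

variable {K : Type u} [Field K] {V : Type v} [AddCommGroup V] [Module K V] {G : Type w} [Group G]
  {ρ : G →* Module.End K V} {N : Subgroup G}

theorem mul_mem_cent {X Y : Module.End K V} (hX : X ∈ cent ρ N) (hY : Y ∈ cent ρ N) : X * Y ∈ cent ρ N := by
  intro n hn
  rw [mul_assoc, hY n hn, ← mul_assoc, hX n hn, mul_assoc]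

/-- the centraliser of a semisimple subgroup is a regular ring -/
theorem exists_regular (hs : Ssm ρ N) {Z : Module.End K V} (hZ : Z ∈ cent ρ N) :
    ∃ Y ∈ cent ρ N, Z * Y * Z = Z := by
  have hZ' : ∀ n ∈ N, ∀ v, Z (ρ n v) = ρ n (Z v) := fun n hn v => LinearMap.congr_fun (hZ n hn) v
  obtain ⟨P, hP, hPc⟩ := hs (LinearMap.ker Z) (fun n hn v hv => by
    rw [LinearMap.mem_ker] at hv ⊢
    rw [hZ' n hn, hv, map_zero])
  obtain ⟨Q, hQ, hQc⟩ := hs (LinearMap.range Z) (fun n hn v hv => by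
    obtain ⟨u, rfl⟩ := hv
    exact ⟨ρ n u, hZ' n hn u⟩)
  -- the restriction of `Z` to `P`
  let f : P →ₗ[K] LinearMap.range Z := (Z.comp P.subtype).codRestrict (LinearMap.range Z) (fun x => ⟨x, rfl⟩)
  have hf : ∀ x : P, ((f x : LinearMap.range Z) : V) = Z x := fun x => rfl
  have hbij : Function.Bijective f := by
    constructor
    · rw [← LinearMap.ker_eq_bot, eq_bot_iff]
      intro x hx
      have h1 : Z (x : V) = 0 := by
        have := congrArg Subtype.val (LinearMap.mem_ker.1 hx)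
        exact this
      have h2 : (x : V) ∈ LinearMap.ker Z ⊓ P := ⟨LinearMap.mem_ker.2 h1, x.2⟩
      rw [hPc.inf_eq_bot] at h2
      exact (Submodule.mem_bot K).2 (Subtype.ext ((Submodule.mem_bot K).1 h2))
    · rintro ⟨y, u, rfl⟩
      have h1 : u ∈ LinearMap.ker Z ⊔ P := by rw [hPc.sup_eq_top]; exact Submodule.mem_top
      obtain ⟨k, hk, x, hx, rfl⟩ := Submodule.mem_sup.1 h1
      refine ⟨⟨x, hx⟩, Subtype.ext ?_⟩
      change Z x = Z (k + x)
      rw [map_add, LinearMap.mem_ker.1 hk, zero_add]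
  let e := LinearEquiv.ofBijective f hbij
  have he : ∀ x : P, Z (x : V) = (e x : V) := fun x => rfl
  let Y : Module.End K V := P.subtype ∘ₗ e.symm.toLinearMap ∘ₗ (Submodule.projectionOnto _ _ hQc)
  have hYP : ∀ v, Y v ∈ P := fun v => (e.symm (Submodule.projectionOnto _ _ hQc v)).2
  have hYZ : ∀ x ∈ P, Y (Z x) = x := by
    intro x hx
    have h1 : Z x = ((e ⟨x, hx⟩ : LinearMap.range Z) : V) := rfl
    change ((e.symm (Submodule.projectionOnto _ _ hQc (Z x)) : P) : V) = x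
    rw [h1, Submodule.projectionOnto_apply_left, LinearEquiv.symm_apply_apply]
  have hYQ : ∀ x ∈ Q, Y x = 0 := by
    intro x hx
    change ((e.symm (Submodule.projectionOnto _ _ hQc x) : P) : V) = 0
    rw [Submodule.projectionOnto_apply_of_mem_right _ hx, map_zero]
    rfl
  have hdec : ∀ v : V, ∃ x ∈ P, ∃ y ∈ Q, v = Z x + y := by
    intro v
    have h1 : v ∈ LinearMap.range Z ⊔ Q := by rw [hQc.sup_eq_top]; exact Submodule.mem_top
    obtain ⟨z, ⟨u, rfl⟩, y, hy, rfl⟩ := Submodule.mem_sup.1 h1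
    have h2 : u ∈ LinearMap.ker Z ⊔ P := by rw [hPc.sup_eq_top]; exact Submodule.mem_top
    obtain ⟨k, hk, x, hx, rfl⟩ := Submodule.mem_sup.1 h2
    exact ⟨x, hx, y, hy, by rw [map_add, LinearMap.mem_ker.1 hk, zero_add]⟩
  refine ⟨Y, ?_, ?_⟩
  · intro n hn
    refine LinearMap.ext fun v => ?_
    obtain ⟨x, hx, y, hy, rfl⟩ := hdec v
    change Y (ρ n (Z x + y)) = ρ n (Y (Z x + y))
    rw [map_add, map_add, map_add, hYZ x hx, hYQ y hy, add_zero, ← hZ' n hn, hYZ _ (hP n hn x hx),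
      hYQ _ (hQ n hn y hy), add_zero]
  · refine LinearMap.ext fun v => ?_
    change Z (Y (Z v)) = Z v
    have h2 : v ∈ LinearMap.ker Z ⊔ P := by rw [hPc.sup_eq_top]; exact Submodule.mem_top
    obtain ⟨k, hk, x, hx, rfl⟩ := Submodule.mem_sup.1 h2
    rw [map_add, LinearMap.mem_ker.1 hk, zero_add, hYZ x hx]

theorem eq_zero_of_regular (hs : Ssm ρ N) {Z : Module.End K V} (hZ : Z ∈ cent ρ N)
    (h : ∀ Y ∈ cent ρ N, Z * Y * Z = 0) : Z = 0 := by
  obtain ⟨Y, hY, h1⟩ := exists_regular hs hZ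
  rw [← h1, h Y hY]

/-- `a X - X a` and `a X a` lie in `C` -/
theorem root_mem {F : Subfield K} [Finite F] (h3 : 3 ≤ Nat.card F) {S : Submodule K (Module.End K V)}
    (hC : _root_.Cfsg.Agent.H883.BR.Inv (ad ρ) ⊤ S) {a : Module.End K V} (ha : Rt ρ F ⊤ a) {X : Module.End K V} (hX : X ∈ S) :
    a * X - X * a ∈ S ∧ a * X * a ∈ S := by
  obtain ⟨ha2, hat⟩ := ha
  have key : ∀ t ∈ F, t • (a * X - X * a) - (t * t) • (a * X * a) ∈ S := by
    intro t ht
    obtain ⟨g, -, hg⟩ := hat t ht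
    have hinv : ρ g⁻¹ = 1 - t • a := by
      have h1 : ρ g⁻¹ * ρ g = 1 := by rw [← map_mul, inv_mul_cancel, map_one]
      have h2 : ρ g * (1 - t • a) = 1 := by
        rw [hg, add_mul, one_mul, mul_sub, mul_one, smul_mul_smul_comm, ha2, smul_zero, sub_zero, sub_add_cancel]
      calc ρ g⁻¹ = ρ g⁻¹ * (ρ g * (1 - t • a)) := by rw [h2, mul_one]
        _ = 1 - t • a := by rw [← mul_assoc, h1, one_mul]
    have h1 := hC g (Subgroup.mem_top g) X hX
    rw [ad_apply, hg, hinv] at h1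
    have h2 : (1 + t • a) * X * (1 - t • a) = X + (t • (a * X - X * a) - (t * t) • (a * X * a)) := by
      rw [add_mul, one_mul, mul_sub, mul_one, add_mul, smul_mul_assoc, smul_mul_smul_comm, mul_smul_comm, smul_sub]
      abel
    rw [h2] at h1
    have h3 := S.sub_mem h1 hX
    rwa [add_sub_cancel_left] at h3
  obtain ⟨t, ht0, ht1⟩ : ∃ t : F, t ≠ 0 ∧ t ≠ 1 := by
    by_contra hcon
    push Not at hcon
    have := Fintype.ofFinite F
    classical
    have h1 : (Finset.univ : Finset F) ⊆ {0, 1} := by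
      intro t _
      rw [Finset.mem_insert, Finset.mem_singleton]
      by_cases h0 : t = 0
      · exact Or.inl h0
      · exact Or.inr (hcon t h0)
    have h2 := Finset.card_le_card h1
    rw [Finset.card_univ, ← Nat.card_eq_fintype_card] at h2
    have h4 := Finset.card_le_two (a := (0 : F)) (b := 1)
    omega
  have e0 : (t : K) ≠ 0 := fun h => ht0 (Subtype.ext h)
  have e1 : (t : K) - 1 ≠ 0 := fun h => ht1 (Subtype.ext (sub_eq_zero.1 h))
  have k1 := key 1 F.one_mem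
  have k2 := key t t.2
  rw [one_smul, one_mul, one_smul] at k1
  have k3 : (a * X - X * a) - (t : K) • (a * X * a) ∈ S := by
    have := S.smul_mem (t : K)⁻¹ k2
    rwa [smul_sub, smul_smul, smul_smul, inv_mul_cancel₀ e0, one_smul, ← mul_assoc, inv_mul_cancel₀ e0, one_mul] at this
  have k4 : ((t : K) - 1) • (a * X * a) ∈ S := by
    have := S.sub_mem k1 k3
    have h5 : a * X - X * a - a * X * a - (a * X - X * a - (t : K) • (a * X * a)) = ((t : K) - 1) • (a * X * a) := by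
      rw [sub_smul, one_smul]; abel
    rwa [h5] at this
  have k5 : a * X * a ∈ S := by
    have := S.smul_mem ((t : K) - 1)⁻¹ k4
    rwa [smul_smul, inv_mul_cancel₀ e1, one_smul] at this
  refine ⟨?_, k5⟩
  have := S.add_mem k1 k5
  rwa [sub_add_cancel] at this

/-- if `a C a = 0` then `a` commutes with `C` -/
theorem comm_of_zero {F : Subfield K} [Finite F] (h3 : 3 ≤ Nat.card F) (hs : Ssm ρ N)
    (hC : _root_.Cfsg.Agent.H883.BR.Inv (ad ρ) ⊤ (cent ρ N)) {a : Module.End K V} (ha : Rt ρ F ⊤ a)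
    (h0 : ∀ X ∈ cent ρ N, a * X * a = 0) : ∀ X ∈ cent ρ N, a * X = X * a := by
  intro X hX
  have hZ : a * X - X * a ∈ cent ρ N := (root_mem h3 hC ha hX).1
  rw [← sub_eq_zero]
  refine eq_zero_of_regular hs hZ fun Y hY => ?_
  have e1 : a * (X * Y) * a = 0 := h0 _ (mul_mem_cent hX hY)
  have e2 : a * (X * Y * X) * a = 0 := h0 _ (mul_mem_cent (mul_mem_cent hX hY) hX)
  have e3 : a * Y * a = 0 := h0 _ hY
  have e4 : a * (Y * X) * a = 0 := h0 _ (mul_mem_cent hY hX)
  have h1 : (a * X - X * a) * Y * (a * X - X * a) =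
      (a * (X * Y) * a) * X - a * (X * Y * X) * a - X * (a * Y * a) * X + X * (a * (Y * X) * a) := by
    simp only [sub_mul, mul_sub, mul_assoc]
    abel
  rw [h1, e1, e2, e3, e4]
  simp

end

/-- **`TPrim` for rank one root elements** -/
theorem tprim_of_rank_one {K : Type u} [Field K] {F : Subfield K} [Finite F] (h3 : 3 ≤ Nat.card F) {G : Type w}
    [Group G] {V : Type v} [AddCommGroup V] [Module K V] {ρ : G →* Module.End K V}
    (A : Set (Module.End K V)) (hA : ∀ a ∈ A, Rt ρ F ⊤ a ∧ ∃ (v : V) (φ : Module.Dual K V), ∀ y, a y = φ y • v)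
    (hgen : ∀ X : Module.End K V, (∀ a ∈ A, a * X = X * a) → ∃ c : K, X = c • 1)
    (hconn : ∀ S : Submodule K (Module.End K V), _root_.Cfsg.Agent.H883.BR.Inv (ad ρ) ⊤ S → (∃ a ∈ A, a ≠ 0 ∧ a ∈ S) → ∀ a ∈ A, a ∈ S) :
    TPrim ρ := by
  intro N hs hC
  by_cases hex : ∃ a ∈ A, ∃ X ∈ cent ρ N, a * X * a ≠ 0
  · left
    obtain ⟨a, ha, X, hX, hne⟩ := hex
    obtain ⟨hr, v, φ, hv⟩ := hA a ha
    have h1 : a * X * a = φ (X v) • a := by
      refine LinearMap.ext fun y => ?_
      change a (X (a y)) = φ (X v) • a y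
      rw [hv y, map_smul, map_smul, hv (X v), smul_comm]
    have h2 : a * X * a ∈ cent ρ N := (root_mem h3 hC hr hX).2
    have hφ : φ (X v) ≠ 0 := by
      intro h0
      rw [h1, h0, zero_smul] at hne
      exact hne rfl
    have ha0 : a ≠ 0 := by
      rintro rfl
      exact hne (by rw [mul_zero])
    have haC : a ∈ cent ρ N := by
      rw [h1] at h2
      have := (cent ρ N).smul_mem (φ (X v))⁻¹ h2
      rwa [smul_smul, inv_mul_cancel₀ hφ, one_smul] at this
    intro n hn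
    apply hgen
    intro b hb
    exact hconn _ hC ⟨a, ha, ha0, haC⟩ b hb n hn
  · right
    push Not at hex
    intro X hX
    apply hgen
    intro a ha
    exact comm_of_zero h3 hs hC (hA a ha).1 (hex a ha) X hX

end Cfsg.Agent.H487.BR
end

private theorem dce_3b048fa602fb : _root_.True := by
  try have : _root_.True := by simp only [_root_.Cfsg.Agent.H124.BR.py.eq_1]
  try have : _root_.True := by simp only [_root_.Cfsg.Agent.H124.BR.mn.eq_1]
  try have : _root_.True := by simp only [_root_.Cfsg.Agent.H124.BR.Dg.eq_1]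
  try have : _root_.True := by simp only [_root_.Cfsg.Agent.H124.BR.om.eq_1]
  try have : _root_.True := by simp only [_root_.Cfsg.Agent.H124.BR.mc.eq_1]
  try have : _root_.True := by simp only [_root_.Cfsg.Agent.H124.BR.px.eq_1]
  try have : _root_.True := by simp only [_root_.Cfsg.Agent.H887.BR.fro.eq_1]
  try have : _root_.True := by simp only [_root_.Cfsg.Agent.H124.BR.mc2.eq_1]
  try have : _root_.True := by simp only [_root_.Cfsg.Agent.H124.BR.om.congr_simp]
  exact _root_.True.intro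
end

section
prune_inst 0xfee9f9ebb939dfffff7e7fa796cffdf9b0bfffa6dff9fbbfe02befbbff6b12cbc5ffa76beaf1fe1ee3e01410f87b43fbfffeffea6bf87ffffdbdf41ffbffdfffffb509519488340fbc0ff693f0778e7f000000000000000000000000000000000200000000

-- part: H94/BR/FinB
section
prune_inst 0x40002000000000000582010000201000000000000400c4000000014000020000000010000000008080004008000000000000000000000000040000000000008042020200a000260080000000000000000000000000000000000000000000000000000
set_option linter.all false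
open scoped Cfsg.Agent.FastGrp

-- part: H886/BR/Dens
section
/-!
# HUB BR (S5715, S5716): density of random subgroups (helper886)

`dens_fix` (A3) and `dens_conj` (A2): for all but `C / q` of the pairs, the subgroup `⟨g, y⟩` (resp. `⟨x, x ^ y⟩`) has the
same invariant subspaces as `G`.
-/

set_option autoImplicit false

namespace Cfsg.Agent.H886.BR

open Cfsg.Agent.H883.BR

universe u v w

section gen

variable {K : Type*} [Field K] {G : Type*} [Group G] [Finite G] {V : Type*} [AddCommGroup V] [Module K V]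
  [FiniteDimensional K V]

omit [Finite G] in
/-- independent elements of the span of `R G` in the span of `R H` -/
theorem dns_of_indep {R : G →* Module.End K V} {H : Subgroup G} {r : ℕ} (hr : r = Module.finrank K
    (Submodule.span K (Set.range R))) {h : Fin r → G} (hh : ∀ i, h i ∈ H)
    (hli : LinearIndependent K fun i => R (h i)) : Dns R H := by
  intro U hU g _ v hv
  have h1 : Submodule.span K (Set.range fun i => R (h i)) = Submodule.span K (Set.range R) := by
    apply Submodule.eq_of_le_of_finrank_eq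
    · refine Submodule.span_mono ?_
      rintro _ ⟨i, rfl⟩
      exact ⟨h i, rfl⟩
    · rw [finrank_span_eq_card hli, Fintype.card_fin, hr]
  let T : Submodule K (Module.End K V) :=
    { carrier := {X | ∀ u ∈ U, X u ∈ U}
      zero_mem' := fun u _ => U.zero_mem
      add_mem' := fun {X Y} hX hY u hu => U.add_mem (hX u hu) (hY u hu)
      smul_mem' := fun c X hX u hu => U.smul_mem c (hX u hu) }
  have h2 : Submodule.span K (Set.range fun i => R (h i)) ≤ T := by
    refine Submodule.span_le.2 ?_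
    rintro _ ⟨i, rfl⟩ u hu
    exact hU (h i) (hh i) u hu
  have h3 : R g ∈ T := by
    apply h2
    rw [h1]
    exact Submodule.subset_span ⟨g, rfl⟩
  exact h3 v hv

/-- **the general theorem** -/
theorem dens_gen {Γ : Type*} [Group Γ] [Finite Γ] {F : Subfield K} [Finite F] {ι : Type*} {x : ι → F → Γ}
    (hx : OneP F x) {E : Submodule K (Γ → K)} (h1 : (1 : Γ → K) ∈ E)
    (hE : ∀ f ∈ E, ∀ i t, (fun g => f (g * x i t)) ∈ E) {D : ℕ}
    (hD : ∀ f ∈ E, ∀ g i, ∃ p : Polynomial K, p.natDegree ≤ D ∧ ∀ t : F, f (g * x i t) = p.eval (t : K))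
    {M : ℕ} (hM : Module.finrank K E ≤ M) (R : G →* Module.End K V) {m : ℕ} (hm : Module.finrank K V ≤ m)
    {a b : Γ → G} {c : ℕ} (ha : Cls E c fun z => R (a z)) (hb : Cls E c fun z => R (b z)) {z₀ : Γ}
    (hz : Subgroup.closure {a z₀, b z₀} = ⊤) :
    Nat.card F * Nat.card {z : Γ // ¬ Dns R (Subgroup.closure {a z, b z})} ≤
      c * m ^ 2 * m ^ 2 * D * M ^ (c * m ^ 2 * m ^ 2) * Nat.card Γ := by
  classical
  have hEnd : Module.finrank K (Module.End K V) ≤ m ^ 2 := by
    rw [Module.finrank_linearMap, pow_two]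
    exact Nat.mul_le_mul hm hm
  -- words of length at most `m ^ 2`
  let s : Set (Module.End K V) := {Z | ∃ w' : List Bool, w'.length ≤ m ^ 2 ∧ Z = wd (R (a z₀)) (R (b z₀)) w'}
  have hs : Submodule.span K s = Submodule.span K (Set.range R) := by
    apply le_antisymm
    · refine Submodule.span_mono ?_
      rintro _ ⟨w', -, rfl⟩
      exact ⟨wd (a z₀) (b z₀) w', map_wd R _ _ _⟩
    · refine Submodule.span_le.2 ?_
      rintro _ ⟨g, rfl⟩
      obtain ⟨w', rfl⟩ := exists_wd (a := a z₀) (b := b z₀) (g := g) (by rw [hz]; exact Subgroup.mem_top g)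
      rw [map_wd]
      exact wd_mem_span _ _ hEnd w'
  obtain ⟨f, hf, hfs, hli⟩ := Submodule.exists_fun_fin_finrank_span_eq K s
  generalize hr : Module.finrank K (Submodule.span K s) = r at f hf hfs hli
  choose W hW hfW using hf
  have hrm : r ≤ m ^ 2 := by
    rw [← hr]
    exact (Submodule.finrank_le _).trans hEnd
  -- the functionals
  have hker : LinearMap.ker (Fintype.linearCombination K f) = ⊥ := by
    rw [LinearMap.ker_eq_bot']
    intro α hα
    rw [Fintype.linearCombination_apply] at hα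
    funext i
    exact Fintype.linearIndependent_iff.1 hli α hα i
  obtain ⟨L, hL⟩ := LinearMap.exists_leftInverse_of_injective _ hker
  have hLf : ∀ j, L (f j) = Pi.single j 1 := by
    intro j
    have h2 := LinearMap.congr_fun hL (Pi.single j 1)
    rw [LinearMap.comp_apply, Fintype.linearCombination_apply_single, one_smul] at h2
    exact h2
  let A : Γ → Matrix (Fin r) (Fin r) K := fun z => Matrix.of fun i j => L (R (wd (a z) (b z) (W j))) i
  have hA : ∀ z i j, A z i j = L (R (wd (a z) (b z) (W j))) i := fun z i j => rfl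
  have hdet0 : (A z₀).det ≠ 0 := by
    have h2 : A z₀ = 1 := by
      ext i j
      rw [hA, map_wd, ← hfW, hLf, Matrix.one_apply, Pi.single_apply]
    rw [h2, Matrix.det_one]
    exact one_ne_zero
  have hcls : (fun z => (A z).det) ∈ E ^ (c * m ^ 2 * m ^ 2) := by
    refine pow_mono_right h1 (Nat.mul_le_mul_left _ hrm) (det_mem fun i j => ?_)
    have h2 : Cls E (c * m ^ 2) fun z => R (wd (a z) (b z) (W j)) := by
      have h3 := (ha.wd hb (W j)).mono h1 (Nat.mul_le_mul_left c (hW j))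
      have e : (fun z => wd (R (a z)) (R (b z)) (W j)) = fun z => R (wd (a z) (b z) (W j)) := by
        funext z
        rw [map_wd]
      rwa [e] at h3
    exact h2 (LinearMap.proj i ∘ₗ L)
  have h3 := sz_pow hx hE hD hM hcls ⟨z₀, hdet0⟩
  refine le_trans (Nat.mul_le_mul_left _ ?_) h3
  -- the non-dense ones
  refine Nat.card_le_card_of_injective (fun z : {z : Γ // ¬ Dns R (Subgroup.closure {a z, b z})} =>
    (⟨z.1, ?_⟩ : {z : Γ // (A z).det = 0})) ?_
  · by_contra hdet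
    apply z.2
    apply dns_of_indep (r := r) (by rw [← hr, hs]) (h := fun j => wd (a z.1) (b z.1) (W j))
      (fun j => wd_mem _ _ _)
    apply LinearIndependent.of_comp L
    have h4 := Matrix.linearIndependent_cols_of_det_ne_zero hdet
    exact h4
  · intro z z' h
    exact Subtype.ext (congrArg (fun y => y.1) h)

end gen

/-! ## the coefficient space -/

section coef

variable {K : Type*} [Field K] {Γ : Type*} {A : Type*} [AddCommGroup A] [Module K A] {s : ℕ}

/-- `(c, l) ↦ (z ↦ c + ∑ k, l k (Θ k z))` -/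
def coef (Θ : Fin s → Γ → A) : (K × (Fin s → Module.Dual K A)) →ₗ[K] (Γ → K) where
  toFun p := fun z => p.1 + ∑ k, p.2 k (Θ k z)
  map_add' p q := by
    funext z
    simp only [Prod.fst_add, Prod.snd_add, Pi.add_apply, LinearMap.add_apply, Finset.sum_add_distrib]
    ring
  map_smul' c p := by
    funext z
    simp only [Prod.smul_fst, Prod.smul_snd, Pi.smul_apply, LinearMap.smul_apply, smul_eq_mul, RingHom.id_apply,
      mul_add, Finset.mul_sum]

theorem coef_apply (Θ : Fin s → Γ → A) (p : K × (Fin s → Module.Dual K A)) (z : Γ) :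
    coef Θ p z = p.1 + ∑ k, p.2 k (Θ k z) := rfl

theorem one_mem_coef (Θ : Fin s → Γ → A) : (1 : Γ → K) ∈ LinearMap.range (coef (K := K) Θ) := by
  refine ⟨(1, 0), ?_⟩
  funext z
  rw [coef_apply]
  simp

theorem cls_coef (Θ : Fin s → Γ → A) (k : Fin s) : Cls (LinearMap.range (coef (K := K) Θ)) 1 (Θ k) := by
  classical
  intro l
  rw [pow_one]
  refine ⟨(0, fun j => if j = k then l else 0), ?_⟩
  funext z
  rw [coef_apply, zero_add, Finset.sum_eq_single k]
  · show (if k = k then l else 0) (Θ k z) = _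
    rw [if_pos rfl]
  · intro j _ hj
    show (if j = k then l else 0) (Θ j z) = 0
    rw [if_neg hj, LinearMap.zero_apply]
  · intro h
    exact absurd (Finset.mem_univ k) h

theorem finrank_coef [Module.Finite K A] (Θ : Fin s → Γ → A) :
    Module.finrank K (LinearMap.range (coef (K := K) Θ)) ≤ 1 + s * Module.finrank K A := by
  refine (LinearMap.finrank_range_le _).trans ?_
  rw [Module.finrank_prod, Module.finrank_self, Module.finrank_pi_fintype, Finset.sum_const, Finset.card_univ,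
    Fintype.card_fin, smul_eq_mul, Subspace.dual_finrank_eq]

theorem coef_trn [Group Γ] (Θ : Fin s → Γ → A) {h : Γ} (hΘ : ∀ k, ∃ T : A →ₗ[K] A, ∀ z, Θ k (z * h) = T (Θ k z)) :
    ∀ f ∈ LinearMap.range (coef (K := K) Θ), (fun g => f (g * h)) ∈ LinearMap.range (coef (K := K) Θ) := by
  rintro _ ⟨p, rfl⟩
  choose T hT using hΘ
  refine ⟨(p.1, fun k => p.2 k ∘ₗ T k), ?_⟩
  funext z
  rw [coef_apply, coef_apply]
  congr 1
  refine Finset.sum_congr rfl fun k _ => ?_
  rw [hT, LinearMap.comp_apply]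

theorem coef_poly [Group Γ] {F : Subfield K} (Θ : Fin s → Γ → A) {y : F → Γ} {z : Γ} {e : ℕ}
    (hΘ : ∀ k, ∃ c : ℕ → A, ∀ t : F, Θ k (z * y t) = ∑ j ∈ Finset.range (e + 1), (t : K) ^ j • c j) :
    ∀ f ∈ LinearMap.range (coef (K := K) Θ), ∃ p : Polynomial K, p.natDegree ≤ e ∧ ∀ t : F,
      f (z * y t) = p.eval (t : K) := by
  rintro _ ⟨p, rfl⟩
  choose c hc using hΘ
  refine ⟨Polynomial.C p.1 + ∑ k, ∑ j ∈ Finset.range (e + 1), Polynomial.C (p.2 k (c k j)) * Polynomial.X ^ j,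
    ?_, fun t => ?_⟩
  · refine (Polynomial.natDegree_add_le _ _).trans (max_le ?_ ?_)
    · rw [Polynomial.natDegree_C]; exact Nat.zero_le _
    · refine Polynomial.natDegree_sum_le_of_forall_le _ _ fun k _ => ?_
      refine Polynomial.natDegree_sum_le_of_forall_le _ _ fun j hj => ?_
      refine (Polynomial.natDegree_C_mul_X_pow_le _ _).trans ?_
      rw [Finset.mem_range] at hj
      omega
  · rw [coef_apply, Polynomial.eval_add, Polynomial.eval_C, Polynomial.eval_finsetSum]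
    congr 1
    refine Finset.sum_congr rfl fun k _ => ?_
    rw [hc, map_sum, Polynomial.eval_finsetSum]
    refine Finset.sum_congr rfl fun j _ => ?_
    rw [map_smul, smul_eq_mul, Polynomial.eval_mul, Polynomial.eval_C, Polynomial.eval_pow, Polynomial.eval_X,
      mul_comm]

end coef

section one

variable {K : Type*} [Field K] {F : Subfield K} {G : Type*} [Group G] {ι : Type*} {x : ι → F → G}

theorem oneP_zero (hx : OneP F x) (i : ι) : x i 0 = 1 := by
  have h1 := hx.add i 0 0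
  rw [add_zero] at h1
  exact mul_eq_left.1 h1.symm

theorem oneP_inv (hx : OneP F x) (i : ι) (t : F) : (x i t)⁻¹ = x i (-t) := by
  rw [inv_eq_iff_mul_eq_one, ← hx.add, add_neg_cancel, oneP_zero hx]

/-- the one-parameter subgroups of `G × G` -/
def xx (x : ι → F → G) : ι ⊕ ι → F → G × G := Sum.elim (fun i t => (x i t, 1)) (fun i t => (1, x i t))

theorem oneP_prod (hx : OneP F x) : OneP F (xx x) := by
  refine ⟨?_, ?_⟩
  · rintro (i | i) s t
    · show (x i (s + t), (1 : G)) = (x i s, 1) * (x i t, 1)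
      rw [hx.add, Prod.mk_mul_mk, mul_one]
    · show ((1 : G), x i (s + t)) = (1, x i s) * (1, x i t)
      rw [hx.add, Prod.mk_mul_mk, mul_one]
  · set S := Subgroup.closure {g : G × G | ∃ i t, xx x i t = g} with hS
    have h1 : Subgroup.closure {g : G | ∃ i t, x i t = g} ≤ S.comap (MonoidHom.inl G G) := by
      rw [Subgroup.closure_le]
      rintro _ ⟨i, t, rfl⟩
      exact Subgroup.subset_closure ⟨Sum.inl i, t, rfl⟩
    have h2 : Subgroup.closure {g : G | ∃ i t, x i t = g} ≤ S.comap (MonoidHom.inr G G) := by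
      rw [Subgroup.closure_le]
      rintro _ ⟨i, t, rfl⟩
      exact Subgroup.subset_closure ⟨Sum.inr i, t, rfl⟩
    rw [hx.gen] at h1 h2
    rw [eq_top_iff]
    rintro ⟨g, h⟩ -
    have h3 : MonoidHom.inl G G g ∈ S := h1 (Subgroup.mem_top g)
    have h4 : MonoidHom.inr G G h ∈ S := h2 (Subgroup.mem_top h)
    have h5 := S.mul_mem h3 h4
    rwa [MonoidHom.inl_apply, MonoidHom.inr_apply, Prod.mk_mul_mk, mul_one, one_mul] at h5

end one

/-- A3 -/
theorem dens_fix (m e : ℕ) : ∃ C : ℕ, ∀ (K : Type u) [Field K] (F : Subfield K) [Finite F] (G : Type w) [Group G]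
    [Finite G] (ι : Type w) (x : ι → F → G) (V : Type u) [AddCommGroup V] [Module K V] [FiniteDimensional K V]
    (R : G →* Module.End K V), Module.finrank K V ≤ m → OneP F x → PolyDeg R F x e →
    ∀ g : G, (∃ y0 : G, Subgroup.closure {g, y0} = ⊤) →
    Nat.card F * Nat.card {y : G // ¬ Dns R (Subgroup.closure {g, y})} ≤ C * Nat.card G := by
  refine ⟨1 * m ^ 2 * m ^ 2 * e * (1 + 1 * m ^ 2) ^ (1 * m ^ 2 * m ^ 2), ?_⟩
  intro K _ F _ G _ _ ι x V _ _ _ R hm hx hp g ⟨y0, hy0⟩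
  let Θ : Fin 1 → G → Module.End K V := fun _ y => R y
  have hEnd : Module.finrank K (Module.End K V) ≤ m ^ 2 := by
    rw [Module.finrank_linearMap, pow_two]
    exact Nat.mul_le_mul hm hm
  have h1 := one_mem_coef (K := K) Θ
  refine dens_gen hx (E := LinearMap.range (coef (K := K) Θ)) h1 (fun f hf i t => coef_trn Θ (fun _ =>
    ⟨LinearMap.mulRight K (R (x i t)), fun z => map_mul R z (x i t)⟩) f hf)
    (fun f hf z i => coef_poly Θ (fun _ => ?_) f hf) ((finrank_coef Θ).trans (by gcongr)) R hm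
    (a := fun _ => g) (b := fun y => y) ((cls_const _ _).mono h1 (Nat.zero_le 1)) (cls_coef Θ 0) (z₀ := y0) hy0
  obtain ⟨c, hc⟩ := hp i
  refine ⟨fun j => R z * c j, fun t => ?_⟩
  show R (z * x i t) = _
  rw [map_mul, hc, Finset.mul_sum]
  exact Finset.sum_congr rfl fun j _ => mul_smul_comm _ _ _

/-- A2 -/
theorem dens_conj (m e : ℕ) : ∃ C : ℕ, ∀ (K : Type u) [Field K] (F : Subfield K) [Finite F] (G : Type w) [Group G]
    [Finite G] (ι : Type w) (x : ι → F → G) (V : Type u) [AddCommGroup V] [Module K V] [FiniteDimensional K V]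
    (R : G →* Module.End K V), Module.finrank K V ≤ m → OneP F x → PolyDeg R F x e →
    (∃ x0 y0 : G, Subgroup.closure {x0, y0 * x0 * y0⁻¹} = ⊤) →
    Nat.card F * Nat.card {z : G × G // ¬ Dns R (Subgroup.closure {z.1, z.2 * z.1 * z.2⁻¹})} ≤
      C * Nat.card G ^ 2 := by
  refine ⟨3 * m ^ 2 * m ^ 2 * e * (1 + 3 * m ^ 2) ^ (3 * m ^ 2 * m ^ 2), ?_⟩
  intro K _ F _ G _ _ ι x V _ _ _ R hm hx hp ⟨x0, y0, h0⟩
  let Θ : Fin 3 → G × G → Module.End K V := ![fun z => R z.1, fun z => R z.2, fun z => R z.2⁻¹]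
  have hΘ0 : ∀ z, Θ 0 z = R z.1 := fun z => rfl
  have hΘ1 : ∀ z, Θ 1 z = R z.2 := fun z => rfl
  have hΘ2 : ∀ z, Θ 2 z = R z.2⁻¹ := fun z => rfl
  have hEnd : Module.finrank K (Module.End K V) ≤ m ^ 2 := by
    rw [Module.finrank_linearMap, pow_two]
    exact Nat.mul_le_mul hm hm
  have h1 := one_mem_coef (K := K) Θ
  have hconst' : ∀ X : Module.End K V, ∃ c : ℕ → Module.End K V, ∀ t : F,
      X = ∑ j ∈ Finset.range (e + 1), (t : K) ^ j • c j := by
    intro X
    refine ⟨fun j => if j = 0 then X else 0, fun t => ?_⟩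
    rw [Finset.sum_eq_single 0]
    · show X = (t : K) ^ 0 • (if 0 = 0 then X else 0)
      rw [pow_zero, one_smul, if_pos rfl]
    · intro j _ hj
      show (t : K) ^ j • (if j = 0 then X else 0) = 0
      rw [if_neg hj, smul_zero]
    · intro h
      exact absurd (Finset.mem_range.2 (Nat.succ_pos e)) h
  have hpow : Nat.card (G × G) = Nat.card G ^ 2 := by rw [Nat.card_prod, pow_two]
  rw [← hpow]
  have hc1 : Cls (LinearMap.range (coef (K := K) Θ)) 3 fun z : G × G => R z.1 :=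
    (cls_coef (K := K) Θ 0).mono h1 (by norm_num)
  have hc2 : Cls (LinearMap.range (coef (K := K) Θ)) 3 fun z : G × G => R (z.2 * z.1 * z.2⁻¹) := by
    have h2 := ((cls_coef (K := K) Θ 1).mul (cls_coef (K := K) Θ 0)).mul (cls_coef (K := K) Θ 2)
    have e : (fun z => Θ 1 z * Θ 0 z * Θ 2 z) = fun z : G × G => R (z.2 * z.1 * z.2⁻¹) := by
      funext z
      rw [hΘ0, hΘ1, hΘ2, map_mul, map_mul]
    rwa [e] at h2
  refine dens_gen (oneP_prod hx) (E := LinearMap.range (coef (K := K) Θ)) h1 (fun f hf i t => coef_trn Θ ?_ f hf)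
    (fun f hf z i => coef_poly Θ ?_ f hf) ((finrank_coef Θ).trans (by gcongr)) R hm
    (a := fun z => z.1) (b := fun z => z.2 * z.1 * z.2⁻¹) hc1 hc2 (z₀ := (x0, y0)) h0
  · intro k
    rcases i with i | i
    · fin_cases k
      · exact ⟨LinearMap.mulRight K (R (x i t)), fun z => map_mul R z.1 (x i t)⟩
      · refine ⟨LinearMap.id, fun z => ?_⟩
        show R (z.2 * 1) = R z.2
        rw [mul_one]
      · refine ⟨LinearMap.id, fun z => ?_⟩
        show R (z.2 * 1)⁻¹ = R z.2⁻¹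
        rw [mul_one]
    · fin_cases k
      · refine ⟨LinearMap.id, fun z => ?_⟩
        show R (z.1 * 1) = R z.1
        rw [mul_one]
      · exact ⟨LinearMap.mulRight K (R (x i t)), fun z => map_mul R z.2 (x i t)⟩
      · refine ⟨LinearMap.mulLeft K (R (x i t)⁻¹), fun z => ?_⟩
        show R (z.2 * x i t)⁻¹ = R (x i t)⁻¹ * R z.2⁻¹
        rw [mul_inv_rev, map_mul]
  · intro k
    rcases i with i | i
    · fin_cases k
      · obtain ⟨c, hc⟩ := hp i
        refine ⟨fun j => R z.1 * c j, fun t => ?_⟩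
        show R (z.1 * x i t) = _
        rw [map_mul, hc, Finset.mul_sum]
        exact Finset.sum_congr rfl fun j _ => mul_smul_comm _ _ _
      · obtain ⟨c, hc⟩ := hconst' (R z.2)
        refine ⟨c, fun t => ?_⟩
        show R (z.2 * 1) = _
        rw [mul_one]
        exact hc t
      · obtain ⟨c, hc⟩ := hconst' (R z.2⁻¹)
        refine ⟨c, fun t => ?_⟩
        show R (z.2 * 1)⁻¹ = _
        rw [mul_one]
        exact hc t
    · fin_cases k
      · obtain ⟨c, hc⟩ := hconst' (R z.1)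
        refine ⟨c, fun t => ?_⟩
        show R (z.1 * 1) = _
        rw [mul_one]
        exact hc t
      · obtain ⟨c, hc⟩ := hp i
        refine ⟨fun j => R z.2 * c j, fun t => ?_⟩
        show R (z.2 * x i t) = _
        rw [map_mul, hc, Finset.mul_sum]
        exact Finset.sum_congr rfl fun j _ => mul_smul_comm _ _ _
      · obtain ⟨c, hc⟩ := hp i
        refine ⟨fun j => (-1 : K) ^ j • (c j * R z.2⁻¹), fun t => ?_⟩
        show R (z.2 * x i t)⁻¹ = _
        rw [mul_inv_rev, map_mul, oneP_inv hx, hc, Finset.sum_mul]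
        refine Finset.sum_congr rfl fun j _ => ?_
        rw [smul_mul_assoc, smul_smul, show (((-t : F) : F) : K) = -(t : K) from rfl, neg_pow, mul_comm]

end Cfsg.Agent.H886.BR
end

-- part: H811/BR/Coef
section
/-!
# Coefficient functions of a representation (helper811, HUB BR)

* `Pol F x D` : the functions on `G` which are polynomials of degree `≤ D` along the cosets `g x_i(F)`;
* `rtr h` : the right translation, an algebra homomorphism;
* `Cf R` : the space of the functions `y ↦ φ (R y) + c`, `φ` a functional on `End V`: translation invariant, of dimension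
  at most `n² + 1`, contained in `Pol F x e`;
* `finrank_pow_le` : `dim P ^ k ≤ (dim P) ^ k`;
* `entry_mem`, `trace_mem` : the entries of `R (y ^ k)` and `(tr R y) ^ k` are in `Cf R ^ k`.
-/

set_option autoImplicit false

namespace Cfsg.Agent.H811.BR

open Cfsg.Agent.H883.BR Polynomial Module
open scoped Pointwise

universe u v w

/-! ### powers of submodules -/

section pow

variable {K A : Type*} [Field K] [CommRing A] [Algebra K A]

theorem exists_span (P : Submodule K A) [FiniteDimensional K P] :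
    ∃ S : Finset A, S.card ≤ finrank K P ∧ Submodule.span K (S : Set A) = P := by
  classical
  let b := Module.finBasis K P
  refine ⟨Finset.univ.image fun i => (b i : A), ?_, ?_⟩
  · exact Finset.card_image_le.trans (by rw [Finset.card_univ, Fintype.card_fin])
  · rw [Finset.coe_image, Finset.coe_univ, Set.image_univ]
    have h1 : (Set.range fun i => (b i : A)) = P.subtype '' Set.range b := by
      rw [← Set.range_comp]
      rfl
    rw [h1, ← Submodule.map_span, b.span_eq, Submodule.map_top, Submodule.range_subtype]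

theorem finrank_pow_le (P : Submodule K A) [FiniteDimensional K P] (k : ℕ) :
    finrank K ↥(P ^ k) ≤ finrank K P ^ k := by
  classical
  obtain ⟨S, hc, hS⟩ := exists_span P
  have h1 : P ^ k = Submodule.span K ((S ^ k : Finset A) : Set A) := by
    rw [← hS, Submodule.span_pow, Finset.coe_pow]
  rw [h1]
  refine (finrank_span_finset_le_card (S ^ k)).trans (Finset.card_pow_le.trans ?_)
  exact Nat.pow_le_pow_left hc k

end pow

variable {K : Type u} [Field K] {G : Type w} [Group G]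

/-! ### polynomials along cosets -/

/-- the functions which are polynomials of degree `≤ D` along the cosets of the one-parameter subgroups -/
def Pol (F : Subfield K) {ι : Type*} (x : ι → F → G) (D : ℕ) : Submodule K (G → K) where
  carrier := {f | ∀ g i, ∃ p : K[X], p.natDegree ≤ D ∧ ∀ t : F, f (g * x i t) = p.eval (t : K)}
  zero_mem' := fun g i => ⟨0, by simp, fun t => by simp⟩
  add_mem' := by
    intro f f' hf hf' g i
    obtain ⟨p, hp, h⟩ := hf g i
    obtain ⟨p', hp', h'⟩ := hf' g i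
    exact ⟨p + p', (natDegree_add_le _ _).trans (max_le hp hp'), fun t => by
      rw [Pi.add_apply, h, h', eval_add]⟩
  smul_mem' := by
    intro c f hf g i
    obtain ⟨p, hp, h⟩ := hf g i
    exact ⟨C c * p, (natDegree_C_mul_le c p).trans hp, fun t => by
      rw [Pi.smul_apply, h, smul_eq_mul, eval_mul, eval_C]⟩

variable {F : Subfield K} {ι : Type*} {x : ι → F → G}

theorem pol_mul (D D' : ℕ) : Pol F x D * Pol F x D' ≤ Pol F x (D + D') := by
  refine Submodule.mul_le.2 fun f hf f' hf' g i => ?_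
  obtain ⟨p, hp, h⟩ := hf g i
  obtain ⟨p', hp', h'⟩ := hf' g i
  exact ⟨p * p', natDegree_mul_le.trans (add_le_add hp hp'), fun t => by
    rw [Pi.mul_apply, h, h', eval_mul]⟩

theorem pol_pow (D k : ℕ) : Pol F x D ^ k ≤ Pol F x (k * D) := by
  induction k with
  | zero =>
    rw [pow_zero, zero_mul, Submodule.one_eq_span, Submodule.span_le, Set.singleton_subset_iff]
    intro g i
    exact ⟨1, by simp, fun t => by simp⟩
  | succ k ih =>
    rw [pow_succ, Nat.succ_mul]
    exact (mul_le_mul' ih le_rfl).trans (pol_mul _ _)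

/-! ### right translations -/

/-- the right translation by `h` -/
def rtr (h : G) : (G → K) →ₐ[K] (G → K) where
  toFun f g := f (g * h)
  map_one' := rfl
  map_mul' _ _ := rfl
  map_zero' := rfl
  map_add' _ _ := rfl
  commutes' _ := rfl

theorem rtr_apply (h : G) (f : G → K) (g : G) : rtr h f g = f (g * h) := rfl

/-- translation invariant spaces of functions -/
def TInv (P : Submodule K (G → K)) : Prop := ∀ h : G, ∀ f ∈ P, rtr h f ∈ P

theorem TInv.pow {P : Submodule K (G → K)} (hP : TInv P) (k : ℕ) : TInv (P ^ k) := by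
  intro h f hf
  have h1 : P.map (rtr h).toLinearMap ≤ P := by
    rintro _ ⟨f', hf', rfl⟩
    exact hP h f' hf'
  have h2 : (P ^ k).map (rtr h).toLinearMap ≤ P ^ k := by
    rw [Submodule.map_pow]
    exact pow_le_pow_left' h1 k
  exact h2 ⟨f, hf, rfl⟩

/-! ### coefficients -/

variable {V : Type v} [AddCommGroup V] [Module K V] (R : G →* Module.End K V)

/-- the functions `y ↦ φ (R y) + c` -/
def cfMap : (Module.Dual K (Module.End K V) × K) →ₗ[K] (G → K) where
  toFun z y := z.1 (R y) + z.2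
  map_add' z z' := by
    funext y
    simp only [Prod.fst_add, Prod.snd_add, LinearMap.add_apply, Pi.add_apply]
    ring
  map_smul' c z := by
    funext y
    simp only [Prod.smul_fst, Prod.smul_snd, LinearMap.smul_apply, Pi.smul_apply, smul_eq_mul, RingHom.id_apply]
    ring

/-- the space of the functions `y ↦ φ (R y) + c` -/
def Cf : Submodule K (G → K) := LinearMap.range (cfMap R)

theorem mem_cf {f : G → K} : f ∈ Cf R ↔ ∃ (φ : Module.Dual K (Module.End K V)) (c : K), f = fun y => φ (R y) + c := by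
  constructor
  · rintro ⟨⟨φ, c⟩, rfl⟩
    exact ⟨φ, c, rfl⟩
  · rintro ⟨φ, c, rfl⟩
    exact ⟨⟨φ, c⟩, rfl⟩

theorem coef_mem (φ : Module.Dual K (Module.End K V)) : (fun y => φ (R y)) ∈ Cf R :=
  (mem_cf R).2 ⟨φ, 0, by simp⟩

theorem one_mem_cf : (1 : G → K) ∈ Cf R :=
  (mem_cf R).2 ⟨0, 1, by funext y; simp⟩

theorem one_mem_pow (k : ℕ) : (1 : G → K) ∈ Cf R ^ k := by
  have h1 := Submodule.pow_mem_pow (Cf R) (one_mem_cf R) k
  rwa [one_pow] at h1

theorem const_mem_pow (k : ℕ) (c : K) : (fun _ : G => c) ∈ Cf R ^ k := by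
  have h1 := (Cf R ^ k).smul_mem c (one_mem_pow R k)
  convert h1 using 1
  funext y
  simp

theorem cf_tinv : TInv (Cf R) := by
  intro h f hf
  obtain ⟨φ, c, rfl⟩ := (mem_cf R).1 hf
  refine (mem_cf R).2 ⟨φ.comp (LinearMap.mulRight K (R h)), c, ?_⟩
  funext y
  rw [rtr_apply, map_mul]
  rfl

theorem cf_le_pol {e : ℕ} (h : PolyDeg R F x e) : Cf R ≤ Pol F x e := by
  intro f hf g i
  obtain ⟨φ, c, rfl⟩ := (mem_cf R).1 hf
  obtain ⟨a, ha⟩ := h i
  refine ⟨∑ j ∈ Finset.range (e + 1), C (φ (R g * a j)) * X ^ j + C c, ?_, ?_⟩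
  · refine (natDegree_add_le _ _).trans (max_le ?_ (by rw [natDegree_C]; omega))
    refine natDegree_sum_le_of_forall_le _ _ fun j hj => ?_
    exact (natDegree_C_mul_X_pow_le _ _).trans (Nat.lt_succ_iff.1 (Finset.mem_range.1 hj))
  · intro t
    change φ (R (g * x i t)) + c = _
    rw [map_mul, ha t, Finset.mul_sum, map_sum, eval_add, eval_C, eval_finsetSum]
    congr 1
    refine Finset.sum_congr rfl fun j _ => ?_
    rw [mul_smul_comm, map_smul, eval_mul, eval_C, eval_pow, eval_X, smul_eq_mul, mul_comm]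

section

variable [FiniteDimensional K V]

instance finite_cf : FiniteDimensional K ↥(Cf R) := by
  unfold Cf
  infer_instance

theorem finrank_cf : finrank K ↥(Cf R) ≤ finrank K V ^ 2 + 1 := by
  unfold Cf
  refine (LinearMap.finrank_range_le (cfMap R)).trans ?_
  rw [finrank_prod, Subspace.dual_finrank_eq, finrank_linearMap, finrank_self, sq]

theorem finrank_cf_pow (k : ℕ) : finrank K ↥(Cf R ^ k) ≤ (finrank K V ^ 2 + 1) ^ k :=
  (finrank_pow_le (Cf R) k).trans (Nat.pow_le_pow_left (finrank_cf R) k)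

end

theorem trace_mem (k : ℕ) : (fun y => (LinearMap.trace K V (R y)) ^ k) ∈ Cf R ^ k :=
  Submodule.pow_mem_pow (Cf R) (coef_mem R (LinearMap.trace K V)) k

theorem entry_mem {n : Type*} [Fintype n] [DecidableEq n] (b : Basis n K V) (k : ℕ) (i j : n) :
    (fun y => LinearMap.toMatrix b b (R (y ^ k)) i j) ∈ Cf R ^ k := by
  induction k generalizing i j with
  | zero =>
    simp only [pow_zero, map_one]
    exact const_mem_pow R 0 _
  | succ k ih =>
    have h1 : (fun y => LinearMap.toMatrix b b (R (y ^ (k + 1))) i j) =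
        ∑ l, (fun y => LinearMap.toMatrix b b (R (y ^ k)) i l) * fun y => LinearMap.toMatrix b b (R y) l j := by
      funext y
      rw [Finset.sum_apply, pow_succ, map_mul, LinearMap.toMatrix_mul, Matrix.mul_apply]
      rfl
    rw [h1, pow_succ]
    refine Submodule.sum_mem _ fun l _ => Submodule.mul_mem_mul (ih i l) ?_
    have h2 := coef_mem R ((LinearMap.proj j).comp ((LinearMap.proj l).comp (LinearMap.toMatrix b b).toLinearMap) :
      Module.End K V →ₗ[K] K)
    exact h2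

end Cfsg.Agent.H811.BR
end

-- part: H811/BR/Typ
section
/-!
# The tasks A4, A5 of HUB BR from Schwartz–Zippel (helper811)

* `zeros_le` : the number of zeros of a nonzero `f ∈ Cf R ^ k`;
* `typ_pow`, `typ_tr` : stubs A4, A5.
-/

set_option autoImplicit false

namespace Cfsg.Agent.H811.BR

open Cfsg.Agent.H883.BR Polynomial Module

universe u v w

/-- **Schwartz–Zippel** -/
def SZ : Prop := ∀ (K : Type u) [Field K] (F : Subfield K) [Finite F] (G : Type w) [Group G] [Finite G] (ι : Type w)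
  (x : ι → F → G), OneP F x → ∀ (P : Submodule K (G → K)) (D : ℕ), D < Nat.card F → TInv P → P ≤ Pol F x D →
  ∀ f ∈ P, f ≠ 0 → Nat.card F * Nat.card {g : G // f g = 0} ≤ D * finrank K P * Nat.card G

theorem sz_holds : SZ.{u, w} := by
  intro K _ F _ G _ _ ι x hx P D _ hT hP f hf h0
  refine H110.BR.sz F hx.add ?_ (fun f hf i t => hT (x i t) f hf) (fun f hf => hP hf) hf (Function.ne_iff.1 h0)
  have h1 : {g | ∃ i t, g = x i t} = {g : G | ∃ i t, x i t = g} := by
    ext g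
    simp only [Set.mem_ofPred_eq, eq_comm]
  rw [h1]
  exact hx.gen

/-! ### the proper subfields -/

section sub

variable {K : Type u} [Field K] {F F' : Subfield K}

theorem exists_pow [Finite F] (h : F' < F) : ∃ r : ℕ, 2 ≤ r ∧ Nat.card F = Nat.card F' ^ r := by
  have hf' : Finite F' := Finite.Set.subset (F : Set K) h.le
  let _ : Algebra F' F := (Subfield.inclusion h.le).toAlgebra
  have h1 : Nat.card F = Nat.card F' ^ finrank F' F := Module.natCard_eq_pow_finrank
  refine ⟨_, ?_, h1⟩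
  by_contra hr
  have h2 : 1 < Nat.card F := Finite.one_lt_card
  have h3 : finrank F' F = 0 ∨ finrank F' F = 1 := by omega
  rcases h3 with h3 | h3
  · rw [h3, pow_zero] at h1
    omega
  · rw [h3, pow_one] at h1
    have h4 : (F' : Set K) = F := by
      refine Set.eq_of_subset_of_ncard_le h.le ?_ (Set.toFinite _)
      change Nat.card F ≤ Nat.card F'
      exact h1.le
    exact h.ne (SetLike.coe_injective h4)

theorem sum_pow_le {p : ℕ} (hp : 2 ≤ p) (s : ℕ) : ∑ a ∈ Finset.range (s + 1), p ^ a ≤ 2 * p ^ s := by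
  induction s with
  | zero => simp
  | succ s ih =>
    rw [Finset.sum_range_succ]
    have h1 : 2 * p ^ s ≤ p ^ (s + 1) := by
      rw [pow_succ, mul_comm]
      exact Nat.mul_le_mul_left _ hp
    omega

/-- the elements of the proper subfields -/
theorem exists_finset (F : Subfield K) [Finite F] : ∃ S : Finset K, (∀ F' : Subfield K, F' < F → ∀ c ∈ F', c ∈ S) ∧
    Nat.sqrt (Nat.card F) * S.card ≤ 2 * Nat.card F := by
  classical
  obtain ⟨p, hp⟩ := CharP.exists K
  have hpF : CharP F p := (F.subtype.charP_iff F.subtype.injective p).2 hp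
  have hft : Fintype F := Fintype.ofFinite F
  obtain ⟨n, hpp, hn⟩ := FiniteField.card F p
  rw [← Nat.card_eq_fintype_card] at hn
  have hne : ∀ a : ℕ, 1 ≤ a → (X ^ p ^ a - X : K[X]) ≠ 0 := fun a ha =>
    FiniteField.X_pow_card_pow_sub_X_ne_zero K (by omega) hpp.one_lt
  refine ⟨(Finset.Icc 1 ((n : ℕ) / 2)).biUnion fun a => (X ^ p ^ a - X : K[X]).roots.toFinset, ?_, ?_⟩
  · intro F' hF' c hc
    obtain ⟨r, hr, hr1⟩ := exists_pow hF'
    have hf' : Finite F' := Finite.Set.subset (F : Set K) hF'.le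
    have hpF' : CharP F' p := (F'.subtype.charP_iff F'.subtype.injective p).2 hp
    have hft' : Fintype F' := Fintype.ofFinite F'
    obtain ⟨a, -, ha⟩ := FiniteField.card F' p
    rw [Finset.mem_biUnion]
    refine ⟨a, Finset.mem_Icc.2 ⟨a.pos, ?_⟩, ?_⟩
    · rw [Nat.card_eq_fintype_card (α := F'), ha, hn, ← pow_mul] at hr1
      have h2 := Nat.pow_right_injective hpp.two_le hr1
      have h3 : (a : ℕ) * 2 ≤ a * r := Nat.mul_le_mul_left _ hr
      omega
    · rw [Multiset.mem_toFinset, mem_roots (hne a a.pos), IsRoot.def, eval_sub, eval_pow, eval_X, sub_eq_zero]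
      have h1 := FiniteField.pow_card (⟨c, hc⟩ : F')
      rw [ha] at h1
      exact congrArg Subtype.val h1
  · have h1 : ((Finset.Icc 1 ((n : ℕ) / 2)).biUnion fun a => (X ^ p ^ a - X : K[X]).roots.toFinset).card ≤
        2 * p ^ ((n : ℕ) / 2) := by
      refine (Finset.card_biUnion_le).trans (le_trans ?_ (sum_pow_le hpp.two_le ((n : ℕ) / 2)))
      refine (Finset.sum_le_sum (g := fun a => p ^ a) fun a ha => ?_).trans
        (Finset.sum_le_sum_of_subset fun a ha => ?_)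
      · have ha1 := (Finset.mem_Icc.1 ha).1
        refine (Multiset.toFinset_card_le _).trans ((card_roots' _).trans ?_)
        rw [FiniteField.X_pow_card_pow_sub_X_natDegree_eq K (by omega) hpp.one_lt]
      · exact Finset.mem_range.2 (Nat.lt_succ_of_le (Finset.mem_Icc.1 ha).2)
    have h2 : p ^ ((n : ℕ) / 2) ≤ Nat.sqrt (Nat.card F) := by
      rw [Nat.le_sqrt, ← pow_add, hn]
      exact Nat.pow_le_pow_right hpp.pos (by omega)
    calc _ ≤ Nat.sqrt (Nat.card F) * (2 * p ^ ((n : ℕ) / 2)) := Nat.mul_le_mul_left _ h1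
      _ ≤ Nat.sqrt (Nat.card F) * (2 * Nat.sqrt (Nat.card F)) := Nat.mul_le_mul_left _ (Nat.mul_le_mul_left _ h2)
      _ = 2 * (Nat.sqrt (Nat.card F) * Nat.sqrt (Nat.card F)) := by ring
      _ ≤ 2 * Nat.card F := Nat.mul_le_mul_left _ (Nat.sqrt_le _)

end sub

/-! ### zeros -/

section zero

variable {K : Type u} [Field K] {F : Subfield K} [Finite F] {G : Type w} [Group G] [Finite G] {ι : Type w}
  {x : ι → F → G} {V : Type u} [AddCommGroup V] [Module K V] [FiniteDimensional K V] {R : G →* Module.End K V}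

theorem zeros_le (hSZ : SZ.{u, w}) {m e k k' : ℕ} (hm : finrank K V ≤ m) (hx : OneP F x) (hR : PolyDeg R F x e)
    (hk : k ≤ k') {f : G → K} (hf : f ∈ Cf R ^ k) (h0 : f ≠ 0) :
    Nat.card F * Nat.card {g : G // f g = 0} ≤ k' * e * (m ^ 2 + 1) ^ k' * Nat.card G := by
  have h1 : (k * e) * (finrank K V ^ 2 + 1) ^ k ≤ k' * e * (m ^ 2 + 1) ^ k' := by
    refine Nat.mul_le_mul (Nat.mul_le_mul_right _ hk) ?_
    refine (Nat.pow_le_pow_left (Nat.add_le_add_right (Nat.pow_le_pow_left hm 2) 1) k).trans ?_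
    exact Nat.pow_le_pow_right (Nat.succ_pos _) hk
  by_cases hD : k * e < Nat.card F
  · have h2 := hSZ K F G ι x hx (Cf R ^ k) (k * e) hD ((cf_tinv R).pow k)
      ((pow_le_pow_left' (cf_le_pol R hR) k).trans (pol_pow e k)) f hf h0
    refine h2.trans (Nat.mul_le_mul_right _ (le_trans ?_ h1))
    exact Nat.mul_le_mul_left _ (finrank_cf_pow R k)
  · have h2 : Nat.card {g : G // f g = 0} ≤ Nat.card G := Nat.card_le_card_of_injective _ Subtype.val_injective
    refine Nat.mul_le_mul ((not_lt.1 hD).trans (le_trans ?_ h1)) h2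
    exact Nat.le_mul_of_pos_right _ (Nat.pow_pos (Nat.succ_pos _))

end zero

/-- A4 -/
theorem typ_pow_of (hSZ : SZ.{u, w}) (m e k : ℕ) : ∃ C : ℕ, ∀ (K : Type u) [Field K] (F : Subfield K) [Finite F]
    (G : Type w) [Group G]
    [Finite G] (ι : Type w) (x : ι → F → G) (V : Type u) [AddCommGroup V] [Module K V] [FiniteDimensional K V]
    (R : G →* Module.End K V), Module.finrank K V ≤ m → OneP F x → PolyDeg R F x e →
    (∃ g : G, R (g ^ k) ≠ 1) →
    Nat.card F * Nat.card {y : G // R (y ^ k) = 1} ≤ C * Nat.card G := by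
  refine ⟨k * e * (m ^ 2 + 1) ^ k, ?_⟩
  intro K _ F _ G _ _ ι x V _ _ _ R hm hx hR hg
  obtain ⟨g, hg⟩ := hg
  obtain ⟨b, -⟩ : ∃ b : Basis (Fin (finrank K V)) K V, b = Module.finBasis K V := ⟨_, rfl⟩
  obtain ⟨i, j, hij⟩ : ∃ i j, LinearMap.toMatrix b b (R (g ^ k)) i j ≠ LinearMap.toMatrix b b 1 i j := by
    by_contra hcon
    push Not at hcon
    exact hg ((LinearMap.toMatrix b b).injective (Matrix.ext hcon))
  obtain ⟨f, hf⟩ : ∃ f : G → K, f = (fun y => LinearMap.toMatrix b b (R (y ^ k)) i j) -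
    fun _ => LinearMap.toMatrix b b 1 i j := ⟨_, rfl⟩
  have h1 : f ∈ Cf R ^ k := by
    rw [hf]
    exact Submodule.sub_mem _ (entry_mem R b k i j) (const_mem_pow R k _)
  have h2 : f ≠ 0 := by
    intro h0
    have h3 := congrFun h0 g
    rw [hf] at h3
    exact hij (sub_eq_zero.1 h3)
  refine le_trans (Nat.mul_le_mul_left _ ?_) (zeros_le hSZ hm hx hR le_rfl h1 h2)
  refine Nat.card_le_card_of_injective (fun y : {y : G // R (y ^ k) = 1} => (⟨y.1, ?_⟩ : {g : G // f g = 0})) ?_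
  · rw [hf]
    change LinearMap.toMatrix b b (R (y.1 ^ k)) i j - LinearMap.toMatrix b b 1 i j = 0
    rw [y.2, sub_self]
  · intro y y' hy
    exact Subtype.ext (congrArg (fun z : {g : G // f g = 0} => z.1) hy)

/-- A4 -/
theorem typ_pow (m e k : ℕ) : ∃ C : ℕ, ∀ (K : Type u) [Field K] (F : Subfield K) [Finite F] (G : Type w) [Group G]
    [Finite G] (ι : Type w) (x : ι → F → G) (V : Type u) [AddCommGroup V] [Module K V] [FiniteDimensional K V]
    (R : G →* Module.End K V), Module.finrank K V ≤ m → OneP F x → PolyDeg R F x e →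
    (∃ g : G, R (g ^ k) ≠ 1) →
    Nat.card F * Nat.card {y : G // R (y ^ k) = 1} ≤ C * Nat.card G := typ_pow_of sz_holds m e k

/-- A5 -/
theorem typ_tr_of (hSZ : SZ.{u, w}) (m e : ℕ) : ∃ C : ℕ, ∀ (K : Type u) [Field K] (F : Subfield K) [Finite F]
    (G : Type w) [Group G]
    [Finite G] (ι : Type w) (x : ι → F → G) (V : Type u) [AddCommGroup V] [Module K V] [FiniteDimensional K V]
    (R : G →* Module.End K V), Module.finrank K V ≤ m → OneP F x → PolyDeg R F x e →
    (∃ g h : G, (LinearMap.trace K V (R g)) ^ Module.finrank K V ≠ (LinearMap.trace K V (R h)) ^ Module.finrank K V) →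
    Nat.sqrt (Nat.card F) * Nat.card {y : G // ¬ TrGen F R y} ≤ C * Nat.card G := by
  refine ⟨2 * (m * e * (m ^ 2 + 1) ^ m), ?_⟩
  intro K _ F _ G _ _ ι x V _ _ _ R hm hx hR hg
  obtain ⟨g, h, hgh⟩ := hg
  obtain ⟨S, hS, hSc⟩ := exists_finset F
  obtain ⟨f, hf⟩ : ∃ f : K → G → K, f = fun c => (fun y => (LinearMap.trace K V (R y)) ^ finrank K V) -
    fun _ => c := ⟨_, rfl⟩
  have hfa : ∀ c y, f c y = (LinearMap.trace K V (R y)) ^ finrank K V - c := fun c y => by rw [hf]; rfl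
  have h1 : ∀ c, f c ∈ Cf R ^ finrank K V := by
    intro c
    rw [hf]
    exact Submodule.sub_mem _ (trace_mem R _) (const_mem_pow R _ _)
  have h2 : ∀ c, f c ≠ 0 := by
    intro c h0
    have h3 := congrFun h0 g
    have h4 := congrFun h0 h
    rw [hfa, Pi.zero_apply, sub_eq_zero] at h3 h4
    exact hgh (h3.trans h4.symm)
  have h3 : ∀ c, Nat.card F * Nat.card {g : G // f c g = 0} ≤ m * e * (m ^ 2 + 1) ^ m * Nat.card G := fun c =>
    zeros_le hSZ hm hx hR hm (h1 c) (h2 c)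
  have h4 : Nat.card {y : G // ¬ TrGen F R y} ≤ ∑ c ∈ S, Nat.card {g : G // f c g = 0} := by
    have h5 : Nat.card (Σ c : S, {g : G // f c g = 0}) = ∑ c ∈ S, Nat.card {g : G // f c g = 0} := by
      rw [Nat.card_sigma]
      exact Finset.sum_coe_sort S fun c => Nat.card {g : G // f c g = 0}
    rw [← h5]
    have h6 : ∀ y : {y : G // ¬ TrGen F R y}, (LinearMap.trace K V (R y.1)) ^ finrank K V ∈ S := by
      rintro ⟨y, hy⟩
      unfold TrGen at hy
      push Not at hy
      obtain ⟨F', hF', hc⟩ := hy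
      exact hS F' hF' _ hc
    refine Nat.card_le_card_of_injective (fun y : {y : G // ¬ TrGen F R y} =>
      (⟨⟨_, h6 y⟩, ⟨y.1, by rw [hfa, sub_self]⟩⟩ : Σ c : S, {g : G // f c g = 0})) ?_
    intro y y' hy
    have h7 := congrArg (fun z : (Σ c : S, {g : G // f c g = 0}) => z.2.1) hy
    exact Subtype.ext h7
  have h5 : Nat.card F * Nat.card {y : G // ¬ TrGen F R y} ≤ S.card * (m * e * (m ^ 2 + 1) ^ m * Nat.card G) := by
    refine (Nat.mul_le_mul_left _ h4).trans ?_
    rw [Finset.mul_sum, ← smul_eq_mul (a := S.card)]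
    exact Finset.sum_le_card_nsmul _ _ _ fun c _ => h3 c
  have hpos : 0 < Nat.card F := Nat.card_pos
  refine Nat.le_of_mul_le_mul_left ?_ hpos
  calc Nat.card F * (Nat.sqrt (Nat.card F) * Nat.card {y : G // ¬ TrGen F R y})
      = Nat.sqrt (Nat.card F) * (Nat.card F * Nat.card {y : G // ¬ TrGen F R y}) := by ring
    _ ≤ Nat.sqrt (Nat.card F) * (S.card * (m * e * (m ^ 2 + 1) ^ m * Nat.card G)) := Nat.mul_le_mul_left _ h5
    _ = (Nat.sqrt (Nat.card F) * S.card) * (m * e * (m ^ 2 + 1) ^ m * Nat.card G) := by ring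
    _ ≤ (2 * Nat.card F) * (m * e * (m ^ 2 + 1) ^ m * Nat.card G) := Nat.mul_le_mul_right _ hSc
    _ = Nat.card F * (2 * (m * e * (m ^ 2 + 1) ^ m) * Nat.card G) := by ring

/-- A5 -/
theorem typ_tr (m e : ℕ) : ∃ C : ℕ, ∀ (K : Type u) [Field K] (F : Subfield K) [Finite F] (G : Type w) [Group G]
    [Finite G] (ι : Type w) (x : ι → F → G) (V : Type u) [AddCommGroup V] [Module K V] [FiniteDimensional K V]
    (R : G →* Module.End K V), Module.finrank K V ≤ m → OneP F x → PolyDeg R F x e →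
    (∃ g h : G, (LinearMap.trace K V (R g)) ^ Module.finrank K V ≠ (LinearMap.trace K V (R h)) ^ Module.finrank K V) →
    Nat.sqrt (Nat.card F) * Nat.card {y : G // ¬ TrGen F R y} ≤ C * Nat.card G := typ_tr_of sz_holds m e

end Cfsg.Agent.H811.BR
end

-- part: H94/BR/FinA
section
/-!
# BR-FIN: `BX IsCl`, `BC IsCl` from the rows (generic part)

* `RowH c` : for every `n` and every large `q` a simple group with the name `c n q` is `G / Z(G)`, `G` quasisimple
  with `Row2 C q G`, and `Spr`;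
* `good_of_rowH`, `bx_of_good`, `bc_of_good`.
-/

set_option autoImplicit false

namespace Cfsg.Agent.H94.BR.Fin

open Cfsg Cfsg.Agent.OrdDiv Cfsg.Agent.H436 Cfsg.Agent.H262.Rx Cfsg.Agent.H883.BR Subgroup

/-- both counts are small -/
def Sm (ε : ℝ) (T : Type) [Group T] : Prop :=
  (∀ x : T, x ≠ 1 → (missX T x : ℝ) ≤ ε * Nat.card T) ∧ (missC T : ℝ) ≤ ε * (Nat.card T : ℝ) ^ 2

/-- the family of names `c` is good in bounded rank -/
def Good (c : ℕ → ℕ → Grp) : Prop := ∀ (n : ℕ) (ε : ℝ), 0 < ε → ∃ Q : ℕ, ∀ q, Q ≤ q → ∀ (T : Type) [Group T]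
  [Finite T] [IsSimpleGroup T], IsNamed (c n q) T → Sm ε T

/-- the rows of the family of names `c` -/
def RowH (c : ℕ → ℕ → Grp) : Prop := ∀ n : ℕ, ∃ C q₀ : ℕ, ∀ q, q₀ ≤ q → ∀ (T : Type) [Group T] [Finite T]
  [IsSimpleGroup T], IsNamed (c n q) T → ∃ (G : Type) (_ : Group G) (_ : Finite G) (f : G →* T),
    Function.Surjective f ∧ f.ker = center G ∧ QS G ∧ Cfsg.Agent.H815.BR.Row2.{0, 0} C q G

/-- `Spr` for all large `q` -/
def SprH (c : ℕ → ℕ → Grp) : Prop := ∀ n : ℕ, ∃ q₀ : ℕ, ∀ q, q₀ ≤ q → ∀ (T : Type) [Group T] [Finite T]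
  [IsSimpleGroup T], IsNamed (c n q) T → Cfsg.Agent.H424.Spr.Spr T

theorem good_of_rowH {c : ℕ → ℕ → Grp} (h : RowH c) (hS : SprH c) : Good c := by
  intro n ε hε
  obtain ⟨C, q₀, h0⟩ := h n
  obtain ⟨q₁, h1⟩ := hS n
  obtain ⟨Q, hQ⟩ := Cfsg.Agent.H815.BR.miss_of_row2
    (fun m e => Cfsg.Agent.H886.BR.dens_conj m e) (fun m e => Cfsg.Agent.H886.BR.dens_fix m e)
    (fun m e k => Cfsg.Agent.H811.BR.typ_pow m e k) (fun m e => Cfsg.Agent.H811.BR.typ_tr m e) C ε hε
  refine ⟨max (max q₀ q₁) Q, fun q hq T _ _ _ hT => ?_⟩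
  obtain ⟨G, _, _, f, hf, hk, hG, hR⟩ := h0 q (((le_max_left _ _).trans (le_max_left _ _)).trans hq) T hT
  exact hQ q ((le_max_right _ _).trans hq) G T f hf hk hG hR
    (h1 q (((le_max_right _ _).trans (le_max_left _ _)).trans hq) T hT)

/-- bounded rank from good families; `rk (c n q) = n`, `fld (c n q) = q` -/
theorem bx_of_good {c : ℕ → ℕ → Grp} (hrk : ∀ n q, rk (c n q) = n) (hfld : ∀ n q, fld (c n q) = q) (h : Good c) :
    BX fun g => ∃ n q, g = c n q := by
  intro N ε hε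
  choose Q hQ using fun n => h n ε hε
  refine ⟨(Finset.range (N + 1)).sup Q, ?_⟩
  rintro g T _ _ _ hT ⟨n, q, rfl⟩ hk hq x hx
  rw [hrk] at hk
  rw [hfld] at hq
  have h1 : Q n ≤ q := (Finset.le_sup (f := Q) (Finset.mem_range.2 (by omega))).trans hq
  exact (hQ n q h1 T hT).1 x hx

theorem bc_of_good {c : ℕ → ℕ → Grp} (hrk : ∀ n q, rk (c n q) = n) (hfld : ∀ n q, fld (c n q) = q) (h : Good c) :
    BC fun g => ∃ n q, g = c n q := by
  intro N ε hε
  choose Q hQ using fun n => h n ε hε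
  refine ⟨(Finset.range (N + 1)).sup Q, ?_⟩
  rintro g T _ _ _ hT ⟨n, q, rfl⟩ hk hq
  rw [hrk] at hk
  rw [hfld] at hq
  have h1 : Q n ≤ q := (Finset.le_sup (f := Q) (Finset.mem_range.2 (by omega))).trans hq
  exact (hQ n q h1 T hT).2

/-- `BX IsCl` -/
theorem bx_isCl (h1 : Good .psl) (h2 : Good .psp) (h3 : Good .psu) (h4 : Good .oodd) (h5 : Good .oplus)
    (h6 : Good .ominus) : BX IsCl :=
  (bx_of_good (fun _ _ => rfl) (fun _ _ => rfl) h1).or ((bx_of_good (fun _ _ => rfl) (fun _ _ => rfl) h2).or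
    ((bx_of_good (fun _ _ => rfl) (fun _ _ => rfl) h3).or ((bx_of_good (fun _ _ => rfl) (fun _ _ => rfl) h4).or
      ((bx_of_good (fun _ _ => rfl) (fun _ _ => rfl) h5).or (bx_of_good (fun _ _ => rfl) (fun _ _ => rfl) h6)))))

/-- `BC IsCl` -/
theorem bc_isCl (h1 : Good .psl) (h2 : Good .psp) (h3 : Good .psu) (h4 : Good .oodd) (h5 : Good .oplus)
    (h6 : Good .ominus) : BC IsCl :=
  (bc_of_good (fun _ _ => rfl) (fun _ _ => rfl) h1).or ((bc_of_good (fun _ _ => rfl) (fun _ _ => rfl) h2).or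
    ((bc_of_good (fun _ _ => rfl) (fun _ _ => rfl) h3).or ((bc_of_good (fun _ _ => rfl) (fun _ _ => rfl) h4).or
      ((bc_of_good (fun _ _ => rfl) (fun _ _ => rfl) h5).or (bc_of_good (fun _ _ => rfl) (fun _ _ => rfl) h6)))))

/-- the canonical map -/
theorem exists_map {T G : Type} [Group T] [Group G] (e : T ≃* G ⧸ center G) :
    ∃ f : G →* T, Function.Surjective f ∧ f.ker = center G := by
  refine ⟨e.symm.toMonoidHom.comp (QuotientGroup.mk' (center G)),
    e.symm.surjective.comp (QuotientGroup.mk'_surjective _), ?_⟩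
  ext g
  rw [MonoidHom.mem_ker]
  change e.symm (QuotientGroup.mk' (center G) g) = 1 ↔ _
  rw [map_eq_one_iff _ e.symm.injective, QuotientGroup.mk'_apply, QuotientGroup.eq_one_iff]

end Cfsg.Agent.H94.BR.Fin
end

-- part: H94/BR/FinB
section
/-!
# BR-FIN: the rows of the six families of names
-/

set_option autoImplicit false

namespace Cfsg.Agent.H94.BR.Fin

open Cfsg Cfsg.Agent.OrdDiv Cfsg.Agent.H436 Cfsg.Agent.H262.Rx Cfsg.Agent.H883.BR Subgroup
open Cfsg.Agent.LieClassical.OrthForms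

/-- D5 -/
def RoF : Prop := ∀ n : ℕ, ∃ C q₀ : ℕ, ∀ (q : ℕ) (G : Type) [Group G], q₀ ≤ q → HasFam.{0, 0} n q G → Row.{0, 0} C q G

/-- the stub `fam_sl` -/
def FSl : Prop := ∀ (n : ℕ), 2 ≤ n → ∃ q₀ : ℕ, ∀ (F : Type) [Field F] [Fintype F], q₀ ≤ Fintype.card F →
    HasFam.{0, 0} n (Fintype.card F) (Matrix.SpecialLinearGroup (Fin n) F)

/-- the stub `fam_su` -/
def FSu : Prop := ∀ (n : ℕ), 3 ≤ n → ∃ q₀ : ℕ, ∀ (F : Type) [Field F] [Fintype F] (q : ℕ),
    Fintype.card F = q ^ 2 → q₀ ≤ q → HasFam.{0, 0} n q (SU n F q)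

/-- the stub `fam_sp_odd` -/
def FSpO : Prop := ∀ (m : ℕ), 2 ≤ m → ∃ q₀ : ℕ, ∀ (F : Type) [Field F] [Fintype F], q₀ ≤ Fintype.card F →
    Odd (Fintype.card F) → HasFam.{0, 0} (2 * m) (Fintype.card F) (Matrix.symplecticGroup (Fin m) F)

/-- `row_sp_even` and `row2_sp4` -/
def RSpE : Prop := ∀ (m : ℕ), 2 ≤ m → ∃ C q₀ : ℕ, ∀ (F : Type) [Field F] [Fintype F], q₀ ≤ Fintype.card F →
    Even (Fintype.card F) → Cfsg.Agent.H815.BR.Row2.{0, 0} C (Fintype.card F) (Matrix.symplecticGroup (Fin m) F)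

/-- the stub `fam_omega_odd` -/
def FOmO : Prop := ∀ (n : ℕ), 7 ≤ n → ∃ q₀ : ℕ, ∀ (F : Type) [Field F] [Fintype F], q₀ ≤ Fintype.card F →
    Odd (Fintype.card F) → ∀ (ι : Type) [Fintype ι] [DecidableEq ι] (Q : QuadraticForm F (ι → F)),
    Fintype.card ι = n → (∀ v, (∀ w, QuadraticMap.polar Q v w = 0) → v = 0) →
    HasFam.{0, 0} n (Fintype.card F) (Omega F (fun v : ι → F => Q v))

/-- the stub `fam_omega_even` -/
def FOmE : Prop := ∀ (n : ℕ), 8 ≤ n → ∃ q₀ : ℕ, ∀ (F : Type) [Field F] [Fintype F], q₀ ≤ Fintype.card F →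
    Even (Fintype.card F) → ∀ (ι : Type) [Fintype ι] [DecidableEq ι] (Q : QuadraticForm F (ι → F)),
    Fintype.card ι = n → (∀ v, (∀ w, QuadraticMap.polar Q v w = 0) → v = 0) →
    HasFam.{0, 0} n (Fintype.card F) (Omega F (fun v : ι → F => Q v))

/-- one group is enough -/
theorem mk_row {C q : ℕ} {T G : Type} [Group T] [Group G] [Finite G] (e : T ≃* G ⧸ center G)
    (hG : QS G) (hR : Cfsg.Agent.H815.BR.Row2.{0, 0} C q G) :
    ∃ (G : Type) (_ : Group G) (_ : Finite G) (f : G →* T),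
      Function.Surjective f ∧ f.ker = center G ∧ QS G ∧ Cfsg.Agent.H815.BR.Row2.{0, 0} C q G := by
  obtain ⟨f, hf, hk⟩ := exists_map e
  exact ⟨G, inferInstance, inferInstance, f, hf, hk, hG, hR⟩

theorem rowH_psl (hR : RoF) (hF : FSl) : RowH .psl := by
  intro n
  by_cases hn : 2 ≤ n
  · obtain ⟨C, q₀, h⟩ := hR n
    obtain ⟨q₁, h1⟩ := hF n hn
    refine ⟨C, max (max q₀ q₁) 4, fun q hq T _ _ _ hT => ?_⟩
    obtain ⟨F, _, _, hFq, ⟨e⟩⟩ := hT.real
    have hq0 : q₀ ≤ q := ((le_max_left _ _).trans (le_max_left _ _)).trans hq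
    have hq1 : q₁ ≤ q := ((le_max_right _ _).trans (le_max_left _ _)).trans hq
    have hq4 : 4 ≤ q := (le_max_right _ _).trans hq
    have h2 := h1 F (by rw [hFq]; exact hq1)
    rw [hFq] at h2
    refine mk_row (G := Matrix.SpecialLinearGroup (Fin n) F) e ?_ (Cfsg.Agent.H815.BR.Row2.of_row (h q _ hq0 h2))
    refine Cfsg.Agent.H16.BR.qs_of ?_
    rcases Nat.lt_or_ge 2 n with h3 | h3
    · exact Cfsg.Agent.H16.BR.quasi_sl h3
    · have h4 : n = 2 := by omega
      subst h4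
      exact Cfsg.Agent.H16.BR.quasi_sl_two (by rw [hFq]; exact hq4)
  · exact ⟨0, 0, fun q _ T _ _ _ hT => absurd hT.cond.1 hn⟩

theorem rowH_psu (hR : RoF) (hF : FSu) : RowH .psu := by
  intro n
  by_cases hn : 3 ≤ n
  · obtain ⟨C, q₀, h⟩ := hR n
    obtain ⟨q₁, h1⟩ := hF n hn
    refine ⟨C, max (max q₀ q₁) 4, fun q hq T _ _ _ hT => ?_⟩
    obtain ⟨F, _, _, hFq, ⟨e⟩⟩ := hT.real
    have hq0 : q₀ ≤ q := ((le_max_left _ _).trans (le_max_left _ _)).trans hq
    have hq1 : q₁ ≤ q := ((le_max_right _ _).trans (le_max_left _ _)).trans hq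
    have hq4 : 4 ≤ q := (le_max_right _ _).trans hq
    exact mk_row (G := SU n F q) e (Cfsg.Agent.H16.BR.qs_of (Cfsg.Agent.H16.BR.quasi_su hFq hn (by omega)))
      (Cfsg.Agent.H815.BR.Row2.of_row (h q _ hq0 (h1 F q hFq hq1)))
  · exact ⟨0, 0, fun q _ T _ _ _ hT => absurd hT.cond.1 hn⟩

/-! ### splitting by parity -/

/-- `Good` for the `q` with `P q` -/
def GoodP (P : ℕ → Prop) (c : ℕ → ℕ → Grp) : Prop := ∀ (n : ℕ) (ε : ℝ), 0 < ε → ∃ Q : ℕ, ∀ q, Q ≤ q → P q →
  ∀ (T : Type) [Group T] [Finite T] [IsSimpleGroup T], IsNamed (c n q) T → Sm ε T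

/-- `RowH` for the `q` with `P q` -/
def RowP (P : ℕ → Prop) (c : ℕ → ℕ → Grp) : Prop := ∀ n : ℕ, ∃ C q₀ : ℕ, ∀ q, q₀ ≤ q → P q → ∀ (T : Type) [Group T]
  [Finite T] [IsSimpleGroup T], IsNamed (c n q) T → ∃ (G : Type) (_ : Group G) (_ : Finite G) (f : G →* T),
    Function.Surjective f ∧ f.ker = center G ∧ QS G ∧ Cfsg.Agent.H815.BR.Row2.{0, 0} C q G

theorem goodP_of_rowP {P : ℕ → Prop} {c : ℕ → ℕ → Grp} (h : RowP P c) (hS : SprH c) : GoodP P c := by
  intro n ε hε
  obtain ⟨C, q₀, h0⟩ := h n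
  obtain ⟨q₁, h1⟩ := hS n
  obtain ⟨Q, hQ⟩ := Cfsg.Agent.H815.BR.miss_of_row2
    (fun m e => Cfsg.Agent.H886.BR.dens_conj m e) (fun m e => Cfsg.Agent.H886.BR.dens_fix m e)
    (fun m e k => Cfsg.Agent.H811.BR.typ_pow m e k) (fun m e => Cfsg.Agent.H811.BR.typ_tr m e) C ε hε
  refine ⟨max (max q₀ q₁) Q, fun q hq hP T _ _ _ hT => ?_⟩
  obtain ⟨G, _, _, f, hf, hk, hG, hR⟩ := h0 q (((le_max_left _ _).trans (le_max_left _ _)).trans hq) hP T hT
  exact hQ q ((le_max_right _ _).trans hq) G T f hf hk hG hR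
    (h1 q (((le_max_right _ _).trans (le_max_left _ _)).trans hq) T hT)

theorem good_of_parity {c : ℕ → ℕ → Grp} (h : GoodP Odd c) (h' : GoodP Even c) : Good c := by
  intro n ε hε
  obtain ⟨Q, hQ⟩ := h n ε hε
  obtain ⟨Q', hQ'⟩ := h' n ε hε
  refine ⟨max Q Q', fun q hq T _ _ _ hT => ?_⟩
  rcases Nat.even_or_odd q with hP | hP
  · exact hQ' q ((le_max_right _ _).trans hq) hP T hT
  · exact hQ q ((le_max_left _ _).trans hq) hP T hT

theorem rowP_psp_odd (hR : RoF) (hF : FSpO) : RowP Odd .psp := by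
  intro m
  by_cases hm : 2 ≤ m
  · obtain ⟨C, q₀, h⟩ := hR (2 * m)
    obtain ⟨q₁, h1⟩ := hF m hm
    refine ⟨C, max (max q₀ q₁) 4, fun q hq hP T _ _ _ hT => ?_⟩
    obtain ⟨F, _, _, hFq, ⟨e⟩⟩ := hT.real
    have hq0 : q₀ ≤ q := ((le_max_left _ _).trans (le_max_left _ _)).trans hq
    have hq1 : q₁ ≤ q := ((le_max_right _ _).trans (le_max_left _ _)).trans hq
    have hq4 : 4 ≤ q := (le_max_right _ _).trans hq
    have h2 := h1 F (by rw [hFq]; exact hq1) (by rw [hFq]; exact hP)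
    rw [hFq] at h2
    exact mk_row (G := Matrix.symplecticGroup (Fin m) F) e
      (Cfsg.Agent.H16.BR.qs_of (Cfsg.Agent.H16.BR.quasi_sp hm (by rw [hFq]; omega)))
      (Cfsg.Agent.H815.BR.Row2.of_row (h q _ hq0 h2))
  · exact ⟨0, 0, fun q _ _ T _ _ _ hT => absurd hT.cond.1 hm⟩

theorem rowP_psp_even (hE : RSpE) : RowP Even .psp := by
  intro m
  by_cases hm : 2 ≤ m
  · obtain ⟨C, q₁, h1⟩ := hE m hm
    refine ⟨C, max q₁ 4, fun q hq hP T _ _ _ hT => ?_⟩
    obtain ⟨F, _, _, hFq, ⟨e⟩⟩ := hT.real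
    have hq1 : q₁ ≤ q := (le_max_left _ _).trans hq
    have hq4 : 4 ≤ q := (le_max_right _ _).trans hq
    have h2 := h1 F (by rw [hFq]; exact hq1) (by rw [hFq]; exact hP)
    rw [hFq] at h2
    exact mk_row (G := Matrix.symplecticGroup (Fin m) F) e
      (Cfsg.Agent.H16.BR.qs_of (Cfsg.Agent.H16.BR.quasi_sp hm (by rw [hFq]; omega))) h2
  · exact ⟨0, 0, fun q _ _ T _ _ _ hT => absurd hT.cond.1 hm⟩

/-- `2 ≠ 0` in odd characteristic -/
theorem two_ne {F : Type} [Field F] [Fintype F] (h : Odd (Fintype.card F)) : (2 : F) ≠ 0 := by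
  intro h2
  have h3 : CharP F 2 := CharTwo.of_one_ne_zero_of_two_eq_zero one_ne_zero h2
  have h4 := FiniteField.even_card_iff_char_two.1 (ringChar.eq F 2 ▸ rfl : ringChar F = 2)
  rw [Nat.odd_iff] at h
  omega

/-- one orthogonal group -/
theorem omega_row {C q₀ q : ℕ} {n : ℕ} (hn : 5 ≤ n)
    (h : ∀ (q : ℕ) (G : Type) [Group G], q₀ ≤ q → HasFam.{0, 0} n q G → Row.{0, 0} C q G) {F : Type} [Field F]
    [Fintype F] (hFq : Fintype.card F = q) (hq : q₀ ≤ q) {ι : Type} [Fintype ι] [DecidableEq ι]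
    (Q : QuadraticForm F (ι → F)) (hι : Fintype.card ι = n) (hQ : ∀ v, (∀ w, QuadraticMap.polar Q v w = 0) → v = 0)
    {Q' : (ι → F) → F} (hQ' : ⇑Q = Q')
    (h2 : HasFam.{0, 0} n (Fintype.card F) (Omega F (fun v : ι → F => Q v))) {T : Type} [Group T]
    (e : T ≃* POmega F Q') :
    ∃ (G : Type) (_ : Group G) (_ : Finite G) (f : G →* T),
      Function.Surjective f ∧ f.ker = center G ∧ QS G ∧ Cfsg.Agent.H815.BR.Row2.{0, 0} C q G := by
  subst hQ'
  subst hFq
  exact mk_row (G := Omega F ⇑Q) e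
    (Cfsg.Agent.H16.BR.qs_of (Cfsg.Agent.H16.BR.quasi_omega hQ (by omega)))
      (Cfsg.Agent.H815.BR.Row2.of_row (h _ _ hq h2))

theorem rowH_oodd (hR : RoF) (hF : FOmO) : RowH .oodd := by
  intro m
  by_cases hm : 3 ≤ m
  · obtain ⟨C, q₀, h⟩ := hR (2 * m + 1)
    obtain ⟨q₁, h1⟩ := hF (2 * m + 1) (by omega)
    refine ⟨C, max q₀ q₁, fun q hq T _ _ _ hT => ?_⟩
    obtain ⟨F, _, _, hFq, ⟨e⟩⟩ := hT.real
    have hP : Odd q := hT.cond.2.1
    have hq0 : q₀ ≤ q := (le_max_left _ _).trans hq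
    have hq1 : q₁ ≤ q := (le_max_right _ _).trans hq
    have hι : Fintype.card (Unit ⊕ (Fin m ⊕ Fin m)) = 2 * m + 1 := by
      rw [Fintype.card_sum, Fintype.card_sum, Fintype.card_fin, Fintype.card_unit]; ring
    have hnd := nondeg_oddForm m F (two_ne (F := F) (by rw [hFq]; exact hP))
    exact omega_row (by omega) h hFq hq0 (oddForm m F) hι hnd (coe_oddForm ..)
      (h1 F (by rw [hFq]; exact hq1) (by rw [hFq]; exact hP) _ _ hι hnd) e
  · exact ⟨0, 0, fun q _ T _ _ _ hT => absurd hT.cond.1 hm⟩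

theorem rowP_oplus_odd (hR : RoF) (hF : FOmO) : RowP Odd .oplus := by
  intro m
  by_cases hm : 4 ≤ m
  · obtain ⟨C, q₀, h⟩ := hR (2 * m)
    obtain ⟨q₁, h1⟩ := hF (2 * m) (by omega)
    refine ⟨C, max q₀ q₁, fun q hq hP T _ _ _ hT => ?_⟩
    obtain ⟨F, _, _, hFq, ⟨e⟩⟩ := hT.real
    have hq0 : q₀ ≤ q := (le_max_left _ _).trans hq
    have hq1 : q₁ ≤ q := (le_max_right _ _).trans hq
    have hι : Fintype.card (Fin m ⊕ Fin m) = 2 * m := by
      rw [Fintype.card_sum, Fintype.card_fin]; ring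
    have hnd := nondeg_plusForm m F
    exact omega_row (by omega) h hFq hq0 (plusForm m F) hι hnd (coe_plusForm ..)
      (h1 F (by rw [hFq]; exact hq1) (by rw [hFq]; exact hP) _ _ hι hnd) e
  · exact ⟨0, 0, fun q _ _ T _ _ _ hT => absurd hT.cond.1 hm⟩

theorem rowP_oplus_even (hR : RoF) (hF : FOmE) : RowP Even .oplus := by
  intro m
  by_cases hm : 4 ≤ m
  · obtain ⟨C, q₀, h⟩ := hR (2 * m)
    obtain ⟨q₁, h1⟩ := hF (2 * m) (by omega)
    refine ⟨C, max q₀ q₁, fun q hq hP T _ _ _ hT => ?_⟩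
    obtain ⟨F, _, _, hFq, ⟨e⟩⟩ := hT.real
    have hq0 : q₀ ≤ q := (le_max_left _ _).trans hq
    have hq1 : q₁ ≤ q := (le_max_right _ _).trans hq
    have hι : Fintype.card (Fin m ⊕ Fin m) = 2 * m := by
      rw [Fintype.card_sum, Fintype.card_fin]; ring
    have hnd := nondeg_plusForm m F
    exact omega_row (by omega) h hFq hq0 (plusForm m F) hι hnd (coe_plusForm ..)
      (h1 F (by rw [hFq]; exact hq1) (by rw [hFq]; exact hP) _ _ hι hnd) e
  · exact ⟨0, 0, fun q _ _ T _ _ _ hT => absurd hT.cond.1 hm⟩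

theorem rowP_ominus_odd (hR : RoF) (hF : FOmO) : RowP Odd .ominus := by
  intro m
  by_cases hm : 4 ≤ m
  · obtain ⟨C, q₀, h⟩ := hR (2 * m)
    obtain ⟨q₁, h1⟩ := hF (2 * m) (by omega)
    refine ⟨C, max q₀ q₁, fun q hq hP T _ _ _ hT => ?_⟩
    obtain ⟨F, _, _, a, b, hFq, hab, ⟨e⟩⟩ := hT.real
    have hq0 : q₀ ≤ q := (le_max_left _ _).trans hq
    have hq1 : q₁ ≤ q := (le_max_right _ _).trans hq
    have hι : Fintype.card ((Fin (m - 1) ⊕ Fin (m - 1)) ⊕ Fin 2) = 2 * m := by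
      rw [Fintype.card_sum, Fintype.card_sum, Fintype.card_fin, Fintype.card_fin]; omega
    have hnd := nondeg_minusForm (m - 1) F a b hab
    exact omega_row (by omega) h hFq hq0 (minusForm (m - 1) F a b) hι hnd (coe_minusForm ..)
      (h1 F (by rw [hFq]; exact hq1) (by rw [hFq]; exact hP) _ _ hι hnd) e
  · exact ⟨0, 0, fun q _ _ T _ _ _ hT => absurd hT.cond.1 hm⟩

theorem rowP_ominus_even (hR : RoF) (hF : FOmE) : RowP Even .ominus := by
  intro m
  by_cases hm : 4 ≤ m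
  · obtain ⟨C, q₀, h⟩ := hR (2 * m)
    obtain ⟨q₁, h1⟩ := hF (2 * m) (by omega)
    refine ⟨C, max q₀ q₁, fun q hq hP T _ _ _ hT => ?_⟩
    obtain ⟨F, _, _, a, b, hFq, hab, ⟨e⟩⟩ := hT.real
    have hq0 : q₀ ≤ q := (le_max_left _ _).trans hq
    have hq1 : q₁ ≤ q := (le_max_right _ _).trans hq
    have hι : Fintype.card ((Fin (m - 1) ⊕ Fin (m - 1)) ⊕ Fin 2) = 2 * m := by
      rw [Fintype.card_sum, Fintype.card_sum, Fintype.card_fin, Fintype.card_fin]; omega
    have hnd := nondeg_minusForm (m - 1) F a b hab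
    exact omega_row (by omega) h hFq hq0 (minusForm (m - 1) F a b) hι hnd (coe_minusForm ..)
      (h1 F (by rw [hFq]; exact hq1) (by rw [hFq]; exact hP) _ _ hι hnd) e
  · exact ⟨0, 0, fun q _ _ T _ _ _ hT => absurd hT.cond.1 hm⟩

/-- `Spr` for all classical names of large `q` -/
structure SprA : Prop where
  psl : SprH .psl
  psp : SprH .psp
  psu : SprH .psu
  oodd : SprH .oodd
  oplus : SprH .oplus
  ominus : SprH .ominus

/-- **bounded rank** -/
theorem bx_bc (hR : RoF) (h1 : FSl) (h2 : FSu) (h3 : FSpO) (h4 : RSpE) (h5 : FOmO) (h6 : FOmE) (hS : SprA) :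
    BX IsCl ∧ BC IsCl := by
  have g1 : Good .psl := good_of_rowH (rowH_psl hR h1) hS.psl
  have g2 : Good .psp := good_of_parity (goodP_of_rowP (rowP_psp_odd hR h3) hS.psp)
    (goodP_of_rowP (rowP_psp_even h4) hS.psp)
  have g3 : Good .psu := good_of_rowH (rowH_psu hR h2) hS.psu
  have g4 : Good .oodd := good_of_rowH (rowH_oodd hR h5) hS.oodd
  have g5 : Good .oplus := good_of_parity (goodP_of_rowP (rowP_oplus_odd hR h5) hS.oplus)
    (goodP_of_rowP (rowP_oplus_even hR h6) hS.oplus)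
  have g6 : Good .ominus := good_of_parity (goodP_of_rowP (rowP_ominus_odd hR h5) hS.ominus)
    (goodP_of_rowP (rowP_ominus_even hR h6) hS.ominus)
  exact ⟨bx_isCl g1 g2 g3 g4 g5 g6, bc_isCl g1 g2 g3 g4 g5 g6⟩

end Cfsg.Agent.H94.BR.Fin
end
end

-- part: H94/BR/FinC_mg
section
prune_inst 0x202004400000000018000480000040c000050200400000000000000008804020008841008000100020004000000000000000004040000004200000000000000000000481080900000000000000000000000000000000000000000000020000000000000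
set_option linter.all false
open scoped Cfsg.Agent.FastGrp

-- part: H94/BR/FinC
section
/-!
# BR-FIN: `Spr` for large `q` from the rows of S3938
-/

set_option autoImplicit false

namespace Cfsg.Agent.H94.BR.Fin

open Cfsg Cfsg.Agent.OrdDiv Cfsg.Agent.H436 Cfsg.Agent.H262.Rx Cfsg.Agent.H883.BR Subgroup
open Cfsg.Agent.H424.Spr (Spr)

/-- transport -/
theorem spr_congr {S T : Type} [Group S] [Group T] (e : S ≃* T) (h : Spr T) : Spr S := by
  intro a ha
  obtain ⟨x, hx⟩ := h ((e.symm.trans a).trans e) (fun h1 => ha (by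
    ext y
    have h2 := congrArg (fun b : MulAut T => e.symm (b (e y))) h1
    simpa using h2))
  refine ⟨e.symm x, fun K hK hinv => ?_⟩
  have h1 := hx (K.map e.toMonoidHom) ⟨e.symm x, hK, e.apply_symm_apply x⟩ (by
    rintro _ ⟨k, hk, rfl⟩
    refine ⟨a k, hinv k hk, ?_⟩
    change e (a k) = e (a (e.symm (e k)))
    rw [e.symm_apply_apply])
  rw [eq_top_iff]
  intro y _
  have h2 : e y ∈ K.map e.toMonoidHom := h1 ▸ mem_top _
  obtain ⟨z, hz, hzy⟩ := h2
  have : z = y := e.injective hzy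
  exact this ▸ hz

end Cfsg.Agent.H94.BR.Fin
end

-- part: H744/BR/SlMod
section
/-!
# HUB BR: the module `sl / (sl ∩ scalars)` for `SL_n(q)` and `SU_n(q)` (task 5785)

`Sl K V`, `Sc K V`, `SlW K V`, `sg ρ`; `fam_core` : `Fam` from the properties of the natural module;
`sl_sub`, `root_mem`; `count_of`; `ac_locfin`.
-/

set_option autoImplicit false
set_option linter.unusedSectionVars false

namespace Cfsg.Agent.H744.BR

open Cfsg.Agent.H883.BR
open Module (finrank)

universe u v w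

/-! ### additivity of the trace -/

section Trace

variable {k : Type*} [Field k] {S V Q : Type*} [AddCommGroup S] [Module k S] [FiniteDimensional k S]
  [AddCommGroup V] [Module k V] [FiniteDimensional k V] [AddCommGroup Q] [Module k Q] [FiniteDimensional k Q]

theorem trace_add (i : S →ₗ[k] V) (q : V →ₗ[k] Q) (hi : Function.Injective i) (hq : Function.Surjective q)
    (hiq : ∀ v, q v = 0 → ∃ s, i s = v) (hqi : ∀ s, q (i s) = 0) (f : V →ₗ[k] V) (fS : S →ₗ[k] S) (fQ : Q →ₗ[k] Q)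
    (h1 : ∀ s, f (i s) = i (fS s)) (h2 : ∀ v, q (f v) = fQ (q v)) :
    LinearMap.trace k V f = LinearMap.trace k S fS + LinearMap.trace k Q fQ := by
  obtain ⟨s, hs⟩ := q.exists_rightInverse_of_surjective (LinearMap.range_eq_top.2 hq)
  obtain ⟨j, hj⟩ := i.exists_leftInverse_of_injective (LinearMap.ker_eq_bot.2 hi)
  have hs' : ∀ x, q (s x) = x := fun x => LinearMap.congr_fun hs x
  have hj' : ∀ x, j (i x) = x := fun x => LinearMap.congr_fun hj x
  -- the projection onto `S` along `s`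
  let π : V →ₗ[k] S := j ∘ₗ (LinearMap.id - s ∘ₗ q)
  have hπ : ∀ v, i (π v) = v - s (q v) := by
    intro v
    have h3 : q (v - s (q v)) = 0 := by rw [map_sub, hs', sub_self]
    obtain ⟨x, hx⟩ := hiq _ h3
    change i (j (v - s (q v))) = _
    rw [← hx, hj']
  have hπi : ∀ x, π (i x) = x := by
    intro x
    change j (i x - s (q (i x))) = x
    rw [hqi, map_zero, sub_zero, hj']
  have hf : f = (f ∘ₗ i) ∘ₗ π + (f ∘ₗ s) ∘ₗ q := by
    ext v
    rw [LinearMap.add_apply]
    change f v = f (i (π v)) + f (s (q v))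
    rw [hπ, ← map_add, sub_add_cancel]
  rw [hf, map_add, LinearMap.trace_comp_comm', LinearMap.trace_comp_comm' q]
  congr 2
  · ext x
    change π (f (i x)) = fS x
    rw [h1, hπi]
  · ext x
    change q (f (s x)) = fQ x
    rw [h2, hs']

theorem trace_one_fd : LinearMap.trace k V 1 = (finrank k V : k) := LinearMap.trace_one k V

/-- the trace of `X ↦ A X B` -/
theorem trace_mul_mul (A B : Module.End k V) (f : Module.End k (Module.End k V)) (hf : ∀ X, f X = A * X * B) :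
    LinearMap.trace k (Module.End k V) f = LinearMap.trace k V A * LinearMap.trace k V B := by
  let e : TensorProduct k (Module.Dual k V) V ≃ₗ[k] Module.End k V := dualTensorHomEquiv k V V
  have h1 : e.conj (TensorProduct.map (Module.Dual.transpose (R := k) B) A) = f := by
    apply LinearMap.ext
    intro X
    rw [LinearEquiv.conj_apply_apply, hf]
    obtain ⟨t, rfl⟩ := e.surjective X
    rw [LinearEquiv.symm_apply_apply]
    induction t using TensorProduct.induction_on with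
    | zero => simp
    | tmul φ v =>
      rw [TensorProduct.map_tmul]
      ext x
      simp only [e, Module.Dual.transpose_apply, _root_.dualTensorHomEquiv.eq_1, _root_.LinearEquiv.ofBijective_apply, _root_.dualTensorHom_apply, _root_.LinearMap.coe_comp, _root_.Function.comp_apply, _root_.Module.End.mul_apply, _root_.map_smul]
    | add x y hx hy =>
      rw [map_add, map_add, hx, hy, map_add, mul_add, add_mul]
  have h2 := LinearMap.trace_conj' (R := k) (M := TensorProduct k (Module.Dual k V) V) (N := Module.End k V)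
    (TensorProduct.map (Module.Dual.transpose (R := k) B) A) e
  rw [h1] at h2
  rw [h2, LinearMap.trace_tensorProduct', LinearMap.trace_transpose', mul_comm]

end Trace

/-! ### `sl / (sl ∩ scalars)` -/

section sl

variable (K : Type u) (V : Type v) [Field K] [AddCommGroup V] [Module K V]

/-- trace zero -/
noncomputable def Sl : Submodule K (Module.End K V) := LinearMap.ker (LinearMap.trace K V)

/-- scalars -/
def Sc : Submodule K (Module.End K V) := Submodule.span K {1}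

/-- scalars of trace zero -/
noncomputable def Sn : Submodule K (Sl K V) := (Sc K V).comap (Sl K V).subtype

/-- `sl / (sl ∩ scalars)` -/
abbrev SlW : Type v := Sl K V ⧸ Sn K V

variable {K V}

theorem mem_Sl {X : Module.End K V} : X ∈ Sl K V ↔ LinearMap.trace K V X = 0 := Iff.rfl

theorem mem_Sc {X : Module.End K V} : X ∈ Sc K V ↔ ∃ c : K, X = c • 1 := by
  rw [Sc, Submodule.mem_span_singleton]
  exact exists_congr fun c => eq_comm

/-- the class of `X` -/
noncomputable def mk (X : Module.End K V) (hX : X ∈ Sl K V) : SlW K V := Submodule.Quotient.mk ⟨X, hX⟩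

theorem mk_eq_zero {X : Module.End K V} {hX : X ∈ Sl K V} : mk X hX = 0 ↔ ∃ c : K, X = c • 1 := by
  rw [mk, Submodule.Quotient.mk_eq_zero, ← mem_Sc]
  exact Iff.rfl

theorem exists_mk (w : SlW K V) : ∃ (X : Module.End K V) (hX : X ∈ Sl K V), mk X hX = w := by
  obtain ⟨⟨X, hX⟩, rfl⟩ := Submodule.Quotient.mk_surjective _ w
  exact ⟨X, hX, rfl⟩

theorem mk_smul {X : Module.End K V} (c : K) (hX : X ∈ Sl K V) :
    c • mk X hX = mk (c • X) (Submodule.smul_mem _ c hX) := rfl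

theorem mk_congr {X Y : Module.End K V} (h : X = Y) (hX : X ∈ Sl K V) : mk X hX = mk Y (h ▸ hX) := by
  subst h
  rfl

/-- the endomorphism of `SlW` induced by `T` -/
noncomputable def ind (T : Module.End K (Module.End K V)) (h1 : ∀ X ∈ Sl K V, T X ∈ Sl K V) (h2 : T 1 ∈ Sc K V) :
    Module.End K (SlW K V) :=
  (Sn K V).mapQ (Sn K V) (T.restrict h1) (by
    rintro ⟨X, hX⟩ hX'
    obtain ⟨c, rfl⟩ := mem_Sc.1 hX'
    change T (c • 1) ∈ Sc K V
    rw [map_smul]
    exact Submodule.smul_mem _ _ h2)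

theorem ind_mk (T : Module.End K (Module.End K V)) (h1 : ∀ X ∈ Sl K V, T X ∈ Sl K V) (h2 : T 1 ∈ Sc K V)
    {X : Module.End K V} (hX : X ∈ Sl K V) : ind T h1 h2 (mk X hX) = mk (T X) (h1 X hX) := rfl

variable {G : Type w} [Group G]

theorem ad_mem_Sl (ρ : G →* Module.End K V) (g : G) (X : Module.End K V) (hX : X ∈ Sl K V) :
    ad ρ g X ∈ Sl K V := by
  rw [mem_Sl] at hX ⊢
  rw [ad_apply, LinearMap.trace_mul_comm, ← mul_assoc, ← map_mul, inv_mul_cancel, map_one, one_mul, hX]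

theorem ad_one' (ρ : G →* Module.End K V) (g : G) : ad ρ g 1 = 1 := by
  rw [ad_apply, mul_one, ← map_mul, mul_inv_cancel, map_one]

theorem one_mem_Sc : (1 : Module.End K V) ∈ Sc K V := mem_Sc.2 ⟨1, (one_smul _ _).symm⟩

/-- the representation on `SlW` -/
noncomputable def sg (ρ : G →* Module.End K V) : G →* Module.End K (SlW K V) where
  toFun g := ind (ad ρ g) (ad_mem_Sl ρ g) (by rw [ad_one']; exact one_mem_Sc)
  map_one' := by
    refine LinearMap.ext fun w => ?_
    obtain ⟨X, hX, rfl⟩ := exists_mk w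
    rw [ind_mk, Module.End.one_apply]
    exact mk_congr (by rw [map_one]; rfl) _
  map_mul' g h := by
    refine LinearMap.ext fun w => ?_
    obtain ⟨X, hX, rfl⟩ := exists_mk w
    rw [ind_mk, Module.End.mul_apply, ind_mk, ind_mk]
    exact mk_congr (by rw [map_mul]; rfl) _

theorem sg_mk (ρ : G →* Module.End K V) (g : G) {X : Module.End K V} (hX : X ∈ Sl K V) :
    sg ρ g (mk X hX) = mk (ad ρ g X) (ad_mem_Sl ρ g X hX) := rfl

theorem sg_cen (ρ : G →* Module.End K V) (z : G) (c : K) (h : ρ z = c • 1) : sg ρ z = 1 := by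
  refine LinearMap.ext fun w => ?_
  obtain ⟨X, hX, rfl⟩ := exists_mk w
  rw [sg_mk, Module.End.one_apply]
  refine mk_congr ?_ _
  rw [ad_apply, h, smul_mul_assoc, one_mul, smul_mul_assoc, ← mul_smul_comm]
  have h1 : c • ρ z⁻¹ = 1 := by
    have := map_mul ρ z z⁻¹
    rw [mul_inv_cancel, map_one, h, smul_mul_assoc, one_mul] at this
    exact this.symm
  rw [h1, mul_one]

/-! ### dimensions and traces -/

section fd

variable [FiniteDimensional K V]

theorem finrank_End : finrank K (Module.End K V) = finrank K V ^ 2 := by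
  rw [Module.finrank_linearMap, sq]

theorem trace_surj (h : 1 ≤ finrank K V) : Function.Surjective (LinearMap.trace K V) := by
  have hn : Nontrivial V := Module.finrank_pos_iff.1 h
  obtain ⟨v, hv⟩ := exists_ne (0 : V)
  obtain ⟨f, hf⟩ : ∃ f : Module.Dual K V, f v ≠ 0 := by
    by_contra hcon
    push Not at hcon
    exact hv ((Module.forall_dual_apply_eq_zero_iff K v).1 hcon)
  intro c
  refine ⟨(c / f v) • f.smulRight v, ?_⟩
  rw [map_smul, LinearMap.trace_smulRight, smul_eq_mul, div_mul_cancel₀ _ hf]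

theorem finrank_Sl (h : 1 ≤ finrank K V) : finrank K (Sl K V) = finrank K V ^ 2 - 1 := by
  have h1 := LinearMap.finrank_range_add_finrank_ker (LinearMap.trace K V)
  rw [LinearMap.range_eq_top.2 (trace_surj h), finrank_top, Module.finrank_self, finrank_End] at h1
  change finrank K (LinearMap.ker (LinearMap.trace K V)) = _
  omega

theorem finrank_SlW_le : finrank K (SlW K V) ≤ finrank K V ^ 2 := by
  rw [← finrank_End]
  exact (Submodule.finrank_quotient_le _).trans (Submodule.finrank_le _)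

theorem finrank_Sn_le : finrank K (Sn K V) ≤ 1 := by
  have h1 : finrank K (Sn K V) ≤ finrank K (Sc K V) := by
    refine LinearMap.finrank_le_finrank_of_injective
      (f := ((Sl K V).subtype.comp (Sn K V).subtype).codRestrict (Sc K V) (fun x => x.2)) ?_
    intro x y h
    have h2 := congrArg Subtype.val h
    exact Subtype.ext (Subtype.ext h2)
  refine h1.trans ?_
  have h2 := finrank_span_finset_le_card (R := K) ({1} : Finset (Module.End K V))
  rw [Finset.coe_singleton, Finset.card_singleton] at h2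
  exact h2

theorem trace_sg (h : 1 ≤ finrank K V) (ρ : G →* Module.End K V) (g : G) :
    LinearMap.trace K (SlW K V) (sg ρ g) =
      LinearMap.trace K V (ρ g) * LinearMap.trace K V (ρ g⁻¹) - ((1 + finrank K (Sn K V) : ℕ) : K) := by
  have h1 : LinearMap.trace K (Module.End K V) (ad ρ g) =
      LinearMap.trace K (Sl K V) ((ad ρ g).restrict (ad_mem_Sl ρ g)) + LinearMap.trace K K 1 := by
    refine trace_add (Sl K V).subtype (LinearMap.trace K V) (Subtype.val_injective) (trace_surj h)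
      (fun X hX => ⟨⟨X, hX⟩, rfl⟩) (fun s => s.2) _ _ _ (fun s => rfl) (fun X => ?_)
    rw [ad_apply, LinearMap.trace_mul_comm, ← mul_assoc, ← map_mul, inv_mul_cancel, map_one, one_mul]
    rfl
  have h2 : LinearMap.trace K (Sl K V) ((ad ρ g).restrict (ad_mem_Sl ρ g)) =
      LinearMap.trace K (Sn K V) 1 + LinearMap.trace K (SlW K V) (sg ρ g) := by
    refine (trace_add (S := Sn K V) (V := Sl K V) (Q := SlW K V) ((Sn K V).subtype :) ((Sn K V).mkQ :)
      (Subtype.val_injective) (Submodule.mkQ_surjective _)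
      (fun X hX => ⟨⟨X, (Submodule.Quotient.mk_eq_zero _).1 hX⟩, rfl⟩)
      (fun s => (Submodule.Quotient.mk_eq_zero _).2 s.2) _ 1 (sg ρ g) (fun s => ?_) (fun X => rfl) :)
    obtain ⟨⟨X, hX⟩, hX'⟩ := s
    obtain ⟨c, rfl⟩ := mem_Sc.1 hX'
    apply Subtype.ext
    change ad ρ g (c • 1) = c • 1
    rw [map_smul, ad_one']
  have h3 : LinearMap.trace K (Sn K V) 1 = (finrank K (Sn K V) : K) := trace_one_fd (k := K) (V := Sn K V)
  rw [trace_mul_mul (ρ g) (ρ g⁻¹) (ad ρ g) (fun X => rfl), h2, h3, LinearMap.trace_one, Module.finrank_self] at h1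
  rw [h1]
  push_cast
  ring

/-- rank one endomorphisms of trace zero are not scalar -/
theorem sq_zero_not_scalar [Nontrivial V] {a : Module.End K V} (ha : a ≠ 0) (h2 : a * a = 0) : ¬ ∃ c : K, a = c • 1 := by
  rintro ⟨c, rfl⟩
  have h3 : c * c = 0 := by
    have h4 : (c * c) • (1 : Module.End K V) = 0 := by
      rw [← h2, smul_mul_smul_comm, mul_one]
    exact (smul_eq_zero.1 h4).resolve_right one_ne_zero
  exact ha (by rw [mul_self_eq_zero.1 h3, zero_smul])

theorem nontrivial_SlW (h2 : 2 ≤ finrank K V) : Nontrivial (SlW K V) := by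
  have hn : Nontrivial V := (Module.finrank_pos_iff (R := K)).1 (by omega)
  obtain ⟨v, hv⟩ := exists_ne (0 : V)
  -- a functional vanishing on `v`
  obtain ⟨f, hf0, hf⟩ : ∃ f : Module.Dual K V, f ≠ 0 ∧ f v = 0 := by
    have hlt : Submodule.span K {v} < ⊤ := by
      rw [lt_top_iff_ne_top]
      intro h
      have h3 := finrank_span_singleton (K := K) hv
      rw [h, finrank_top] at h3
      omega
    obtain ⟨f, hf0, hf⟩ := Submodule.exists_le_ker_of_lt_top _ hlt
    exact ⟨f, hf0, hf (Submodule.mem_span_singleton_self v)⟩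
  have ha0 : f.smulRight v ≠ 0 := by
    intro h
    apply hf0
    ext x
    have := LinearMap.congr_fun h x
    rw [LinearMap.smulRight_apply, LinearMap.zero_apply, smul_eq_zero] at this
    exact this.resolve_right hv
  have ha2 : f.smulRight v * f.smulRight v = 0 := by
    ext x
    simp only [Module.End.mul_apply, LinearMap.smulRight_apply, map_smul, hf, smul_zero, zero_smul,
      LinearMap.zero_apply]
  have hm : f.smulRight v ∈ Sl K V := by rw [mem_Sl, LinearMap.trace_smulRight, hf]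
  exact ⟨mk _ hm, 0, fun h => sq_zero_not_scalar ha0 ha2 (mk_eq_zero.1 h)⟩

/-- `inh` -/
theorem irr_sg (h2 : 2 ≤ finrank K V) (ρ : G →* Module.End K V)
    (sub : ∀ S : Submodule K (Module.End K V), _root_.Cfsg.Agent.H883.BR.Inv (ad ρ) ⊤ S → (∀ X ∈ S, ∃ c : K, X = c • 1) ∨ Sl K V ≤ S)
    (M : Subgroup G) (hM : Dns (ad ρ) M) : (Irr ((sg ρ :)) M :) := by
  refine ⟨nontrivial_SlW h2, fun U hU => ?_⟩
  let S : Submodule K (Module.End K V) := (U.comap (Sn K V).mkQ).map (Sl K V).subtype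
  have hS : ∀ X, X ∈ S ↔ ∃ hX : X ∈ Sl K V, mk X hX ∈ U := by
    intro X
    constructor
    · rintro ⟨⟨Y, hY⟩, hYU, rfl⟩
      exact ⟨hY, hYU⟩
    · rintro ⟨hX, hXU⟩
      exact ⟨⟨X, hX⟩, hXU, rfl⟩
  have hinv : _root_.Cfsg.Agent.H883.BR.Inv (ad ρ) M S := by
    intro h hh X hX
    obtain ⟨hX1, hX2⟩ := (hS X).1 hX
    refine (hS _).2 ⟨ad_mem_Sl ρ h X hX1, ?_⟩
    rw [← sg_mk ρ h hX1]
    exact hU h hh _ hX2
  rcases sub S (hM S hinv) with h | h
  · left
    rw [eq_bot_iff]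
    intro w hw
    obtain ⟨X, hX, rfl⟩ := exists_mk w
    rw [Submodule.mem_bot]
    exact mk_eq_zero.2 (h X ((hS X).2 ⟨hX, hw⟩))
  · right
    rw [eq_top_iff]
    intro w _
    obtain ⟨X, hX, rfl⟩ := exists_mk w
    exact ((hS X).1 (h hX)).2

theorem two_le_finrank_SlW (h2 : 2 ≤ finrank K V) : 2 ≤ finrank K (SlW K V) := by
  have h1 := Submodule.finrank_quotient_add_finrank (Sn K V)
  have h3 := finrank_Sn_le (K := K) (V := V)
  have h4 := finrank_Sl (K := K) (V := V) (by omega)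
  have h5 : 2 ^ 2 ≤ finrank K V ^ 2 := Nat.pow_le_pow_left h2 2
  change finrank K (Sl K V ⧸ Sn K V) + _ = _ at h1
  change 2 ≤ finrank K (Sl K V ⧸ Sn K V)
  omega

/-- an irreducible representation of dimension `> 1` is not trivial -/
theorem exists_ne_one {W : Type*} [AddCommGroup W] [Module K W] [FiniteDimensional K W] (σ : G →* Module.End K W)
    (h2 : 2 ≤ finrank K W) (hirr : Irr σ ⊤) : ∃ g, σ g ≠ 1 := by
  by_contra hcon
  push Not at hcon
  have hnt := hirr.1
  obtain ⟨w, hw⟩ := exists_ne (0 : W)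
  have h1 := finrank_span_singleton (K := K) hw
  rcases hirr.2 (Submodule.span K {w}) (fun h _ v hv => by rw [hcon h]; exact hv) with h | h
  · rw [h, finrank_bot] at h1
    omega
  · rw [h, finrank_top] at h1
    omega

/-- `ext` -/
theorem ext_sg {p : ℕ} (hp : p.Prime) [CharP K p] [Finite G] (h2 : 2 ≤ finrank K V) (ρ : G →* Module.End K V)
    (hinj : Function.Injective ρ)
    (sub : ∀ S : Submodule K (Module.End K V), _root_.Cfsg.Agent.H883.BR.Inv (ad ρ) ⊤ S → (∀ X ∈ S, ∃ c : K, X = c • 1) ∨ Sl K V ≤ S)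
    (M U : Subgroup G) (_hUM : U ≤ M) (hU : IsPGroup p U) (hU1 : U ≠ ⊥) (w : SlW K V) (_hw : w ≠ 0)
    (hfix : ∀ v : SlW K V, (∀ u ∈ U, sg ρ u v = v) ↔ ∃ c : K, v = c • w) :
    ∃ z ∈ U, ∃ a : Module.End K V, a ≠ 0 ∧ a * a = 0 ∧ ρ z = 1 + a ∧
      (∀ b ∈ M, (∀ u ∈ U, b * u * b⁻¹ ∈ U) → ∀ c : K, sg ρ b w = c • w → ad ρ b a = c • a) ∧
      ∀ S : Submodule K (Module.End K V), _root_.Cfsg.Agent.H883.BR.Inv (ad ρ) ⊤ S → a ∈ S → finrank K V ^ 2 - 1 ≤ Module.finrank K S := by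
  have hpf : Fact p.Prime := ⟨hp⟩
  have hnV : Nontrivial V := (Module.finrank_pos_iff (R := K)).1 (by omega)
  have hnE : Nontrivial (Module.End K V) := inferInstance
  have hcE : CharP (Module.End K V) p := charP_of_injective_algebraMap (algebraMap K (Module.End K V)).injective p
  -- a fixed functional
  obtain ⟨f, -, hf0, hff⟩ : ∃ f ∈ (⊤ : Submodule K (Module.Dual K V)), f ≠ 0 ∧
      ∀ g : U, Representation.dual (ρ.comp U.subtype : Representation K U V) g f = f := by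
    refine Cfsg.Agent.H666.exists_fixed_ne_zero hU _ ⊤ (fun _ _ _ => trivial) ?_
    have : Nontrivial (Module.Dual K V) := inferInstance
    exact top_ne_bot
  have hff' : ∀ u ∈ U, ∀ x, f (ρ u⁻¹ x) = f x := by
    intro u hu x
    have := LinearMap.congr_fun (hff ⟨u, hu⟩) x
    exact this
  have hff'' : ∀ u ∈ U, ∀ x, f (ρ u x) = f x := by
    intro u hu x
    have := hff' u⁻¹ (inv_mem hu) x
    rwa [inv_inv] at this
  -- a fixed vector in its kernel
  obtain ⟨v, hvk, hv0, hvf⟩ : ∃ v ∈ LinearMap.ker f, v ≠ 0 ∧ ∀ g : U, (ρ.comp U.subtype : Representation K U V) g v = v := by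
    refine Cfsg.Agent.H666.exists_fixed_ne_zero hU _ (LinearMap.ker f) (fun g u hu => ?_) ?_
    · rw [LinearMap.mem_ker] at hu ⊢
      exact (hff'' g g.2 u).trans hu
    · intro h
      have h3 := LinearMap.finrank_range_add_finrank_ker f
      rw [h, finrank_bot] at h3
      have h4 := Submodule.finrank_le (LinearMap.range f)
      rw [Module.finrank_self] at h4
      omega
  have hfv : f v = 0 := hvk
  have hvf' : ∀ u ∈ U, ρ u v = v := fun u hu => hvf ⟨u, hu⟩
  set a0 : Module.End K V := f.smulRight v with ha0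
  have ha00 : a0 ≠ 0 := by
    intro h
    apply hf0
    ext x
    have := LinearMap.congr_fun h x
    rw [ha0, LinearMap.smulRight_apply, LinearMap.zero_apply, smul_eq_zero] at this
    exact this.resolve_right hv0
  have ha02 : a0 * a0 = 0 := by
    ext x
    simp only [ha0, Module.End.mul_apply, LinearMap.smulRight_apply, map_smul, hfv, smul_zero, zero_smul,
      LinearMap.zero_apply]
  have ham : a0 ∈ Sl K V := by rw [mem_Sl, ha0, LinearMap.trace_smulRight, hfv]
  have had : ∀ u ∈ U, ad ρ u a0 = a0 := by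
    intro u hu
    ext x
    rw [ad_apply, Module.End.mul_apply, Module.End.mul_apply, ha0, LinearMap.smulRight_apply, map_smul, hvf' u hu,
      hff' u hu, LinearMap.smulRight_apply]
  have hns := sq_zero_not_scalar ha00 ha02
  have hmk0 : mk a0 ham ≠ 0 := fun h => hns (mk_eq_zero.1 h)
  obtain ⟨c0, hc0⟩ := (hfix (mk a0 ham)).1 fun u hu => by
    rw [sg_mk]
    exact mk_congr (had u hu) _
  have hc00 : c0 ≠ 0 := by
    rintro rfl
    exact hmk0 (by rw [hc0, zero_smul])
  -- elements of `C_U(U)`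
  have key : ∀ y ∈ U, (∀ u ∈ U, u * y = y * u) → ∃ c : K, ρ y - 1 = c • a0 := by
    intro y hy hcom
    set X := ρ y - 1 with hX
    have hXn : IsNilpotent X := by
      obtain ⟨k, hk⟩ := hU ⟨y, hy⟩
      refine ⟨p ^ k, ?_⟩
      rw [hX, sub_pow_char_pow_of_commute _ _ (Commute.one_right _), one_pow, ← map_pow]
      have : y ^ p ^ k = 1 := congrArg Subtype.val hk
      rw [this, map_one, sub_self]
    have hXt : X ∈ Sl K V := by
      rw [mem_Sl]
      exact (LinearMap.isNilpotent_trace_of_isNilpotent hXn).eq_zero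
    have hXc : ∀ u ∈ U, ad ρ u X = X := by
      intro u hu
      rw [ad_apply, hX, mul_sub, sub_mul, mul_one, ← map_mul, ← map_mul, ← map_mul, hcom u hu, mul_inv_cancel_right,
        mul_inv_cancel, map_one]
    obtain ⟨c, hc⟩ := (hfix (mk X hXt)).1 fun u hu => by
      rw [sg_mk]
      exact mk_congr (hXc u hu) _
    have h3 : mk X hXt - (c / c0) • mk a0 ham = 0 := by
      rw [hc0, smul_smul, div_mul_cancel₀ _ hc00, hc, sub_self]
    obtain ⟨s, hs⟩ := mk_eq_zero.1 (show mk (X - (c / c0) • a0) (sub_mem hXt (Submodule.smul_mem _ _ ham)) = 0 from h3)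
    have hsX : X - s • 1 = (c / c0) • a0 := by rw [← hs]; abel
    have h4 : IsNilpotent (X - s • (1 : Module.End K V)) := by
      refine ⟨2, ?_⟩
      rw [hsX, sq, smul_mul_smul_comm, ha02, smul_zero]
    have h5 : IsNilpotent (s • (1 : Module.End K V)) := by
      have hcomm : Commute X (X - s • (1 : Module.End K V)) :=
        (Commute.refl X).sub_right ((Commute.one_right X).smul_right s)
      have h6 := hcomm.isNilpotent_sub hXn h4
      have h7 : X - (X - s • (1 : Module.End K V)) = s • (1 : Module.End K V) := by abel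
      rwa [h7] at h6
    have hs0 : s = 0 := by
      obtain ⟨m, hm⟩ := h5
      rw [smul_pow, one_pow, smul_eq_zero] at hm
      exact eq_zero_of_pow_eq_zero (hm.resolve_right one_ne_zero)
    exact ⟨c / c0, by rw [← hsX, hs0, zero_smul, sub_zero]⟩
  -- a central element
  have hnU : Nontrivial U := (Subgroup.nontrivial_iff_ne_bot U).2 hU1
  have hfU : Finite U := inferInstance
  have hcen := hU.center_nontrivial
  obtain ⟨⟨z, hzc⟩, hz1⟩ := exists_ne (1 : Subgroup.center U)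
  have hzcom : ∀ u ∈ U, u * (z : G) = (z : G) * u := by
    intro u hu
    exact congrArg Subtype.val (Subgroup.mem_center_iff.1 hzc ⟨u, hu⟩)
  have hz1' : (z : G) ≠ 1 := by
    intro h
    exact hz1 (Subtype.ext (Subtype.ext h))
  obtain ⟨cz, hcz⟩ := key z z.2 hzcom
  have hcz0 : cz ≠ 0 := by
    rintro rfl
    rw [zero_smul, sub_eq_zero] at hcz
    exact hz1' (hinj (by rw [hcz, map_one]))
  have hane : cz • a0 ≠ 0 := smul_ne_zero hcz0 ha00
  have haa : (cz • a0) * (cz • a0) = 0 := by rw [smul_mul_smul_comm, ha02, smul_zero]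
  refine ⟨z, z.2, cz • a0, hane, haa, by rw [← hcz]; abel, ?_, ?_⟩
  · intro b hb hbU c hc
    have hbij : ∀ u ∈ U, ∃ u' ∈ U, b * u' * b⁻¹ = u := by
      intro u hu
      have hinjU : Function.Injective (fun x : U => (⟨b * x * b⁻¹, hbU x x.2⟩ : U)) := by
        intro x y hxy
        have := congrArg Subtype.val hxy
        apply Subtype.ext
        simpa only [_root_.SetLike.coe_eq_coe, _root_.mul_left_inj, _root_.mul_right_inj] using this
      obtain ⟨x, hx⟩ := (Finite.injective_iff_surjective.1 hinjU) ⟨u, hu⟩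
      exact ⟨x, x.2, congrArg Subtype.val hx⟩
    obtain ⟨c', hc'⟩ := key (b * z * b⁻¹) (hbU z z.2) (by
      intro u hu
      obtain ⟨u', hu', rfl⟩ := hbij u hu
      have h3 := hzcom u' hu'
      calc b * u' * b⁻¹ * (b * (z : G) * b⁻¹) = b * (u' * (z : G)) * b⁻¹ := by group
        _ = b * ((z : G) * u') * b⁻¹ := by rw [h3]
        _ = _ := by group)
    have h3 : ad ρ b (cz • a0) = c' • a0 := by
      rw [← hcz, ← hc', ad_apply, map_mul, map_mul, mul_sub, sub_mul, mul_one, ← map_mul ρ b b⁻¹, mul_inv_cancel,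
        map_one]
    have ham' : cz • a0 ∈ Sl K V := Submodule.smul_mem _ _ ham
    have h4 : sg ρ b (mk (cz • a0) ham') = c • mk (cz • a0) ham' := by
      have h5 : mk (cz • a0) ham' = (cz * c0) • w := by
        have h7 : mk (cz • a0) ham' = cz • mk a0 ham := rfl
        rw [h7, hc0, smul_smul]
      rw [h5, map_smul, hc, smul_comm]
    have h5 : mk (c' • a0) (Submodule.smul_mem _ _ ham) = c • mk (cz • a0) ham' := by
      rw [← h4, sg_mk]
      exact mk_congr h3.symm _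
    have h6 : c' = c * cz := by
      rw [mk_smul] at h5
      have h7 : mk (c' • a0) (Submodule.smul_mem _ _ ham) = c' • mk a0 ham := rfl
      have h8 : mk (c • cz • a0) (Submodule.smul_mem _ c ham') = (c * cz) • mk a0 ham := by
        rw [mul_smul]
        rfl
      rw [h7, h8] at h5
      exact smul_left_injective K hmk0 h5
    rw [h3, h6, mul_smul]
  · intro S hS haS
    rcases sub S hS with h | h
    · exact absurd (h _ haS) (sq_zero_not_scalar hane haa)
    · rw [← finrank_Sl (by omega)]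
      exact Submodule.finrank_mono h

end fd

/-! ### root elements -/

/-- the inverse of `1 + t a` -/
theorem rho_inv (ρ : G →* Module.End K V) {g : G} {a : Module.End K V} (ha : a * a = 0) {t : K} (h : ρ g = 1 + t • a) :
    ρ g⁻¹ = 1 - t • a := by
  have h1 : ρ g * (1 - t • a) = 1 := by
    have h2 : ∀ b : Module.End K V, (1 + b) * (1 - b) = 1 - b * b := fun b => by noncomm_ring
    rw [h, h2, smul_mul_smul_comm, ha, smul_zero, sub_zero]
  calc ρ g⁻¹ = ρ g⁻¹ * (ρ g * (1 - t • a)) := by rw [h1, mul_one]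
    _ = 1 - t • a := by rw [← mul_assoc, ← map_mul, inv_mul_cancel, map_one, one_mul]

theorem ad_root (ρ : G →* Module.End K V) {g : G} {a : Module.End K V} (ha : a * a = 0) {t : K} (h : ρ g = 1 + t • a)
    (X : Module.End K V) : ad ρ g X = X + t • (a * X - X * a) - t ^ 2 • (a * X * a) := by
  have h2 : ∀ b : Module.End K V, (1 + b) * X * (1 - b) = X + b * X - X * b - b * X * b :=
    fun b => by noncomm_ring
  have h3 : (t • a) * X * (t • a) = t ^ 2 • (a * X * a) := by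
    rw [smul_mul_assoc, smul_mul_assoc, mul_smul_comm, smul_smul, sq]
  rw [ad_apply, rho_inv ρ ha h, h, h2, h3, smul_mul_assoc, mul_smul_comm, smul_sub]
  abel

/-- E2 -/
theorem root_mem {F : Subfield K} [Finite F] (h3 : 3 ≤ Nat.card F) {ρ : G →* Module.End K V}
    {S : Submodule K (Module.End K V)} (hS : _root_.Cfsg.Agent.H883.BR.Inv (ad ρ) ⊤ S) {a X : Module.End K V} (ha : Rt ρ F ⊤ a) (hX : X ∈ S) :
    a * X - X * a ∈ S ∧ a * X * a ∈ S := by
  obtain ⟨s, hs0, hs1⟩ : ∃ s : F, s ≠ 0 ∧ s ≠ 1 := by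
    classical
    have := Fintype.ofFinite F
    by_contra hcon
    push Not at hcon
    have h1 : (Finset.univ : Finset F) ⊆ {0, 1} := by
      intro x _
      simp only [Finset.mem_insert, Finset.mem_singleton]
      by_cases hx : x = 0
      · exact Or.inl hx
      · exact Or.inr (hcon x hx)
    have h2 := Finset.card_le_card h1
    have h4 : ({0, 1} : Finset F).card ≤ 2 := Finset.card_le_two
    rw [Finset.card_univ, ← Nat.card_eq_fintype_card] at h2
    omega
  have hs0' : (s : K) ≠ 0 := fun h => hs0 (Subtype.ext h)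
  have hs1' : (s : K) ≠ 1 := fun h => hs1 (Subtype.ext h)
  have key : ∀ t ∈ F, t • (a * X - X * a) - t ^ 2 • (a * X * a) ∈ S := by
    intro t ht
    obtain ⟨g, hg, hg'⟩ := ha.2 t ht
    have h1 := hS g hg X hX
    rw [ad_root ρ ha.1 hg'] at h1
    have h2 := sub_mem h1 hX
    have h4 : X + t • (a * X - X * a) - t ^ 2 • (a * X * a) - X = t • (a * X - X * a) - t ^ 2 • (a * X * a) := by abel
    rwa [h4] at h2
  have k1 := key 1 (one_mem F)
  have k2 := key s s.2
  rw [one_smul, one_pow, one_smul] at k1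
  have h5 : a * X * a ∈ S := by
    have h6 : ((s : K) * (s - 1)) • (a * X * a) ∈ S := by
      have h7 : ((s : K) * (s - 1)) • (a * X * a) =
          (s : K) • (a * X - X * a - a * X * a) - ((s : K) • (a * X - X * a) - (s : K) ^ 2 • (a * X * a)) := by
        module
      rw [h7]
      exact sub_mem (Submodule.smul_mem _ _ k1) k2
    exact (Submodule.smul_mem_iff _ (mul_ne_zero hs0' (sub_ne_zero.2 hs1'))).1 h6
  refine ⟨?_, h5⟩
  have := add_mem k1 h5
  rwa [sub_add_cancel] at this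

/-- `G`-invariant subspaces of `End V` are scalar or contain `sl` -/
theorem sl_sub {F : Subfield K} [Finite F] (h3 : 3 ≤ Nat.card F) {ρ : G →* Module.End K V} (A : Set (Module.End K V))
    (hA : ∀ a ∈ A, Rt ρ F ⊤ a) (hr : ∀ a ∈ A, ∀ X : Module.End K V, ∃ c : K, a * X * a = c • a)
    (hconj : ∀ S : Submodule K (Module.End K V), _root_.Cfsg.Agent.H883.BR.Inv (ad ρ) ⊤ S → ∀ a ∈ A, a ∈ S → ∀ b ∈ A, b ∈ S)
    (hspan : Sl K V ≤ Submodule.span K A)
    (hX : ∀ X : Module.End K V, (∀ a ∈ A, a * X * a = 0) → ∃ c : K, X = c • 1)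
    (S : Submodule K (Module.End K V)) (hS : _root_.Cfsg.Agent.H883.BR.Inv (ad ρ) ⊤ S) : (∀ X ∈ S, ∃ c : K, X = c • 1) ∨ Sl K V ≤ S := by
  by_cases h : ∃ X ∈ S, ¬ ∃ c : K, X = c • 1
  · right
    obtain ⟨X, hXS, hXn⟩ := h
    obtain ⟨a, ha, hne⟩ : ∃ a ∈ A, a * X * a ≠ 0 := by
      by_contra hcon
      push Not at hcon
      exact hXn (hX X hcon)
    obtain ⟨c, hc⟩ := hr a ha X
    have hc0 : c ≠ 0 := by
      rintro rfl
      exact hne (by rw [hc, zero_smul])
    have h1 := (root_mem h3 hS (hA a ha) hXS).2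
    rw [hc] at h1
    have haS : a ∈ S := (Submodule.smul_mem_iff _ hc0).1 h1
    exact hspan.trans (Submodule.span_le.2 fun b hb => hconj S hS a ha haS b hb)
  · left
    push Not at h
    exact h

/-- `x i 0 = 1` -/
theorem x_zero {F : Subfield K} {ι : Type*} {x : ι → F → G} (hx : OneP F x) (i : ι) : x i 0 = 1 := by
  have h := hx.add i 0 0
  rw [add_zero] at h
  exact (mul_eq_left.1 h.symm)

/-- a polynomial of degree one comes from a square zero endomorphism -/
theorem exists_E {F : Subfield K} {ι : Type*} {x : ι → F → G} (hx : OneP F x) {ρ : G →* Module.End K V}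
    (h : PolyDeg ρ F x 1) (i : ι) :
    ∃ E : Module.End K V, E * E = 0 ∧ ∀ t : F, ρ (x i t) = 1 + (t : K) • E := by
  obtain ⟨c, hc⟩ := h i
  have hc' : ∀ t : F, ρ (x i t) = c 0 + (t : K) • c 1 := by
    intro t
    rw [hc t, Finset.sum_range_succ, Finset.sum_range_succ, Finset.sum_range_zero, zero_add, pow_zero, pow_one,
      one_smul]
  have h0 : c 0 = 1 := by
    have := hc' 0
    rw [x_zero hx, map_one] at this
    simpa using this.symm
  rw [h0] at hc'
  refine ⟨c 1, ?_, hc'⟩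
  have h1 := hx.add i 1 1
  have h2 := congrArg ρ h1
  rw [map_mul, hc', hc'] at h2
  have h3 : ((1 + 1 : F) : K) = 1 + 1 := by push_cast; ring
  rw [h3, mul_add, add_mul, add_mul, one_mul, mul_one, one_mul, add_smul] at h2
  have h4 : ((1 : F) : K) = 1 := rfl
  rw [h4, one_smul] at h2
  have h5 : (c 1) * (c 1) = (1 + c 1 + (c 1 + c 1 * c 1)) - (1 + (c 1 + c 1)) := by abel
  rw [h5, ← h2, sub_self]

theorem polyDeg_sg {F : Subfield K} {ι : Type*} {x : ι → F → G} (hx : OneP F x) {ρ : G →* Module.End K V}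
    (h : PolyDeg ρ F x 1) : (PolyDeg ((sg ρ :)) F x 2 :) := by
  intro i
  obtain ⟨E, hE, hρ⟩ := exists_E hx h i
  let T1 : Module.End K (Module.End K V) := LinearMap.mulLeft K E - LinearMap.mulRight K E
  let T2 : Module.End K (Module.End K V) := LinearMap.mulLeft K E ∘ₗ LinearMap.mulRight K E
  have hT1 : ∀ X, T1 X = E * X - X * E := fun X => rfl
  have hT2 : ∀ X, T2 X = E * X * E := fun X => (mul_assoc E X E).symm
  have a1 : ∀ X ∈ Sl K V, T1 X ∈ Sl K V := by
    intro X _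
    rw [mem_Sl, hT1, map_sub, LinearMap.trace_mul_comm, sub_self]
  have b1 : T1 1 ∈ Sc K V := by
    rw [hT1, mul_one, one_mul, sub_self]
    exact zero_mem _
  have a2 : ∀ X ∈ Sl K V, T2 X ∈ Sl K V := by
    intro X _
    rw [mem_Sl, hT2, LinearMap.trace_mul_comm, ← mul_assoc, hE, zero_mul, map_zero]
  have b2 : T2 1 ∈ Sc K V := by
    rw [hT2, mul_one, hE]
    exact zero_mem _
  refine ⟨fun j => if j = 0 then 1 else if j = 1 then ind T1 a1 b1 else -(ind T2 a2 b2), fun t => ?_⟩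
  rw [Finset.sum_range_succ, Finset.sum_range_succ, Finset.sum_range_succ, Finset.sum_range_zero, zero_add]
  change sg ρ (x i t) = (t : K) ^ 0 • (1 : Module.End K (SlW K V)) + (t : K) ^ 1 • ind T1 a1 b1 +
    (t : K) ^ 2 • (-(ind T2 a2 b2))
  rw [pow_zero, pow_one, one_smul]
  refine LinearMap.ext fun w => ?_
  obtain ⟨X, hX, rfl⟩ := exists_mk w
  rw [sg_mk, LinearMap.add_apply, LinearMap.add_apply, LinearMap.smul_apply, LinearMap.smul_apply, LinearMap.neg_apply,
    ind_mk, ind_mk, Module.End.one_apply, smul_neg, ← sub_eq_add_neg]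
  have h1 : mk (ad ρ (x i t) X) (ad_mem_Sl ρ (x i t) X hX) =
      mk (X + (t : K) • T1 X - (t : K) ^ 2 • T2 X)
        (sub_mem (add_mem hX (Submodule.smul_mem _ _ (a1 X hX))) (Submodule.smul_mem _ _ (a2 X hX))) :=
    mk_congr (by rw [ad_root ρ hE (hρ t), hT1, hT2]) _
  rw [h1]
  rfl

end sl

/-! ### The family -/

/-- **the generic part of `Fam` for `SL` and `SU`** -/
theorem fam_core {p n q : ℕ} {K : Type u} [Field K] {F : Subfield K} {G : Type w} [Group G] {V : Type u}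
    [AddCommGroup V] [Module K V] {ρ : G →* Module.End K V} (prime : p.Prime) (char : CharP K p)
    (closed : IsAlgClosed K) (locfin : ∀ S : Set K, S.Finite → ∃ E : Subfield K, Finite E ∧ S ⊆ E)
    (finF : Finite F) (cardF : Nat.card F = q) (finG : Finite G) (qs : QS G) (fdV : FiniteDimensional K V)
    (dimV : finrank K V = n) (two_le : 2 ≤ n) (inj : Function.Injective ρ) (irr : Irr ρ ⊤) (tprim : TPrim ρ)
    (root : ∃ (ι : Type w) (x : ι → F → G), OneP F x ∧ PolyDeg ρ F x 1)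
    (sub : ∀ S : Submodule K (Module.End K V), _root_.Cfsg.Agent.H883.BR.Inv (ad ρ) ⊤ S → (∀ X ∈ S, ∃ c : K, X = c • 1) ∨ Sl K V ≤ S)
    (count : ∀ M : Subgroup G, M ≠ ⊤ → Nat.card M < Nat.choose (q - 1 + (n ^ 2 - 1)) (n ^ 2 - 1))
    (trF : ∀ g : G, LinearMap.trace K V (ρ g) * LinearMap.trace K V (ρ g⁻¹) ∈ F) (hq : 2 * n ^ 2 < q)
    (pw : ∀ k, 0 < k → 2 * k + 1 < q → ∃ g : G, ad ρ (g ^ k) ≠ 1) :
    (Fam p n (n ^ 2 - 1) q F ρ ((sg ρ :)) :) where
  prime := prime
  char := char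
  closed := closed
  locfin := locfin
  finF := finF
  cardF := cardF
  finG := finG
  qs := qs
  fdV := fdV
  fdW := inferInstance
  dimV := dimV
  two_le := two_le
  dimW := by rw [← dimV]; exact finrank_SlW_le
  inj := inj
  irr := irr
  tprim := tprim
  root := by
    obtain ⟨ι, x, hx, hp⟩ := root
    exact ⟨ι, x, hx, hp, polyDeg_sg hx hp⟩
  inh := fun M hM => irr_sg (by omega) ρ sub M hM
  cen := sg_cen ρ
  ext := by
    intro M U hUM hU hU1 _ w hw hfix
    rw [← dimV]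
    exact ext_sg prime (by omega) ρ inj sub M U hUM hU hU1 w hw hfix
  count := count
  trF := fun g => by
    rw [trace_sg (by omega)]
    exact sub_mem (trF g) (natCast_mem F _)
  trn := by
    obtain ⟨ι, x, hx, hp⟩ := root
    have hirr : (Irr ((sg ρ :)) ⊤ :) := irr_sg (by omega) ρ sub ⊤ (fun _ h => h)
    refine Cfsg.Agent.H583.BR.Trn.trn_of_irr hirr hx (polyDeg_sg hx hp) ?_
      (exists_ne_one ((sg ρ :)) (two_le_finrank_SlW (by omega)) hirr)
    have h1 := finrank_SlW_le (K := K) (V := V)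
    rw [dimV] at h1
    rw [cardF]
    omega
  pw := pw

/-! ### Counting -/

end Cfsg.Agent.H744.BR
end

private theorem dce_0668b0dd7b5d : _root_.True := by
  try have : _root_.True := by simp only [_root_.Cfsg.Agent.H744.BR.mk.eq_1]
  try have : _root_.True := by simp only [_root_.Cfsg.Agent.H744.BR.Sc.eq_1]
  exact _root_.True.intro
end
end
end
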